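import Cfsg.Agent.H49.BN2Defs

/-! Higman's inequality for octagons (project BN2, piece HIG). -/

set_option autoImplicit false
set_option linter.unusedSectionVars false

namespace Cfsg.Agent.H16.BnHig

open Cfsg.Agent.H49.BN2 Finset

universe u

variable {X : Type u} [Fintype X] [DecidableEq X]

theorem cube (P : Finset X) (f : X → X → ℝ) :
    0 ≤ ∑ a ∈ P, ∑ b ∈ P, (∑ c, f a c * f b c) ^ 3 := by
  have h : ∀ a b, (∑ c, f a c * f b c) ^ 3 = ∑ τ : X × X × X,
      f a τ.1 * f a τ.2.1 * f a τ.2.2 * (f b τ.1 * f b τ.2.1 * f b τ.2.2) := fun a b => by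
    simp only [Fintype.sum_prod_type, pow_succ', pow_zero, mul_one]
    rw [sum_mul]
    refine sum_congr rfl fun i _ => ?_
    rw [sum_mul_sum, mul_sum]
    refine sum_congr rfl fun j _ => ?_
    rw [mul_sum]
    exact sum_congr rfl fun k _ => by ring
  simp only [h]
  rw [sum_congr rfl fun a _ => sum_comm, sum_comm]
  exact sum_nonneg fun τ _ => by rw [← sum_mul_sum]; exact mul_self_nonneg _

variable {Γ : Pol 8 X}

/-- the weights -/
noncomputable def m (Γ : Pol 8 X) (ρ : ℝ) (a b : X) : ℝ :=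
  if Even (Γ.d a b) then ρ ^ (Γ.d a b / 2) else 0

/-- sums over the neighbours -/
noncomputable def ls (Γ : Pol 8 X) (φ : X → ℝ) (l : X) : ℝ := ∑ b, if Γ.d l b = 1 then φ b else 0

theorem line (B : Γ.Bas) {a l : X} {j : ℕ} (h : Γ.d a l = 2 * j + 1) :
    ∃ b, Γ.d a b = 2 * j ∧ ∀ (φ : X → ℝ) (v : ℝ), (∀ c, Γ.d a c = 2 * j + 2 → φ c = v) →
      ls Γ φ l = φ b + Γ.q l * v := by
  have h1 := Γ.d_le a l
  obtain ⟨b, h2, h3⟩ := Γ.ex l a fun e => by
    rw [e, (Γ.d_zero a a).2 rfl] at h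
    omega
  rw [Γ.d_symm l, Γ.d_symm b] at h3
  refine ⟨b, by omega, fun φ v hv => ?_⟩
  have h4 : ((univ.filter fun c => Γ.d l c = 1).erase b).card = Γ.q l := by
    rw [← B.card_nb l b h2, ← Set.ncard_coe_finset]
    congr 1
    ext c
    simp [Pol.nb, and_comm]
  rw [ls, ← sum_filter, ← add_sum_erase _ _ (show b ∈ _ by simpa using h2),
    sum_congr rfl (g := fun _ => v) fun c hc => ?_, sum_const, h4, nsmul_eq_mul]
  rw [mem_erase, mem_filter] at hc
  exact hv c (by rw [B.away l b c a h2 hc.2.2 hc.1.symm (by omega) (by omega), h])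

theorem ls_m (B : Γ.Bas) (ρ : ℝ) {a l : X} {j : ℕ} (h : Γ.d a l = 2 * j + 1) :
    ls Γ (m Γ ρ a) l = ρ ^ j + Γ.q l * ρ ^ (j + 1) := by
  obtain ⟨b, h1, h2⟩ := line B h
  rw [h2 _ (ρ ^ (j + 1)) fun c hc => by
    rw [m, hc, if_pos ⟨j + 1, by omega⟩, show (2 * j + 2) / 2 = j + 1 by omega]]
  rw [m, h1, if_pos ⟨j, by omega⟩, show 2 * j / 2 = j by omega]

theorem harm (B : Γ.Bas) {a : X} {s : ℝ} (hs : s ≠ 0) {φ : X → ℝ}
    (h1 : ∀ b c, Γ.d a b = Γ.d a c → φ b = φ c)
    (h2 : ∀ l, Odd (Γ.d a l) → Γ.q l = s ∧ ls Γ φ l = 0) :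
    ∀ k b, Γ.d a b = 2 * k → φ b = φ a * (-1 / s) ^ k
  | 0, b, h => by rw [(Γ.d_zero a b).1 h, pow_zero, mul_one]
  | k + 1, b, h => by
    obtain ⟨l, h3, h4⟩ := Γ.ex b a fun e => by
      rw [e, (Γ.d_zero a a).2 rfl] at h
      omega
    rw [Γ.d_symm l, Γ.d_symm b] at h4
    have h5 : Γ.d a l = 2 * k + 1 := by omega
    obtain ⟨c, h6, h7⟩ := line B h5
    obtain ⟨h8, h9⟩ := h2 l ⟨k, h5⟩
    rw [h7 φ (φ b) fun c hc => h1 _ _ (by omega), h8, harm B hs h1 h2 k c h6] at h9
    rw [pow_succ, ← mul_assoc, eq_neg_of_add_eq_zero_left h9]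
    field_simp

theorem nb_card (B : Γ.Bas) (w : X) : (Γ.nb w).ncard = Γ.q w + 1 := by
  have := B.two_le_q w
  unfold Pol.q at *
  omega

theorem sph (B : Γ.Bas) (H : Γ.Sph) (a : X) {k r : ℕ} (h1 : 1 ≤ k) (h2 : k + 1 < 8)
    (h : ∀ w, Γ.d a w = k → Γ.q w = r) :
    (univ.filter fun v => Γ.d a v = k + 1).card = (univ.filter fun v => Γ.d a v = k).card * r := by
  have e : ∀ k, (univ.filter fun v => Γ.d a v = k).card = {v | Γ.d a v = k}.ncard := fun k => by
    rw [← Set.ncard_coe_finset]; congr 1; ext; simp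
  rw [e, e]
  refine le_antisymm (H.le a k r h1 fun w hw => (h w hw).le) ?_
  simpa using H.ge Set.univ a k r h2 fun w _ hw => by rw [Set.inter_univ, nb_card B, h w hw]

/-- the sum of the weights -/
theorem total (B : Γ.Bas) (H : Γ.Sph) (ρ : ℝ) (x : X) {s t : ℕ}
    (ht : ∀ w, Even (Γ.d x w) → Γ.q w = t) (hs : ∀ w, Odd (Γ.d x w) → Γ.q w = s) :
    ∑ b, m Γ ρ x b = (1 + s * ρ) * (1 + s * t * ρ) * (1 + (s * t * ρ) ^ 2) := by
  have h1 : ∑ l, ls Γ (m Γ ρ x) l = (t + 1) * ∑ b, m Γ ρ x b := by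
    simp only [ls]
    rw [sum_comm, mul_sum]
    refine sum_congr rfl fun b _ => ?_
    by_cases hb : Even (Γ.d x b)
    · have : (univ.filter fun l => Γ.d l b = 1).card = t + 1 := by
        rw [← ht b hb, ← nb_card B, ← Set.ncard_coe_finset]
        congr 1
        ext l
        simp [Pol.nb, Γ.d_symm l]
      rw [← sum_filter, sum_const, this, nsmul_eq_mul]
      push_cast
      rfl
    · simp [m, hb]
  have h2 : ∀ l, ls Γ (m Γ ρ x) l =
      if Odd (Γ.d x l) then ρ ^ (Γ.d x l / 2) + s * ρ ^ (Γ.d x l / 2 + 1) else 0 := fun l => by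
    split_ifs with h
    · obtain ⟨j, hj⟩ := id h
      rw [ls_m B ρ hj, hs l h, hj, show (2 * j + 1) / 2 = j by omega]
    · refine sum_eq_zero fun b _ => ?_
      split_ifs with hb
      · have := B.par x l b
        rw [m, if_neg]
        rw [Nat.odd_iff] at h
        rw [Nat.even_iff] at this ⊢
        omega
      · rfl
  have h3 : ∀ g : ℕ → ℝ, ∑ l, g (Γ.d x l) =
      ∑ k ∈ range 9, (univ.filter fun v => Γ.d x v = k).card * g k := fun g => by
    rw [← sum_fiberwise_of_maps_to (s := univ) (t := range 9) (g := Γ.d x)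
      fun l _ => mem_range.2 (Nat.lt_succ_of_le (Γ.d_le x l))]
    refine sum_congr rfl fun k _ => ?_
    rw [sum_congr rfl (g := fun _ => g k) fun l hl => by rw [(mem_filter.1 hl).2], sum_const,
      nsmul_eq_mul]
  have c1 : (univ.filter fun v => Γ.d x v = 1).card = t + 1 := by
    rw [← ht x (by rw [(Γ.d_zero x x).2 rfl]; decide), ← nb_card B, ← Set.ncard_coe_finset]
    congr 1
    ext l
    simp [Pol.nb]
  have c2 := sph B H x (k := 1) (by decide) (by decide) fun w h => hs w (by rw [h]; decide)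
  have c3 := sph B H x (k := 2) (by decide) (by decide) fun w h => ht w (by rw [h]; decide)
  have c4 := sph B H x (k := 3) (by decide) (by decide) fun w h => hs w (by rw [h]; decide)
  have c5 := sph B H x (k := 4) (by decide) (by decide) fun w h => ht w (by rw [h]; decide)
  have c6 := sph B H x (k := 5) (by decide) (by decide) fun w h => hs w (by rw [h]; decide)
  have c7 := sph B H x (k := 6) (by decide) (by decide) fun w h => ht w (by rw [h]; decide)
  simp only [h2] at h1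
  rw [h3 fun k => if Odd k then ρ ^ (k / 2) + s * ρ ^ (k / 2 + 1) else 0] at h1
  simp only [Nat.reduceAdd] at c2 c3 c4 c5 c6 c7
  simp only [sum_range_succ, sum_range_zero, c7, c6, c5, c4, c3, c2, c1, Nat.odd_iff,
    Nat.reduceMod, Nat.reduceDiv, Nat.reduceEqDiff, if_true, if_false, mul_zero, add_zero,
    zero_add, Nat.zero_mod] at h1
  refine mul_left_cancel₀ (show (t : ℝ) + 1 ≠ 0 by positivity) (h1.symm.trans ?_)
  push_cast
  ring

theorem hig : HigStmt.{u} := by
  intro n p X G _ _ _ _ S _ B b2 hn H x y hxy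
  subst hn
  classical
  have := Fintype.ofFinite X
  set Γ := S.toPol with hΓ
  have hd : ∀ (g : G) a b, Γ.d (g • a) (g • b) = Γ.d a b := S.d_smul
  have hs : ∀ w, Odd (Γ.d x w) → Γ.q w = Γ.q y := fun w h => (b2.q_even y w (by
    have h1 := B.par x y w
    have h2 : Γ.d x y = 1 := hxy
    change Even (Γ.d y w)
    rw [Nat.odd_iff] at h
    rw [Nat.even_iff] at h1 ⊢
    omega)).symm
  have ht : ∀ w, Even (Γ.d x w) → Γ.q w = Γ.q x := fun w h => (b2.q_even x w h).symm
  have h2 : (2 : ℝ) ≤ Γ.q y := by exact_mod_cast B.two_le_q y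
  set s : ℝ := ((Γ.q y : ℕ) : ℝ) with hs'
  set r : ℝ := -1 / s with hr
  have hm : ∀ ρ (g : G) a b, m Γ ρ (g • a) (g • b) = m Γ ρ a b := fun ρ g a b => by
    simp only [m, hd]
  let N : X → X → ℝ := fun a b => ∑ c, m Γ r a c * m Γ r b c
  have hN : ∀ (g : G) a b, N (g • a) (g • b) = N a b := fun g a b =>
    (Fintype.sum_equiv (MulAction.toPerm g) _ _ fun c => by simp [hm]).symm
  have h0 : ∀ a, Γ.d a a = 0 := fun a => (Γ.d_zero a a).2 rfl
  have tr : ∀ a, Even (Γ.d x a) → ∃ g : G, g • x = a := fun a ha =>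
    (b2.pair x x a a ((h0 x).trans (h0 a).symm) ha).imp fun _ h => h.1
  have key : ∀ b, Even (Γ.d x b) → N x b = N x x * m Γ r x b := fun b ⟨k, hk⟩ => by
    rw [harm B (a := x) (s := s) (by positivity) (φ := N x) (fun b c h => ?_) (fun l hl => ⟨?_, ?_⟩) k b
      (by omega), m, if_pos ⟨k, hk⟩, show Γ.d x b / 2 = k by omega]
    · obtain ⟨g, g1, g2⟩ := b2.pair x b x c h (by rw [show S.d x x = 0 from h0 x]; decide)
      rw [← hN g x b, g1, g2]
    · rw [hs l hl]
    · have e : ls Γ (N x) l = ∑ c, m Γ r x c * ls Γ (m Γ r c) l := by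
        simp only [ls, N, mul_sum]
        rw [sum_comm]
        refine sum_congr rfl fun b _ => ?_
        split_ifs
        · exact sum_congr rfl fun c _ => by simp only [m, Γ.d_symm b c]
        · simp
      rw [e]
      refine sum_eq_zero fun c _ => ?_
      by_cases hc : Even (Γ.d x c)
      · obtain ⟨j, hj⟩ : Odd (Γ.d c l) := by
          have := B.par x c l
          rw [Nat.odd_iff] at hl ⊢
          rw [Nat.even_iff] at this hc
          omega
        rw [ls_m B r hj, hs l hl, ← hs', pow_succ, hr]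
        field_simp
        ring
      · rw [m, if_neg hc, zero_mul]
  have hc : 0 < N x x := by
    refine sum_pos' (fun c _ => mul_self_nonneg _) ⟨x, mem_univ x, ?_⟩
    simp [m, h0]
  have h3 := cube (univ.filter fun a => Even (Γ.d x a)) (m Γ r)
  rw [sum_congr rfl (g := fun _ => N x x ^ 3 * ∑ b, m Γ (r ^ 3) x b) fun a ha => ?_, sum_const,
    nsmul_eq_mul, total B H _ x ht hs] at h3
  · have h4 : (0 : ℝ) < (univ.filter fun a => Even (Γ.d x a)).card := by
      exact_mod_cast card_pos.2 ⟨x, by simp [h0]⟩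
    have h5 := nonneg_of_mul_nonneg_left (by rwa [mul_comm] at h3) h4
    have h6 := nonneg_of_mul_nonneg_left (by rwa [mul_comm] at h5) (pow_pos hc 3)
    have h7 := nonneg_of_mul_nonneg_left h6 (by positivity)
    have h8 : 0 < 1 + s * r ^ 3 := by
      rw [hr]
      field_simp
      nlinarith
    have h9 := nonneg_of_mul_nonneg_left (by rwa [mul_comm] at h7) h8
    rw [← hs', hr] at h9
    field_simp at h9
    have : (Γ.q x : ℝ) ≤ s ^ 2 := by nlinarith
    rw [hs'] at this
    exact_mod_cast this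
  · obtain ⟨g, rfl⟩ := tr a (mem_filter.1 ha).2
    have ha' := (mem_filter.1 ha).2
    rw [sum_filter, mul_sum]
    refine (Fintype.sum_equiv (MulAction.toPerm g) _ _ fun b => ?_).symm
    have h1 := B.par x (g • x) (g • b)
    rw [hd] at h1
    change _ = if Even (Γ.d x (g • b)) then N (g • x) (g • b) ^ 3 else 0
    by_cases hb : Even (Γ.d x b)
    · rw [if_pos (by rw [Nat.even_iff] at *; omega), hN, key b hb, mul_pow, m, m, if_pos hb,
        if_pos hb, ← pow_mul, ← pow_mul, mul_comm 3]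
    · rw [if_neg (by rw [Nat.even_iff] at *; omega), m, if_neg hb, mul_zero]

end Cfsg.Agent.H16.BnHig
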