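import Cfsg.Agent.H49.BN2Red
import Cfsg.Agent.H62.T3Ba1
import Cfsg.Agent.H7.T3Cx

/-! The group action on the polygon of a residue (project BN2, piece POLY2). -/

set_option autoImplicit false

namespace Cfsg.Agent.H16.BnPoly2

open Cfsg.Agent.H49.BN2 Cfsg.Agent.Lead.T3 Cfsg.Agent.H62.T3B Cfsg.Agent.H7.T3Cx

universe u

/-- a compatible action on the vertices -/
theorem exists_act {C Y H : Type u} [Group H] [MulAction H C] (R : Set C) (a b : C → Y)
    (hR : ∀ (h : H), ∀ x ∈ R, h • x ∈ R)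
    (ha : ∀ (h : H), ∀ x ∈ R, ∀ y ∈ R, a x = a y → a (h • x) = a (h • y))
    (hb : ∀ (h : H), ∀ x ∈ R, ∀ y ∈ R, b x = b y → b (h • x) = b (h • y))
    (hab : ∀ x ∈ R, ∀ y ∈ R, a x ≠ b y) (hs : ∀ v, ∃ x ∈ R, v = a x ∨ v = b x) :
    ∃ ρ : H →* Equiv.Perm Y, ∀ h, ∀ x ∈ R, ρ h (a x) = a (h • x) ∧ ρ h (b x) = b (h • x) := by
  classical
  choose ch c1 c2 using hs
  let f : H → Y → Y := fun h v => if v = a (ch v) then a (h • ch v) else b (h • ch v)
  have fa : ∀ h, ∀ x ∈ R, f h (a x) = a (h • x) := fun h x hx => by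
    have e := (c2 (a x)).resolve_right (hab x hx _ (c1 _))
    exact (if_pos e).trans (ha h _ hx _ (c1 _) e).symm
  have fb : ∀ h, ∀ x ∈ R, f h (b x) = b (h • x) := fun h x hx => by
    have e : b x ≠ a (ch (b x)) := (hab _ (c1 _) x hx).symm
    exact (if_neg e).trans (hb h _ hx _ (c1 _) ((c2 (b x)).resolve_left e)).symm
  letI : MulAction H Y :=
    { smul := f
      one_smul := fun v => by
        change f 1 v = v
        rcases c2 v with e | e
        · rw [e, fa _ _ (c1 _), one_smul]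
        · rw [e, fb _ _ (c1 _), one_smul]
      mul_smul := fun g h v => by
        change f (g * h) v = f g (f h v)
        rcases c2 v with e | e
        · rw [e, fa _ _ (c1 _), fa _ _ (c1 _), fa _ _ (hR _ _ (c1 _)), mul_smul]
        · rw [e, fb _ _ (c1 _), fb _ _ (c1 _), fb _ _ (hR _ _ (c1 _)), mul_smul] }
  exact ⟨MulAction.toPermHom H Y, fun h x hx => ⟨fa h x hx, fb h x hx⟩⟩

theorem poly2 : Poly2Stmt.{u} := by
  intro g1 p1 r2 I W _ _ X C _ B G _ _ _ i j c V hij hm hδ htr hnil hfix hnorm hV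
  have h3 : 3 ≤ X.m i j := by omega
  obtain ⟨Y, _, Γ, a, b, ha, hb, hab, hd, hev, hop⟩ := p1 B i j c hij h3
  have b1 : Γ.Bas := g1 Γ h3
  set R := B.res {i, j} c with hR
  have hc : c ∈ R := mem_res B _ c
  have hmv : ∀ g : G, g • c ∈ R → ∀ x ∈ R, g • x ∈ R := fun g hg x hx =>
    res_trans B hg (show B.δ (g • c) (g • x) ∈ X.WJ {i, j} by rw [hδ]; exact hx)
  let H : Subgroup G :=
    { carrier := {g | g • c ∈ R}
      one_mem' := by simpa using hc
      mul_mem' := fun {g h} hg hh => by simpa [mul_smul] using hmv g hg _ hh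
      inv_mem' := fun {g} hg => by
        have := res_symm B hg
        change B.δ _ _ ∈ X.WJ {i, j} at this ⊢
        rwa [← hδ g, smul_inv_smul] }
  have hH : ∀ (h : H), ∀ x ∈ R, h • x ∈ R := fun h => hmv h h.2
  obtain ⟨ρ, hρ⟩ := exists_act (H := H) R a b hH
    (fun h x hx y hy e => (ha _ (hH h x hx) _ (hH h y hy)).2
      ((hδ h x y).symm ▸ (ha x hx y hy).1 e))
    (fun h x hx y hy e => (hb _ (hH h x hx) _ (hH h y hy)).2
      ((hδ h x y).symm ▸ (hb x hx y hy).1 e)) hab fun v => by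
      obtain ⟨w, hw, -⟩ := Γ.thick v v v
      obtain ⟨x, hx, h⟩ := (hd v w).1 hw
      exact ⟨x, hx, h.imp And.left And.left⟩
  have un : ∀ x ∈ R, ∀ y ∈ R, a x = a y → b x = b y → x = y := fun x hx y hy e1 e2 => by
    rcases (mem_WJ_single X i _).1 ((ha x hx y hy).1 e1) with e | e
    · exact (B.eq_one x y).1 e
    rcases (mem_WJ_single X j _).1 ((hb x hx y hy).1 e2) with e' | e'
    · exact (B.eq_one x y).1 e'
    · exact absurd (X.inj (e.symm.trans e')) hij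
  let E : C → Y → Y → Prop := fun x v w => (v = a x ∧ w = b x) ∨ (v = b x ∧ w = a x)
  have hE : ∀ (h : H), ∀ x ∈ R, ∀ v w, E x v w → E (h • x) (ρ h v) (ρ h w) := by
    rintro h x hx _ _ (⟨rfl, rfl⟩ | ⟨rfl, rfl⟩)
    · exact .inl (hρ h x hx)
    · exact .inr (hρ h x hx).symm
  have Eu : ∀ x ∈ R, ∀ y ∈ R, ∀ v w, E x v w → E y v w → x = y := by
    rintro x hx y hy _ _ (⟨rfl, rfl⟩ | ⟨rfl, rfl⟩) (⟨e1, e2⟩ | ⟨e1, e2⟩)
    · exact un x hx y hy e1 e2
    · exact absurd e1 (hab x hx y hy)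
    · exact absurd e2 (hab x hx y hy)
    · exact un x hx y hy e2 e1
  have Ex : ∀ v w, Γ.d v w = 1 → ∃ h : H, E (h • c) v w := fun v w h => by
    obtain ⟨x, hx, e⟩ := (hd v w).1 h
    obtain ⟨g, rfl⟩ := htr x
    exact ⟨⟨g, hx⟩, e⟩
  have d1 : ∀ (h : H) v w, Γ.d v w = 1 → Γ.d (ρ h v) (ρ h w) = 1 := fun h v w e => by
    obtain ⟨x, hx, e⟩ := (hd v w).1 e
    exact (hd _ _).2 ⟨_, hH h x hx, hE h x hx v w e⟩
  have hVH : V ≤ H := fun v hv => show v • c ∈ R by rw [hfix v hv]; exact hc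
  let π := ρ.rangeRestrict
  let φ : H → V →* ρ.range := fun h =>
    π.comp ((MulAut.conj h).toMonoidHom.comp (Subgroup.inclusion hVH))
  have hφ : ∀ h v, φ h v = π (h * ⟨v, hVH v.2⟩ * h⁻¹) := fun _ _ => rfl
  have We : ∀ h h' : H, h • c = h' • c → (φ h).range ≤ (φ h').range := by
    rintro h h' e _ ⟨v, rfl⟩
    refine ⟨⟨_, hnorm ((h'⁻¹ * h : H) : G) ?_ v v.2⟩, ?_⟩
    · change (h'⁻¹ * h) • c = c
      rw [mul_smul, e, inv_smul_smul]
    · rw [hφ, hφ]
      congr 1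
      ext
      simp [mul_assoc]
  let Vb : Y → Y → Subgroup ρ.range := fun v w => ⨆ h : H, ⨆ _ : E (h • c) v w, (φ h).range
  have Ve : ∀ (h : H) v w, E (h • c) v w → Vb v w = (φ h).range := fun h v w e =>
    le_antisymm (iSup₂_le fun h' e' => We _ _ (Eu _ h'.2 _ h.2 v w e' e))
      (le_iSup₂_of_le (f := fun (h : H) (_ : E (h • c) v w) => (φ h).range) h e le_rfl)
  have sm : ∀ (h : H) v, π h • v = ρ h v := fun _ _ => rfl
  have opp : ∀ x ∈ R, ∀ y ∈ R, ∀ v w u u', E x v w → E y u u' → Γ.Opp v w u u' →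
      B.δ x y = X.wJ {i, j} := by
    rintro x hx y hy _ _ _ _ (⟨rfl, rfl⟩ | ⟨rfl, rfl⟩) (⟨rfl, rfl⟩ | ⟨rfl, rfl⟩) ⟨e1, e2, e3, e4⟩
    · exact (hop x hx y hy).2 (.inl ⟨e1, e2, e3, e4⟩)
    · exact (hop x hx y hy).2 (.inr ⟨e1, e2, e3, e4⟩)
    · exact (hop x hx y hy).2 (.inr ⟨Γ.d_symm _ _ ▸ e1, Γ.d_symm _ _ ▸ e2, e4, e3⟩)
    · exact (hop x hx y hy).2 (.inl ⟨Γ.d_symm _ _ ▸ e1, Γ.d_symm _ _ ▸ e2, e4, e3⟩)
  have odd : ∀ x ∈ R, ∀ y ∈ R, ¬ Even (Γ.d (a x) (b y)) := fun x hx y hy e => by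
    have e1 := hev x hx y hy
    have e2 := b1.par (a x) (a y) (b y)
    rw [(hd _ _).2 ⟨y, hy, .inl ⟨rfl, rfl⟩⟩] at e2
    rw [Nat.even_iff] at *
    omega
  let S : Sys0 (X.m i j) Y ρ.range :=
    { toPol := Γ
      d_smul := by
        rintro ⟨_, h, rfl⟩
        refine b1.iso (ρ h) fun v w => ⟨fun e => ?_, d1 h v w⟩
        simpa using d1 h⁻¹ _ _ e
      faith := fun g hg => Subtype.ext (Equiv.ext hg)
      V := Vb
      V_symm := fun v w => iSup_congr fun h => iSup_congr_Prop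
        ⟨fun e => e.symm.imp And.symm And.symm, fun e => e.symm.imp And.symm And.symm⟩ fun _ => rfl
      V_fix := fun v w e g hg => by
        obtain ⟨h, eh⟩ := Ex v w e
        rw [Ve h v w eh] at hg
        obtain ⟨k, rfl⟩ := hg
        have e1 : (h * ⟨k, hVH k.2⟩ * h⁻¹ : H) • h • c = h • c := by
          rw [mul_smul, inv_smul_smul, mul_smul]
          exact congrArg _ (hfix k k.2)
        have := hρ (h * ⟨k, hVH k.2⟩ * h⁻¹) _ h.2
        rw [hφ, sm]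
        rcases eh with ⟨rfl, -⟩ | ⟨rfl, -⟩
        · exact this.1.trans (congrArg a e1)
        · exact this.2.trans (congrArg b e1)
      V_conj := fun v w e k g hg => by
        obtain ⟨h, eh⟩ := Ex v w e
        obtain ⟨k, rfl⟩ := ρ.rangeRestrict_surjective k
        rw [Ve h v w eh] at hg
        obtain ⟨t, rfl⟩ := hg
        have := hE k _ h.2 v w eh
        rw [Ve (k * h) (π k • v) (π k • w) (by rwa [mul_smul])]
        exact ⟨t, by simp only [hφ, map_mul, map_inv, mul_inv_rev, mul_assoc]; rfl⟩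
      V_tr := fun v w u t u' t' o o' => by
        obtain ⟨h, eh⟩ := Ex v w o.1
        obtain ⟨z, hz, ez⟩ := (hd u t).1 o.2.1
        obtain ⟨z', hz', ez'⟩ := (hd u' t').1 o'.2.1
        have e1 := opp _ h.2 z hz v w u t eh ez o
        have e2 := opp _ h.2 z' hz' v w u' t' eh ez' o'
        obtain ⟨k, hk, e3⟩ := hV ((h : G)⁻¹ • z) ((h : G)⁻¹ • z')
          (by rwa [← hδ h, smul_inv_smul]) (by rwa [← hδ h, smul_inv_smul])
        have e4 : (h * ⟨k, hVH hk⟩ * h⁻¹ : H) • z = z' := by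
          rw [mul_smul, mul_smul]
          exact (congrArg (h • ·) e3).trans (smul_inv_smul (h : G) z')
        have e5 := hρ (h * ⟨k, hVH hk⟩ * h⁻¹) z hz
        rw [e4] at e5
        have e6 : Even (Γ.d u u') := by
          have := b1.par v u u'
          rw [o.2.2.1, o'.2.2.1, Nat.even_iff] at this
          rw [Nat.even_iff]
          omega
        refine ⟨φ h ⟨k, hk⟩, Ve h v w eh ▸ ⟨_, rfl⟩, ?_⟩
        rw [hφ, sm, sm]
        rcases ez with ⟨rfl, rfl⟩ | ⟨rfl, rfl⟩ <;> rcases ez' with ⟨rfl, rfl⟩ | ⟨rfl, rfl⟩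
        · exact e5
        · exact absurd e6 (odd _ hz _ hz')
        · exact absurd (Γ.d_symm _ _ ▸ e6) (odd _ hz' _ hz)
        · exact e5.symm }
  have hN : S.Nil := fun v w e => by
    obtain ⟨h, eh⟩ := Ex v w e
    change Group.IsNilpotent (Vb v w)
    rw [Ve h v w eh]
    exact Group.nilpotent_of_surjective _ (φ h).rangeRestrict_surjective
  intro v hv y hy hvy x hx
  have hyR : y ∈ R := show B.δ _ _ ∈ _ from hy ▸ wJ_mem X _
  have e1 : π ⟨v, hVH hv⟩ ∈ S.V (a c) (b c) := by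
    change _ ∈ Vb _ _
    rw [Ve 1 _ _ (by rw [one_smul]; exact .inl ⟨rfl, rfl⟩)]
    exact ⟨⟨v, hv⟩, by rw [hφ]; simp⟩
  have e2 := hρ ⟨v, hVH hv⟩ y hyR
  rw [show (⟨v, hVH hv⟩ : H) • y = y from hvy] at e2
  have e3 : π ⟨v, hVH hv⟩ = 1 := ((hop c hc y hyR).1 hy).elim
    (fun o => r2 S hm hN _ _ _ _ o _ e1 e2.1 e2.2) fun o => r2 S hm hN _ _ _ _ o _ e1 e2.2 e2.1
  have e4 := hρ ⟨v, hVH hv⟩ x hx
  rw [← sm, ← sm, e3, one_smul, one_smul] at e4
  exact (un x hx _ (hH _ x hx) e4.1 e4.2).symm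

end Cfsg.Agent.H16.BnPoly2
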