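import Cfsg.Agent.H53.DgKit
import Cfsg.Agent.H30.OrthSimple
import Cfsg.Agent.H26.PIrr
import Cfsg.Agent.H27.AltWitt

/-! Project DG: the centre and the index of the Eichler group, descent, rank three characters. -/

set_option autoImplicit false

namespace Cfsg.Agent.H16.DgZ

open Module Cfsg.Agent.H26 Cfsg.Agent.H78 Cfsg.Agent.H53.Dg

section

variable {F V : Type} [Field F] [Finite F] [AddCommGroup V] [Module F V] [Finite V]
  {P : PForm F V} {w e : ℕ}

omit [Finite F] in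
theorem sp_isom_le (h : Ty P true w e) : P.isom ≤ P.E := by
  let B : LinearMap.BilinForm F V := LinearMap.mk₂ F P.f P.f_add_left P.f_smul_left P.f_add_right
      (fun c x y => by rw [P.f_smul_right, h.sig, smul_eq_mul])
  have hA : B.IsAlt := fun x => h.f_self_sp x
  have hB : B.Nondegenerate := by
    refine ⟨fun x hx => PForm.eq_zero_of_f_left (P := P) fun y => hx y, fun x hx => ?_⟩
    exact P.nondeg x fun y => hx y
  intro g hg
  refine H27.isomGroup_le_of_altTv_mem hB hA P.E (fun v c => ?_) (fun x y => hg.1 x y)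
  have hv : P.EV v 0 c := PForm.EV.of_mem (h.sing_sp v) (by rw [(h.symp rfl).2.1]; trivial)
  have : H27.altTv hA v c = hv.equiv := by
    ext x
    rw [H27.altTv_apply, PForm.EV.equiv_apply, PForm.eich_zero_apply, (h.symp rfl).1]
    change x + (c * P.f x v) • v = _
    module
  rw [this]
  exact hv.equiv_mem_E

omit [Finite F] in
theorem sp_center (h : Ty P true w e) (hw : 1 ≤ w) (z : P.E) (hz : z ∈ Subgroup.center P.E) :
    z = 1 ∨ z.1 = LinearEquiv.neg F := by
  obtain ⟨Fr, hN, -⟩ := h.frame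
  have key : ∀ v, P.Sing v → ∀ x, P.f x v • (z.1 : V →ₗ[F] V) v =
      P.f ((z.1 : V →ₗ[F] V) x) v • v := by
    intro v hv x
    have hv1 : P.EV v 0 1 := PForm.EV.of_mem hv (by rw [(h.symp rfl).2.1]; trivial)
    have h1 := Subgroup.mem_center_iff.1 hz ⟨hv1.equiv, hv1.equiv_mem_E⟩
    have h2 : hv1.equiv (z.1 x) = z.1 (hv1.equiv x) :=
      congrArg (fun g : P.E => g.1 x) h1
    rw [PForm.EV.equiv_apply, PForm.EV.equiv_apply, PForm.eich_zero_apply, PForm.eich_zero_apply,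
      (h.symp rfl).1, map_sub, map_smul, sub_right_inj] at h2
    change P.f x v • z.1 v = P.f (z.1 x) v • v
    have h3 := congrArg (fun y => -y) h2
    simpa using h3.symm
  obtain ⟨c, hc⟩ := PForm.exists_scalar_of_comm (z.1 : V →ₗ[F] V) (Fr.sing (⟨0, hw⟩, false))
    (Fr.e_ne_zero _) key
  have hc' : ∀ x, z.1 x = c • x := hc
  have h1 := PForm.isom_f (PForm.E_le_isom z.2) (Fr.e (⟨0, hw⟩, false)) (Fr.e (⟨0, hw⟩, true))
  rw [hc', hc', P.f_smul_left, P.f_smul_right, h.sig, hN, mul_one] at h1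
  rcases mul_self_eq_one_iff.1 h1 with rfl | rfl
  · left
    ext x
    rw [hc', one_smul]; rfl
  · right
    ext x
    rw [hc', neg_one_smul]; rfl

theorem o_center (h : Ty P false w e) (hw : 1 ≤ w) (h3 : 3 ≤ finrank F V) (z : P.E)
    (hz : z ∈ Subgroup.center P.E) : z = 1 ∨ z.1 = LinearEquiv.neg F := by
  obtain ⟨Fr, hN, -⟩ := h.frame
  have hh : H30.IsHyp h.Q (Fr.e (⟨0, hw⟩, false)) (Fr.e (⟨0, hw⟩, true)) :=
    ⟨h.sing_iff.1 (Fr.sing _), h.sing_iff.1 (Fr.sing _), by rw [h.polar_Q]; exact hN _⟩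
  have hz1 : z.1 ∈ H30.O h.Q := h.isom_eq ▸ PForm.E_le_isom z.2
  rcases H30.eq_one_or_negOne_of_commute h.nondeg hh h3 ⟨z.1, hz1⟩ (fun k hk => by
    have := Subgroup.mem_center_iff.1 hz ⟨k.1, (h.mem_E_iff k).2 hk⟩
    exact Subtype.ext (congrArg Subtype.val this).symm) with h1 | h1
  · exact Or.inl (Subtype.ext (congrArg (fun g : H30.O h.Q => g.1) h1))
  · exact Or.inr (congrArg Subtype.val h1)

theorem o_index (h : Ty P false w e) (h5 : 5 ≤ finrank F V) :
    (P.E.subgroupOf P.isom).index = cc false (Nat.card F) := by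
  have h1 : (P.E.subgroupOf P.isom).index = (H30.eichGroup h.Q).index := by
    rw [h.isom_eq]
    congr 1
    ext g
    exact h.mem_E_iff g
  rw [h1, H30.eichGroup_eq_kerDS h.nondeg (H30.not_isExc_of_finrank (by omega)) (by omega)]
  have := Fintype.ofFinite F
  by_cases h2 : (2 : F) = 0
  · rw [H30.index_kerDS_even h.nondeg (by omega) h2, cc]
    have : Even (Nat.card F) := by
      rw [Nat.card_eq_fintype_card, ← Nat.not_odd_iff_even, ← H30.two_ne_zero_iff_odd_card]
      exact not_not.2 h2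
    rw [if_neg (by simp), if_pos this]
  · rw [H30.index_kerDS_odd h.nondeg (by omega) h2, cc]
    have : ¬ Even (Nat.card F) := by
      rw [Nat.card_eq_fintype_card, Nat.not_even_iff_odd, ← H30.two_ne_zero_iff_odd_card]
      exact h2
    rw [if_neg (by simp), if_neg this]

omit [Finite F] in
theorem neg_notMem (h : Ty P false w 1) : LinearEquiv.neg F ∉ P.E := fun hm => by
  have h1 := PForm.det_of_mem_E hm
  have h2 : ((LinearEquiv.neg F : V ≃ₗ[F] V) : V →ₗ[F] V) = (-1 : F) • LinearMap.id := by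
    ext x; simp
  rw [h2, LinearMap.det_smul, LinearMap.det_id, mul_one, (h.orth rfl).2.2.2,
    Odd.neg_one_pow ⟨w, rfl⟩] at h1
  exact h.two_ne_zero (by linear_combination -h1)

end

theorem zen : ZenStmt := by
  intro F V _ _ _ _ _ P sp w e h
  cases sp
  · refine ⟨fun hw h3 => o_center h hw (h3.resolve_left (by simp)),
      fun h5 => o_index h (h5.resolve_left (by simp)), fun _ he => ?_⟩
    subst he
    exact neg_notMem h
  · refine ⟨fun hw _ => sp_center h hw, fun _ => ?_, fun h => by simp at h⟩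
    rw [Subgroup.subgroupOf_eq_top.2 (sp_isom_le h), Subgroup.index_top]; rfl

section

variable {F V : Type} [Field F] [Finite F] [AddCommGroup V] [Module F V] [Finite V]
  {P : PForm F V}

omit [Finite F] in
/-- A character of the Eichler group that is trivial on `-1` comes from the quotient. -/
theorem dgE_of (hC : ClifStmt) (hz : ∀ z : P.E, z ∈ Subgroup.center P.E →
    z = 1 ∨ z.1 = LinearEquiv.neg F) {θ : P.E → ℂ} {m : ℕ} (hθ : IsIrrCharacter _ θ)
    (hm : θ 1 = m) (hs : ∀ z : P.E, z.1 = LinearEquiv.neg F → θ z = θ 1) : DgE P m := by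
  obtain ⟨χ', h1, h2⟩ := (hC P.E (Subgroup.center P.E)).2.2.1 θ hθ (fun z hz' => by
    rcases hz z hz' with rfl | h
    · rfl
    · exact hs z h)
  exact ⟨χ', h1, (h2 1).trans hm⟩

omit [Finite F] [Finite V] in
theorem npt_neg : npt P ⊥ (LinearEquiv.neg F) = npt P ⊥ 1 := by
  unfold npt
  congr 2
  ext Y
  have h1 : (LinearEquiv.neg F : V ≃ₗ[F] V) ∈ stabSub Y := fun x => by simp
  have h2 : (1 : V ≃ₗ[F] V) ∈ stabSub Y := one_mem _
  simp only [h1, h2]

omit [Finite F] in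
theorem sgn_of_npt {G : Subgroup (V ≃ₗ[F] V)} {χ χ' : G → ℂ} (h : IsIrrCharacter G χ)
    (h' : IsIrrCharacter G χ') (hn : ∀ g : G, (npt P ⊥ (G.subtype g) : ℂ) = 1 + χ g + χ' g)
    (z : G) (hz : z.1 = LinearEquiv.neg F) : χ z = 1 * χ 1 ∧ χ' z = 1 * χ' 1 := by
  refine sgn_of_add (H11.isCharacter_of_irr h) (H11.isCharacter_of_irr h') (Or.inl rfl) ?_
  have h1 := hn z
  have h2 := hn 1
  rw [Subgroup.subtype_apply, hz, npt_neg] at h1
  rw [map_one, h1] at h2
  linear_combination h2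

end

theorem desc (hC : ClifStmt) (hZ : ZenStmt) : DescStmt := by
  intro F V _ _ _ _ _ P sp w e n s h hw h5 ⟨χ, hχ, hn, hs⟩ hs1
  obtain ⟨Z1, Z2, -⟩ := hZ F V P sp w e h
  obtain ⟨θ, m, hθ, hm, hd, hz⟩ := (hC P.isom (P.E.subgroupOf P.isom)).1 χ n hχ hn
  rw [Z2 h5] at hd
  let φ := (Subgroup.subgroupOfEquivOfLe (PForm.E_le_isom (P := P))).symm
  refine ⟨m, dgE_of hC (Z1 hw (h5.imp id fun h => by omega))
    (H11.isIrrCharacter_comp_mulEquiv hθ φ) (by rw [map_one]; exact hm) fun z hz1 => ?_, hd⟩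
  rcases hs1 with rfl | hs1
  · change θ (φ z) = θ (φ 1)
    rw [map_one]
    refine hz _ ?_
    rw [hs (φ z) hz1, one_mul]
  · exact absurd (hz1 ▸ z.2) hs1

theorem re (hR : RStmt) (hC : ClifStmt) (hZ : ZenStmt) : ReStmt := by
  intro F V _ _ _ _ _ P sp w e h hw
  constructor
  · obtain ⟨χ, χ', h1, h2, h3, f, g, hf, hg, hFG⟩ := hR F V P sp w e P.isom P.isom.subtype h hw
      (fun k => sim_of_isom k.2) (Or.inl (by rw [Subgroup.range_subtype]))
    exact ⟨f, g, hFG, ⟨χ, h1, hf, fun z hz => (sgn_of_npt h1 h2 h3 z hz).1⟩,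
      ⟨χ', h2, hg, fun z hz => (sgn_of_npt h1 h2 h3 z hz).2⟩⟩
  · intro he
    obtain ⟨χ, χ', h1, h2, h3, f, g, hf, hg, hFG⟩ := hR F V P sp w e P.E P.E.subtype h hw
      (fun k => sim_of_isom (PForm.E_le_isom k.2)) (Or.inr ⟨by rw [Subgroup.range_subtype], he⟩)
    have hd : 3 ≤ finrank F V := by
      rw [h.finrank_eq]; split_ifs <;> omega
    have Z1 := (hZ F V P sp w e h).1 (by omega) (Or.inr hd)
    exact ⟨f, g, hFG, dgE_of hC Z1 h1 hf fun z hz => by
        rw [(sgn_of_npt h1 h2 h3 z hz).1, one_mul],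
      dgE_of hC Z1 h2 hg fun z hz => by rw [(sgn_of_npt h1 h2 h3 z hz).2, one_mul]⟩

end Cfsg.Agent.H16.DgZ
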