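import Mathlib
import Cfsg.Agent.H50.E83Defs2

/-! A `2B`-pure `2⁴` of `E₈(K)` is toral. -/

set_option autoImplicit false

namespace Cfsg.Agent.H16.E83Tor

open Equiv Cfsg.Lie H37 H40 H34 H29 Module Cfsg.Agent.H50.E83

abbrev ME : Type := Multiplicative E4

def e0 : ME := Multiplicative.ofAdd ![1, 0, 0, 0]
def e1 : ME := Multiplicative.ofAdd ![0, 1, 0, 0]
def e2 : ME := Multiplicative.ofAdd ![0, 0, 1, 0]
def e3 : ME := Multiplicative.ofAdd ![0, 0, 0, 1]

def j3 : Multiplicative (Fin 3 → ZMod 2) →* ME :=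
  MonoidHom.mk' (fun e => Multiplicative.ofAdd ![e.toAdd 0, e.toAdd 1, e.toAdd 2, 0])
    (by decide +kernel)

theorem gen4 : ∀ e : ME, ∃ a b c d : Fin 2,
    e = e0 ^ (a : ℕ) * e1 ^ (b : ℕ) * e2 ^ (c : ℕ) * e3 ^ (d : ℕ) := by decide +kernel

theorem gen3 : ∀ e, ∃ a b c : Fin 2, j3 e = e0 ^ (a : ℕ) * e1 ^ (b : ℕ) * e2 ^ (c : ℕ) := by
  decide +kernel

theorem j3_ne : ∀ e, e ≠ 1 → j3 e ≠ 1 := by decide +kernel

theorem sq4 : ∀ e : ME, e * e = 1 := by decide +kernel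

theorem sq3 : ∀ e : Multiplicative (Fin 3 → ZMod 2), e * e = 1 := by decide +kernel

theorem ne_e : e0 ≠ 1 ∧ e1 ≠ 1 ∧ e0 * e1 ≠ 1 := by decide +kernel

theorem ne_e2 : ∀ a b : Fin 2, e2 * e0 ^ (a : ℕ) * e1 ^ (b : ℕ) ≠ 1 := by decide +kernel

theorem prim : IsPrimitiveRoot (-1 : Kˣ) 2 := by
  refine IsPrimitiveRoot.coe_units_iff.1 ?_
  simpa using IsPrimitiveRoot.neg_one 3 (R := K) (by decide)

def Good (x : ME →* GK) : Prop := ∀ e, e ≠ 1 → tau (x e) = -8

def Tor (x : ME →* GK) : Prop := ∃ g : GK, ∀ e, g * x e * g⁻¹ ∈ P8.H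

noncomputable def cj (g : GK) (x : ME →* GK) : ME →* GK := (MulAut.conj g).toMonoidHom.comp x

theorem cj_apply (g : GK) (x : ME →* GK) (e : ME) : cj g x e = g * x e * g⁻¹ := rfl

theorem Tor.of_cj {g : GK} {x : ME →* GK} (h : Tor (cj g x)) : Tor x := by
  obtain ⟨k, hk⟩ := h
  refine ⟨k * g, fun e => ?_⟩
  have := hk e
  rw [cj_apply] at this
  rwa [show k * g * x e * (k * g)⁻¹ = k * (g * x e * g⁻¹) * k⁻¹ by group]

theorem Good.cj (mu : MuStmt) {x : ME →* GK} (h : Good x) (g : GK) : Good (cj g x) := fun e he => by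
  have k : IsConj (x e) (g * x e * g⁻¹) := isConj_iff.2 ⟨g, rfl⟩
  rw [cj_apply, ← h e he, tau, tau, mu.1 _ _ 1 k, mu.1 _ _ (-1) k]

theorem cj_fix {g h : GK} (c : Commute h g) : g * h * g⁻¹ = h := by
  rw [← c.eq, mul_inv_cancel_right]

theorem fix_le (mu : MuStmt) (br : BrStmt) {Γ : Type} [Group Γ] [Fintype Γ]
    (hΓ : ∀ g : Γ, g * g = 1) (φ : Γ →* GK) (h : ∀ g, g ≠ 1 → tau (φ g) = -8) (S : Set GK)
    (hS : ∀ g, φ g ∈ Subgroup.closure S) :
    (Fintype.card Γ : ℤ) * finrank K (H50.E83.Fix S) ≤ 256 - 8 * Fintype.card Γ := by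
  classical
  have hp : IsPGroup 2 Γ := fun g => ⟨1, by rw [pow_one, pow_two, hΓ]⟩
  have k := br Γ hp φ 1
  simp only [MonoidHom.one_apply, Units.val_one, one_mul] at k
  have s : ∑ g, tau (φ g) = 256 - 8 * Fintype.card Γ := by
    have : ∀ g, tau (φ g) = -8 + if g = 1 then 256 else 0 := fun g => by
      split_ifs with e
      · rw [e, map_one, mu.2.2.2.2.2]; norm_num
      · rw [h g e]; norm_num
    simp only [this, Finset.sum_add_distrib, Finset.sum_const, Finset.card_univ,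
      Finset.sum_ite_eq', Finset.mem_univ, if_true, nsmul_eq_mul]
    ring
  have le : H50.E83.Fix S ≤ ⨅ g, eig (φ g) 1 := fun v hv => by
    refine (Submodule.mem_iInf _).2 fun g => mem_eig.2 ?_
    rw [one_smul]
    have key : ∀ y ∈ Subgroup.closure S, act y v = v := fun y hy => by
      induction hy using Subgroup.closure_induction with
      | mem y hy => exact mem_Fix.1 hv y hy
      | one => simp
      | mul a b _ _ h1 h2 => rw [map_mul, Module.End.mul_apply, h2, h1]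
      | inv a _ h1 =>
        calc act a⁻¹ v = act a⁻¹ (act a v) := by rw [h1]
          _ = v := by rw [← Module.End.mul_apply, ← map_mul, inv_mul_cancel, map_one]; rfl
    exact key _ (hS g)
  rw [← s, k]
  exact mul_le_mul_of_nonneg_left (by exact_mod_cast Submodule.finrank_mono le) (by positivity)

theorem comm (x : ME →* GK) (a b : ME) : Commute (x a) (x b) := (Commute.all a b).map x

theorem xsq (x : ME →* GK) (a : ME) : x a * x a = 1 := by rw [← map_mul, sq4, map_one]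

theorem step4 (mu : MuStmt) (br : BrStmt) (t1 : T1Stmt) (s4 : S4Stmt) {x : ME →* GK} (hx : Good x)
    (l1 : Lab C8 (-1) (x e0) f1) (l2 : Lab C8 (-1) (x e1) f2) (h3 : x e2 ∈ P8.H) : Tor x := by
  obtain ⟨f, l3⟩ := exists_lab prim (by decide) h3 (by rw [pow_two, xsq])
  obtain ⟨g, hc, hN, hp⟩ := t1 (Fin 3) ![x e0, x e1, x e2] ![f1, f2, f]
    (fun i => by fin_cases i <;> assumption) (x e3) (xsq x e3)
    (fun i => by fin_cases i <;> exact comm x _ _)
  have c0 : cj g x e0 = x e0 := cj_fix (hc 0)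
  have c1 : cj g x e1 = x e1 := cj_fix (hc 1)
  have c2 : cj g x e2 = x e2 := cj_fix (hc 2)
  have hy := hx.cj mu g
  rw [← cj_apply] at hN hp
  have hz : ∀ i j : ℤ, z0 2 (fun r => f r + i * f1 r + j * f2 r) = 112 := fun i j => by
    obtain ⟨a, ha⟩ : ∃ a : Fin 2, (i : ZMod 2) = ((a : ℕ) : ℤ) := by
      generalize (i : ZMod 2) = k; revert k; decide
    obtain ⟨b, hb⟩ : ∃ a : Fin 2, (j : ZMod 2) = ((a : ℕ) : ℤ) := by
      generalize (j : ZMod 2) = k; revert k; decide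
    have l := (l3.mul (l1.pow a)).mul (l2.pow b)
    have k := mu.2.2.2.1 _ _ l
    rw [← map_pow, ← map_pow, ← map_mul, ← map_mul, hx _ (ne_e2 a b)] at k
    have k2 : z0 2 (fun r => f r + i * f1 r + j * f2 r) =
        z0 2 (fun r => f r + ((a : ℕ) : ℤ) * f1 r + ((b : ℕ) : ℤ) * f2 r) :=
      z0_congr 1 fun r => by
        simp only [Perm.one_apply, Int.cast_add, Int.cast_mul, ha, hb]
    omega
  have hd := fix_le mu br sq4 (cj g x) hy {cj g x e3, x e0, x e1, x e2} fun e => by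
    obtain ⟨a, b, c, d, rfl⟩ := gen4 e
    simp only [map_mul, map_pow, c0, c1, c2]
    exact mul_mem (mul_mem (mul_mem (pow_mem (Subgroup.subset_closure (by simp)) _)
      (pow_mem (Subgroup.subset_closure (by simp)) _))
      (pow_mem (Subgroup.subset_closure (by simp)) _))
      (pow_mem (Subgroup.subset_closure (by simp)) _)
  have hcard : Fintype.card ME = 16 := by simp [ME, E4]
  rw [hcard] at hd
  have h4 : cj g x e3 ∈ P8.H := s4 _ _ _ _ f l1 l2 l3 hz hN (xsq (cj g x) e3)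
    (c0 ▸ comm (cj g x) _ _) (c1 ▸ comm (cj g x) _ _) (c2 ▸ comm (cj g x) _ _)
    (fun r a b c => hp r (Fin.forall_fin_succ.2 ⟨a, Fin.forall_fin_two.2 ⟨b, c⟩⟩)) (by push_cast at hd; omega)
  refine Tor.of_cj (g := g) ⟨1, fun e => ?_⟩
  obtain ⟨a, b, c, d, rfl⟩ := gen4 e
  simp only [map_mul, map_pow, c0, c1, c2, one_mul, inv_one, mul_one]
  exact mul_mem (mul_mem (mul_mem (pow_mem l1.mem_H _) (pow_mem l2.mem_H _)) (pow_mem h3 _))
    (pow_mem h4 _)

theorem step3 (mu : MuStmt) (br : BrStmt) (t1 : T1Stmt) (s3 : S3Stmt) (s4 : S4Stmt)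
    {x : ME →* GK} (hx : Good x) (l1 : Lab C8 (-1) (x e0) f1) (l2 : Lab C8 (-1) (x e1) f2) :
    Tor x := by
  obtain ⟨g, hc, hN, hp⟩ := t1 (Fin 2) ![x e0, x e1] ![f1, f2]
    (fun i => by fin_cases i <;> assumption) (x e2) (xsq x e2)
    (fun i => by fin_cases i <;> exact comm x _ _)
  have c0 : cj g x e0 = x e0 := cj_fix (hc 0)
  have c1 : cj g x e1 = x e1 := cj_fix (hc 1)
  have hy := hx.cj mu g
  rw [← cj_apply] at hN hp
  have hd := fix_le mu br sq3 ((cj g x).comp j3) (fun e he => hy _ (j3_ne e he))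
    {cj g x e2, x e0, x e1} fun e => by
    obtain ⟨a, b, c, k⟩ := gen3 e
    simp only [MonoidHom.comp_apply, k, map_mul, map_pow, c0, c1]
    exact mul_mem (mul_mem (pow_mem (Subgroup.subset_closure (by simp)) _)
      (pow_mem (Subgroup.subset_closure (by simp)) _))
      (pow_mem (Subgroup.subset_closure (by simp)) _)
  have hcard : Fintype.card (Multiplicative (Fin 3 → ZMod 2)) = 8 := by simp
  rw [hcard] at hd
  have h3 : cj g x e2 ∈ P8.H := s3 _ _ _ l1 l2 hN (xsq (cj g x) e2)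
    (c0 ▸ comm (cj g x) _ _) (c1 ▸ comm (cj g x) _ _)
    (fun r a b => hp r (Fin.forall_fin_two.2 ⟨a, b⟩)) (by push_cast at hd; omega)
  exact Tor.of_cj (step4 mu br t1 s4 hy (c0 ▸ l1) (c1 ▸ l2) h3)

theorem tor (mu : MuStmt) (br : BrStmt) (t1 : T1Stmt) (t2 : Tor2Stmt) (s3 : S3Stmt)
    (s4 : S4Stmt) : TorStmt := by
  intro x hx
  obtain ⟨g, l1, l2⟩ := t2 (x e0) (x e1) (xsq x _) (xsq x _) (comm x _ _) (hx _ ne_e.1)
    (hx _ ne_e.2.1) (by rw [← map_mul]; exact hx _ ne_e.2.2)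
  exact Tor.of_cj (step3 mu br t1 s3 s4 (Good.cj mu hx g) l1 l2)

end Cfsg.Agent.H16.E83Tor
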