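import Cfsg.Agent.H2.FXDefs

/-! Summation over a partition by subgroups (piece PART). -/

set_option autoImplicit false

namespace Cfsg.Agent.H16.FXPart

open Cfsg.Agent.H2FX Finset

universe u

theorem part : PartStmt.{u} := by
  classical
  intro Γ _ _ h f
  let N : Finset ℕ := {64, 5, 7, 13}
  let P : Finset (Subgroup Γ) := univ.filter fun U => Nat.card U ∈ N
  let F : Subgroup Γ → ℂ := fun U => ∑ g ∈ univ.erase 1, if g ∈ U then f g else 0
  have h1 : ∀ U : Subgroup Γ, (∑ᶠ g : U, f g) - f 1 = F U := fun U => by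
    rw [finsum_eq_sum_of_fintype, sub_eq_iff_eq_add,
      ← sum_subtype (univ.filter (· ∈ U)) (by simp) f, sum_filter,
      ← sum_erase_add _ _ (mem_univ (1 : Γ)), if_pos U.one_mem]
  have h2 : ∀ n ∈ N, ∑ᶠ U : {U : Subgroup Γ // Nat.card U = n}, ((∑ᶠ g : U.1, f g) - f 1) =
      ∑ U ∈ P.filter (fun U : Subgroup Γ => Nat.card U = n), F U := fun n hn => by
    rw [finsum_eq_sum_of_fintype, sum_congr rfl fun U _ => h1 U.1]
    refine (sum_subtype _ (fun U => ?_) F).symm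
    simp only [P, mem_filter, mem_univ, true_and]
    exact ⟨fun h => h.2, fun h => ⟨h ▸ hn, h⟩⟩
  rw [sum_congr rfl h2, sum_fiberwise_of_maps_to (fun U hU => (mem_filter.1 hU).2), sum_comm,
    ← add_sum_erase _ _ (mem_univ (1 : Γ))]
  congr 1
  refine sum_congr rfl fun g hg => ?_
  obtain ⟨U, ⟨a, b⟩, c⟩ := h.2.2 g (ne_of_mem_erase hg)
  have e : ∀ V : Subgroup Γ, V ∈ P ↔ Nat.card V ∈ ({64, 5, 7, 13} : Set ℕ) := fun V => by
    simp [P, N]
  rw [sum_eq_single_of_mem U ((e U).2 a) fun V hV hne => if_neg fun hg =>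
    hne (c V ⟨(e V).1 hV, hg⟩), if_pos b]

end Cfsg.Agent.H16.FXPart
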