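import Cfsg.Agent.H42.FvDefs

/-! A lower bound for the number of twisted rational points of a unipotent subgroup (piece CARDB). -/

set_option autoImplicit false

namespace Cfsg.Agent.H16.FvCardB

open Equiv Cfsg.Lie H37 H40 H34 H29 Module H50.E83 Cfsg.Agent.H42.Fv

theorem gen {Φ : Type*} [Finite Φ] (π : Perm Φ) (R : Φ → Φ → Φ → Prop) (P : Set Φ) (ht : Φ → ℤ)
    (c : Set Φ → ℕ) (hR : ∀ r s t, R r s t → R (π r) (π s) (π t))
    (hh : ∀ r s t, R r s t → ht t = ht r + ht s) (hP : ∀ r ∈ P, 0 < ht r) (h0 : 1 ≤ c ∅)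
    (step : ∀ A ⊆ P, ∀ A' ⊆ A, ∀ (r₀ : Φ) (k : ℕ), (∀ r ∈ A, ∀ s ∈ A, ∀ t, R r s t → t ∈ A') →
      (∀ r ∈ A', π r ∈ A') → 0 < k → (π ^ k) r₀ = r₀ → (∀ j, 0 < j → j < k → (π ^ j) r₀ ≠ r₀) →
      (∀ j : ℕ, (π ^ j) r₀ ∈ A) → r₀ ∉ A' → 3 ^ k * c A' ≤ c A) :
    ∀ A ⊆ P, (∀ r ∈ A, ∀ s ∈ A, ∀ t, R r s t → t ∈ A) → (∀ r ∈ A, π r ∈ A) →
      3 ^ A.ncard ≤ c A := by
  classical
  have m0 : 0 < orderOf π := orderOf_pos π
  let f : Φ → ℤ := fun r => ∑ j ∈ Finset.range (orderOf π), ht ((π ^ j) r)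
  have hRj : ∀ (j : ℕ) r s t, R r s t → R ((π ^ j) r) ((π ^ j) s) ((π ^ j) t) := fun j => by
    induction j with
    | zero => exact fun _ _ _ h => h
    | succ j ih => exact fun r s t h => by simpa only [pow_succ', Perm.mul_apply] using hR _ _ _ (ih r s t h)
  have fadd : ∀ r s t, R r s t → f t = f r + f s := fun r s t h => by
    simp only [f, ← Finset.sum_add_distrib]
    exact Finset.sum_congr rfl fun j _ => hh _ _ _ (hRj j r s t h)
  have fπ : ∀ r, f (π r) = f r := fun r => by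
    have h1 := Finset.sum_range_succ (fun j => ht ((π ^ j) r)) (orderOf π)
    rw [Finset.sum_range_succ', pow_orderOf_eq_one, pow_zero] at h1
    simpa only [f, pow_succ, Perm.mul_apply] using add_right_cancel h1
  have fπj : ∀ (j : ℕ) r, f ((π ^ j) r) = f r := fun j r => by
    induction j with
    | zero => rfl
    | succ j ih => rw [pow_succ', Perm.mul_apply, fπ, ih]
  intro A
  induction hn : A.ncard using Nat.strong_induction_on generalizing A with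
  | _ N ih =>
  intro hA hc hs
  have hsj : ∀ (j : ℕ), ∀ r ∈ A, (π ^ j) r ∈ A := fun j r hr => by
    induction j with
    | zero => exact hr
    | succ j ih => rw [pow_succ', Perm.mul_apply]; exact hs _ ih
  have fpos : ∀ r ∈ A, 0 < f r := fun r hr =>
    Finset.sum_pos (fun j _ => hP _ (hA (hsj j r hr))) ⟨0, Finset.mem_range.2 m0⟩
  rcases A.eq_empty_or_nonempty with rfl | hne
  · rw [← hn, Set.ncard_empty, pow_zero]
    exact h0
  obtain ⟨r₀, hr₀, hmin⟩ := Set.exists_min_image A f A.toFinite hne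
  have hex : ∃ k, 0 < k ∧ (π ^ k) r₀ = r₀ := ⟨orderOf π, m0, by rw [pow_orderOf_eq_one]; rfl⟩
  obtain ⟨k0, kk⟩ := Nat.find_spec hex
  have kmin : ∀ j, 0 < j → j < Nat.find hex → (π ^ j) r₀ ≠ r₀ := fun j a b e =>
    Nat.find_min hex b ⟨a, e⟩
  generalize Nat.find hex = k at k0 kk kmin
  let O : Set Φ := (fun j : ℕ => (π ^ j) r₀) '' Set.Iio k
  have hO : O ⊆ A := by
    rintro _ ⟨j, -, rfl⟩
    exact hsj j r₀ hr₀
  have r0O : r₀ ∈ O := ⟨0, k0, rfl⟩
  have cO : O.ncard ≤ k := (Set.ncard_image_le (Set.finite_Iio k)).trans (by simp)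
  have h1 : ∀ r ∈ A, ∀ s ∈ A, ∀ t, R r s t → t ∈ A \ O := fun r hr s hs' t h => by
    refine ⟨hc r hr s hs' t h, ?_⟩
    rintro ⟨j, -, rfl⟩
    have a := fadd _ _ _ h
    have b := hmin r hr
    have d := fpos s hs'
    rw [fπj] at a
    omega
  have h2 : ∀ r ∈ A \ O, π r ∈ A \ O := fun r hr => by
    refine ⟨hs r hr.1, ?_⟩
    rintro ⟨j, hj, e⟩
    refine hr.2 ?_
    rcases j with _ | j
    · obtain ⟨k, rfl⟩ : ∃ k', k = k' + 1 := ⟨k - 1, by omega⟩
      refine ⟨k, Nat.lt_succ_self k, π.injective ?_⟩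
      rw [← e, ← Perm.mul_apply, ← pow_succ', kk]
      rfl
    · refine ⟨j, (Nat.lt_succ_self j).trans hj, π.injective ?_⟩
      rw [← e, ← Perm.mul_apply, ← pow_succ']
  have h3 := step A hA (A \ O) Set.diff_subset r₀ k h1 h2 k0 kk kmin (fun j => hsj j r₀ hr₀)
    fun h => h.2 r0O
  have c1 : (A \ O).ncard + O.ncard = N := by
    rw [← hn]
    exact Set.ncard_diff_add_ncard_of_subset hO
  have c2 : 0 < O.ncard := (Set.ncard_pos).2 ⟨r₀, r0O⟩
  have h4 := ih _ (by omega) (A \ O) rfl (Set.diff_subset.trans hA)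
    (fun r hr s hs' t h => h1 r hr.1 s hs'.1 t h) h2
  calc 3 ^ N ≤ 3 ^ (k + (A \ O).ncard) := Nat.pow_le_pow_right (by decide) (by omega)
    _ = 3 ^ k * 3 ^ (A \ O).ncard := pow_add _ _ _
    _ ≤ 3 ^ k * c (A \ O) := Nat.mul_le_mul_left _ h4
    _ ≤ c A := h3

theorem cardB (ca : CardAStmt) : CardBStmt := fun n hn =>
  gen (P8.ν n) Sum2 Pos C8.R.ht (fun A => Nat.card ↥(P8.U A ⊓ H75.EX.fixE (sg n)))
    (fun _ _ _ h => h.W (P8.ν_mem n hn)) (fun _ _ _ h => h.ht)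
    (fun r hr => (C8.R.ht_pos_iff r).2 hr)
    (by
      have : P8.U ∅ = ⊥ := by simp [Split.U, rootU]
      rw [this, bot_inf_eq, Subgroup.card_bot])
    (ca n hn)

end Cfsg.Agent.H16.FvCardB
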