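import Cfsg.Agent.H98.GbH

/-! The Fock space structure of the twisted Hall algebra (piece FOCK). -/

set_option autoImplicit false

namespace Cfsg.Agent.H16.GbFock

open Cfsg Finset Cfsg.Agent.H98.GB
open scoped ComplexConjugate MatrixGroups

universe u

theorem sum_self {I : Type*} [Fintype I] {f : I → ℂ} (h : ∑ i, f i * conj (f i) = 0) : f = 0 := by
  simp only [Complex.mul_conj] at h
  rw [← Complex.ofReal_sum, Complex.ofReal_eq_zero,
    sum_eq_zero_iff_of_nonneg fun i _ => Complex.normSq_nonneg _] at h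
  exact funext fun i => Complex.normSq_eq_zero.1 (h i (mem_univ i))

theorem inner_eq_zero {G : Type*} [Group G] [Fintype G] {f g : G → ℂ} :
    classInner f g = 0 ↔ ∑ x, f x * conj (g x) = 0 := by
  rw [classInner, mul_eq_zero, or_iff_right]
  exact inv_ne_zero (Nat.cast_ne_zero.2 Nat.card_pos.ne')

theorem inner_one {G : Type*} [Group G] [Fintype G] (c : ℂ) :
    classInner (fun _ : G => c) (fun _ => 1) = c := by
  have : (Nat.card G : ℂ) ≠ 0 := Nat.cast_ne_zero.2 Nat.card_pos.ne'
  rw [classInner, map_one, mul_one, sum_const, card_univ, ← Nat.card_eq_fintype_card, nsmul_eq_mul,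
    inv_mul_cancel_left₀ this]

section
variable {F : Type u} [Field F]

theorem tri_zero {m : ℕ} (h : m + 0 = m) (u : GL (Fin m) F) (c : Matrix (Fin m) (Fin 0) F)
    (v : GL (Fin 0) F) : tri h u c v = u := by
  have e : ∀ i, (eqv h).symm i = Sum.inl i := fun i => by
    rw [Equiv.symm_apply_eq]
    exact Fin.ext rfl
  refine Units.ext ?_
  ext i j
  rw [coe_tri, Matrix.reindex_apply, Matrix.submatrix_apply, e, e, Matrix.fromBlocks_apply₁₁]

variable [Fintype F] [DecidableEq F] {η : Fˣ →* ℂˣ}

theorem cmp_zero_left {a b n : ℕ} (h : a + b = n) (f' : GL (Fin b) F → ℂ) :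
    H98.GB.cmp η h 0 f' = 0 := by
  funext g
  simp [H98.GB.cmp, cmpS]

theorem cmp_zero_right {a b n : ℕ} (h : a + b = n) (f : GL (Fin a) F → ℂ) :
    H98.GB.cmp η h f 0 = 0 := by
  funext g
  simp [H98.GB.cmp, cmpS]

theorem perp1_zero {m k n : ℕ} (h : m + k = n) (P : GL (Fin m) F → ℂ) : perp1 h P 0 = 0 := by
  funext v
  simp [perp1, res, classInner]

theorem perp1_add {m k n : ℕ} (h : m + k = n) (P : GL (Fin m) F → ℂ) (f g : GL (Fin n) F → ℂ) :
    perp1 h P (f + g) = perp1 h P f + perp1 h P g := by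
  funext v
  simp only [perp1, res, classInner, Pi.add_apply, sum_add_distrib, mul_add, add_mul]

theorem perp1_smul {m k n : ℕ} (h : m + k = n) (P : GL (Fin m) F → ℂ) (c : ℂ)
    (f : GL (Fin n) F → ℂ) : perp1 h P (c • f) = c • perp1 h P f := by
  funext v
  simp only [perp1, res, classInner, Pi.smul_apply, smul_eq_mul, ← mul_sum, mul_left_comm _ c,
    mul_assoc c]

theorem res_zero {m : ℕ} (h : m + 0 = m) (f : GL (Fin m) F → ℂ) (u : GL (Fin m) F)
    (v : GL (Fin 0) F) : res h f u v = f u := by
  have : Fintype.card (Matrix (Fin m) (Fin 0) F) = 1 :=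
    Fintype.card_eq_one_iff.2 ⟨0, fun c => by ext i j; exact j.elim0⟩
  simp [res, tri_zero, this]

end

theorem fock (hT : TWCStmt.{u}) (hA : ADJStmt.{u}) (hD : DERStmt.{u}) (hS : SPANStmt.{u}) :
    FOCKStmt.{u} := by
  intro F _ _ _ η H
  obtain ⟨-, t2, t3, -⟩ := hT F η
  have evD : ∀ m y x, H.ev (H.D m y x) = perp m (H.ev y m) (H.ev x) := fun m y x =>
    H.ev_of fun k => t3 m k _ rfl _ _ (H.tw x _)
  have evD' : ∀ m y x k, H.ev (H.D m y x) k = perp1 rfl (H.ev y m) (H.ev x (m + k)) :=
    fun m y x k => congrFun (evD m y x) k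
  have one0 : H.ev 1 0 = fun _ => 1 := by rw [H.ev_one, one, Pi.single_eq_same]
  have one1 : H.Hg 0 1 := fun n hn => by rw [H.ev_one, one, Pi.single_eq_of_ne hn]
  have evm : ∀ {a b n x} (y) (h : a + b = n), H.Hg a x →
      H.ev (x * y) n = H98.GB.cmp η h (H.ev x a) (H.ev y b) := fun {a b n x} y h hx => by
    rw [H.ev_mul, mul, Fintype.sum_eq_single ⟨(a, b), mem_antidiagonal.2 h⟩]
    rintro ⟨⟨a', b'⟩, h'⟩ hne
    have : a' ≠ a := by
      rintro rfl
      have := mem_antidiagonal.1 h'
      obtain rfl : b' = b := by dsimp only at this; omega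
      exact hne rfl
    dsimp only
    rw [hx a' this, cmp_zero_left]
  have sgH : ∀ m (P : GL (Fin m) F → ℂ), Tw (dl η m) P → H.Hg m (H.sg m P) ∧ H.ev (H.sg m P) m = P :=
    fun m P hP => ⟨fun n hn => by rw [H.ev_sg hP, Pi.single_eq_of_ne hn],
      by rw [H.ev_sg hP, Pi.single_eq_same]⟩
  refine ⟨one1, fun {a b x y} hx hy n hn => ?_, evm, evD', fun m y x z => ?_, fun m y c x => ?_,
    fun {m k x} y hx n hn => ?_, fun {m n x} y hx h => ?_, fun {m y} hy x z => ?_,
    fun {m y m' y'} hy hy' => ?_, fun {m y} hy k x z => ?_, fun {n x} hn hx h => ?_, ?_,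
    fun {x} hx => ?_, fun {m x} hm hx => ⟨fun hp a b y z ha hb h hy hz => ?_, fun h => ?_⟩,
    fun {n x} hx h => ?_⟩
  · rw [H.ev_mul, mul]
    refine sum_eq_zero ?_
    rintro ⟨⟨a', b'⟩, h'⟩ -
    dsimp only
    by_cases e : a' = a
    · have := mem_antidiagonal.1 h'
      rw [hy b' (by dsimp only at this; omega), cmp_zero_right]
    · rw [hx a' e, cmp_zero_left]
  · refine H.inj (funext fun k => ?_)
    rw [evD', map_add, map_add, Pi.add_apply, Pi.add_apply, evD', evD', perp1_add]
  · refine H.inj (funext fun k => ?_)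
    rw [evD', map_smul, map_smul, Pi.smul_apply, Pi.smul_apply, evD', perp1_smul]
  · rw [evD', hx _ (by omega), perp1_zero]
  · refine H.inj (funext fun k => ?_)
    rw [evD', hx _ (by omega), perp1_zero, map_zero]
    rfl
  · refine H.inj ?_
    rw [evD, map_add, H.ev_mul, H.ev_mul, H.ev_mul, evD, evD,
      hD F η m _ _ _ hy.2 (H.tw y m) (H.tw x) (H.tw z)]
  · refine H.inj (funext fun k => ?_)
    rw [evD', map_smul, Pi.smul_apply]
    rcases k with _ | k
    · rw [one0]
      funext v
      rw [Pi.smul_apply, smul_eq_mul, mul_one]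
      exact congrArg (fun f => classInner f (H.ev y m))
        (funext fun u => res_zero rfl (H.ev y' m) u v)
    · rw [one1 _ k.succ_ne_zero, smul_zero]
      by_cases e : m + (k + 1) = m'
      · subst e
        funext v
        have := fun u => hy'.2.2 m (k + 1) rfl hy.2.1 k.succ_pos u v
        simp [perp1, this, classInner]
      · rw [hy'.1 _ e, perp1_zero]
  · rw [Hall.ip, Hall.ip, evm x rfl hy, evD', (hA F η m k _ rfl _ _ _ (H.tw z _)).1]
  · refine H.inj (funext fun n' => ?_)
    rw [map_zero]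
    by_cases e : n' = n
    · subst e
      refine hS F η n' _ hn (H.tw x n') fun m k hk P hP hP' => ?_
      subst hk
      obtain ⟨s1, s2⟩ := sgH m P hP'
      have := evD' m (H.sg m P) x k
      rw [h m _ ⟨s1, by rwa [s2]⟩, map_zero, s2] at this
      exact this.symm
    · exact hx n' e
  · rw [Hall.ip, one0, inner_one]
  · refine H.inj (funext fun n => ?_)
    rw [map_smul, Pi.smul_apply]
    rcases n with _ | n
    · funext g
      have : H.ev x 0 = fun _ => H.ev x 0 g := funext fun g' => congrArg _ (Subsingleton.elim _ _)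
      rw [Hall.ip, one0, Pi.smul_apply, smul_eq_mul, mul_one]
      conv_rhs => rw [this, inner_one]
    · rw [hx _ n.succ_ne_zero, one1 _ n.succ_ne_zero, smul_zero]
  · rw [Hall.ip, evm z h hy, (hA F η a b m h _ _ _ (H.tw x m)).2]
    simp [hp.2.2 a b h ha hb, classInner]
  · refine ⟨hx, hm, fun a b hab ha hb u v => ?_⟩
    have k1 : ∀ f f', Tw (dl η a) f → Tw (dl η b) f' →
        ∑ u, ∑ v, f u * f' v * conj (res hab (H.ev x m) u v) = 0 := fun f f' hf hf' => by
      have := h a b _ _ ha hb hab (sgH a f hf).1 (sgH b f' hf').1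
      rw [Hall.ip, evm _ hab (sgH a f hf).1, (sgH a f hf).2, (sgH b f' hf').2,
        (hA F η a b m hab _ _ _ (H.tw x m)).2, inner_eq_zero, Fintype.sum_prod_type] at this
      exact this
    have k2 : ∀ f', Tw (dl η b) f' →
        (fun u => ∑ v, res hab (H.ev x m) u v * conj (f' v)) = 0 := fun f' hf' => by
      refine sum_self ?_
      rw [← k1 (fun u => ∑ v, res hab (H.ev x m) u v * conj (f' v)) f' (fun s u => ?_) hf']
      · refine sum_congr rfl fun u _ => ?_
        rw [map_sum, mul_sum]
        refine sum_congr rfl fun v _ => ?_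
        rw [map_mul, Complex.conj_conj]
        ring
      · rw [mul_sum]
        refine sum_congr rfl fun v _ => ?_
        have := t2 a b m hab _ (H.tw x m) s 1 u v
        rw [one_mul, inv_one, mul_one, map_one, Units.val_one, mul_one] at this
        rw [this, mul_assoc]
    refine congrFun (sum_self (congrFun (k2 (res hab (H.ev x m) u) fun t v => ?_) u)) v
    have := t2 a b m hab _ (H.tw x m) 1 t u v
    rwa [one_mul, inv_one, mul_one, map_one, Units.val_one, one_mul] at this
  · refine H.inj (funext fun n' => ?_)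
    rw [map_zero]
    by_cases e : n' = n
    · subst e
      exact sum_self (inner_eq_zero.1 h)
    · exact hx n' e

end Cfsg.Agent.H16.GbFock
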