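import Cfsg.Agent.H98.GbG
import Cfsg.Agent.H21.Tilde
import Cfsg.Agent.H17.First

/-! The second main theorem for a centraliser that is a direct product (piece R1b). -/

set_option autoImplicit false

namespace Cfsg.Agent.H16.GbR1b

open Cfsg Cfsg.Agent.H17 Cfsg.Agent.H20

universe u

theorem exists_reg {G : Type u} [Group G] [Fintype G] {p : ℕ} [hp : Fact p.Prime] {M : Ideal AlgInt}
    (hM : IsPModular p M) {b : Set (IrrCharacter G)} (hb : LamClosed M b) {ψ : IrrCharacter G}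
    (hψ : ψ ∈ b) {F : G → ℂ} (h : classInner (pRegularPart p F) ψ.1 ≠ 0) :
    ∃ y, ¬ p ∣ orderOf y ∧ blockPart b F y ≠ 0 := by
  by_contra hne
  push Not at hne
  refine h ?_
  rw [← H21.classInner_blockPart_of_mem _ hψ]
  have : blockPart b (pRegularPart p F) = fun _ => 0 := by
    funext y
    by_cases hy : p ∣ orderOf y
    · obtain ⟨z, hz⟩ := exists_pPart hp.out y
      refine blockPart_eq_zero_of_section hM hb hz fun g w hw hc => ?_
      have w1 : w ≠ 1 := by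
        rintro rfl
        exact pPart_ne_one hz hy (isConj_one_left.1 hc)
      exact if_neg (not_not.2 (dvd_orderOf_of_pPart_ne_one hp.out hw w1))
    · rw [← hne y hy]
      refine blockPart_congr_section hM hb (pPart_one_of_not_dvd hy) fun g w hw hc => ?_
      rw [isConj_one_right.1 hc] at hw
      exact if_pos (not_dvd_of_pPart_one hw)
  rw [this, classInner]
  simp

theorem r1b : H98.GB.R1bStmt.{u} := by
  intro G _ _ p hp M hM G₁ G₂ _ _ _ _ j hj u₁ hu₁ hr s₁ hs₁ χ ψ h D₂ hD₂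
  classical
  have hu : ∃ k, orderOf (j (u₁, 1)) = p ^ k := by
    obtain ⟨k, hk⟩ := hu₁
    exact ⟨k, by rw [orderOf_injective j hj, Prod.orderOf_mk, orderOf_one, Nat.lcm_one_right, hk]⟩
  let j' : G₁ × G₂ →* Cg (j (u₁, 1)) := j.codRestrict _ fun x => hr ▸ ⟨x, rfl⟩
  have j's : Function.Surjective j' := fun c => by
    obtain ⟨x, hx⟩ : (c : G) ∈ j.range := hr.ge c.2
    exact ⟨x, Subtype.ext hx⟩
  have j'i : Function.Injective j' := fun x y e => hj (congrArg Subtype.val e)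
  let i₂ : G₂ →* Cg (j (u₁, 1)) := j'.comp (MonoidHom.inr G₁ G₂)
  have i₂i : Function.Injective i₂ := fun x y e => (Prod.ext_iff.1 (j'i e)).2
  have nN : i₂.range.Normal := ⟨by
    rintro _ ⟨y, rfl⟩ g
    obtain ⟨⟨a, b⟩, rfl⟩ := j's g
    refine ⟨b * y * b⁻¹, ?_⟩
    change j' _ = j' _ * j' _ * (j' _)⁻¹
    rw [← map_mul, ← map_inv, ← map_mul]
    congr 1
    ext <;> simp⟩
  let e : G₂ ≃* i₂.range := MonoidHom.ofInjective i₂i
  have he : ∀ y, (e y : Cg (j (u₁, 1))) = i₂ y := fun _ => rfl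
  have hb₂ := isPBlock_blockOf (M := M) ψ
  have hb := H22.isPBlock_image e hb₂
  have hst : ∀ g, g ∈ H22.stab i₂.range (H22.irrMap e '' blockOf M ψ.1) := fun g => by
    obtain ⟨⟨a, b⟩, rfl⟩ := j's g
    have : j' (a, b) = j' (a, 1) * i₂ b := by
      change _ = j' _ * j' _
      rw [← map_mul]
      congr 1
      ext <;> simp
    rw [this]
    refine mul_mem (H22.centralizer_le_stab _ _ ?_) (H22.le_stab _ _ ⟨b, rfl⟩)
    rintro _ ⟨y, rfl⟩
    change j' _ * j' _ = j' _ * j' _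
    rw [← map_mul, ← map_mul]
    congr 1
    ext <;> simp
  have hχc : IsClassFunction G χ.1 := irr_isClassFunction χ
  have hF : IsClassFunction G₂ fun y => χ.1 (j (u₁ * s₁, y)) := fun y z => by
    beta_reduce
    rw [← hχc (j (u₁ * s₁, y)) (j (1, z)), ← map_mul, ← map_inv, ← map_mul]
    refine congrArg (fun x => χ.1 (j x)) ?_
    ext <;> simp
  obtain ⟨y, hy, hne⟩ := exists_reg hM (lamClosed_of_isPBlock hM.2.1 hb₂)
    (mem_blockOf_self hM.2.1 ψ) h
  have hB := isPBlock_blockOf (M := M) χ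
  have hreg : ¬ p ∣ orderOf (j (s₁, y)) := by
    rw [orderOf_injective j hj, Prod.orderOf_mk]
    exact fun hd => (hp.out.dvd_mul.1 (hd.trans (Nat.lcm_dvd_mul _ _))).elim hs₁ hy
  have hpp : IsPPart p ((j' (u₁ * s₁, y) : Cg (j (u₁, 1))) : G) (j (u₁, 1)) := by
    refine ⟨j (s₁, y), ?_, ?_, hu, hreg⟩
    · rw [← map_mul]
      change j _ = j _
      congr 1
      ext <;> simp
    · exact (mem_Cg.1 (j' (s₁, y)).2).symm
  have hnd : ¬ Disjoint (H22.above i₂.range (H22.irrMap e '' blockOf M ψ.1))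
      (locSet M (Cg (j (u₁, 1))) (blockOf M χ.1)) := fun hd => by
    have h0 := blockPart_res_eq_zero hM
      (H22.lamClosed_above _ (lamClosed_of_isPBlock hM.2.1 hb)) (lamClosed_of_isPBlock hM.2.1 hB)
      hd hpp le_rfl (mem_blockOf_self hM.2.1 χ)
    refine hne ?_
    rw [← h0, blockPart_eq_sum_blockCoeff _ hF,
      blockPart_eq_sum_blockCoeff _ (ϑ := fun k : Cg (j (u₁, 1)) => χ.1 k) fun a b => hχc a b]
    refine Fintype.sum_of_injective i₂ i₂i _ _ (fun c hc => ?_) fun g => ?_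
    · rw [H22.blockCoeff_above_of_notMem _ _ hst hc, zero_mul]
    · rw [← he, H22.blockCoeff_above_coe _ _ hst, H22.blockCoeff_image, he]
      refine congrArg (fun x => blockCoeff (blockOf M ψ.1) g * χ.1 x) ?_
      change j _ = j _ * j _
      rw [← map_mul]
      congr 1
      ext <;> simp
  obtain ⟨ξ, ⟨θ, hθ, ho⟩, hξ⟩ := Set.not_disjoint_iff.1 hnd
  have hβ := isPBlock_blockOf (M := M) ξ
  have hcov : H22.Covers i₂.range (blockOf M ξ.1) (H22.irrMap e '' blockOf M ψ.1) :=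
    ⟨ξ, mem_blockOf_self hM.2.1 ξ, θ, hθ, ho⟩
  obtain ⟨P, hP, hPN⟩ := hcov.exists_dg_inf_eq hM hβ hb
    ((H18.isDefectGroup_iff_bid hM hb).1 (H22.isDefectGroup_image e hD₂))
  have hind := ((truncMul_Cg hM hu).mem_locSet_iff_blockOf hM.2.1 ξ hB).1 hξ
  obtain ⟨D, hD, hle⟩ := H17.IsInducedBlock.exists_dg_ge hM hind hP
  refine ⟨D, hD, hle ⟨⟨_, self_mem_Cg _⟩, ?_, rfl⟩, fun z hz => hle ⟨i₂ z, ?_, rfl⟩⟩
  · have hz : ∀ g, (⟨_, self_mem_Cg _⟩ : Cg (j (u₁, 1))) * g = g * ⟨_, self_mem_Cg _⟩ :=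
      self_central_Cg _
    have nZ : (Subgroup.zpowers (⟨_, self_mem_Cg _⟩ : Cg (j (u₁, 1)))).Normal := ⟨by
      rintro _ ⟨k, rfl⟩ g
      refine ⟨k, ?_⟩
      have := (Commute.zpow_left (hz g) k).eq
      simp only
      rw [← this, mul_inv_cancel_right]⟩
    refine le_dg_of_normal hM (isPGroup_zpowers ?_) hβ hP (Subgroup.mem_zpowers _)
    rwa [← Subgroup.orderOf_coe]
  · have : i₂ z ∈ P ⊓ i₂.range := by
      rw [hPN]
      exact ⟨e z, ⟨z, hz, rfl⟩, rfl⟩
    exact this.1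

end Cfsg.Agent.H16.GbR1b
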