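import Cfsg.Agent.H26.K64T

/-! Two-generated `2`-groups of order at most `64` with an odd automorphism (K64, Case0). -/

set_option autoImplicit false

namespace Cfsg.Agent.H16.K64Case0

open Subgroup Cfsg.Agent.H18 Cfsg.Agent.H26.K64
open scoped commutatorElement

universe u

variable {G : Type u} [Group G] {P : Subgroup G} {t : G}

/-- class two and two generators -/
theorem comm_le {x y : G} (hx : x ∈ P) (hy : y ∈ P) (h : closure ({x, y} : Set G) = P)
    (hw : Cen P ⁅x, y⁆) : ⁅P, P⁆ ≤ zpowers ⁅x, y⁆ := by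
  have := hw.normal le_rfl
  let π := QuotientGroup.mk' ((zpowers ⁅x, y⁆).subgroupOf P)
  have h1 : closure ({⟨x, hx⟩, ⟨y, hy⟩} : Set P) = ⊤ := by
    rw [← closure_eq_top_of_closure_eq h]
    congr 1
    ext a
    simp [Subtype.ext_iff]
  have h2 := congrArg (map π) h1
  rw [MonoidHom.map_closure, Set.image_pair, map_top_of_surjective _
    (QuotientGroup.mk'_surjective _)] at h2
  have h3 : π ⟨x, hx⟩ * π ⟨y, hy⟩ = π ⟨y, hy⟩ * π ⟨x, hx⟩ := by
    rw [← commutatorElement_eq_one_iff_mul_comm, ← map_commutatorElement]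
    exact (mk_eq_one_iff _).2 (mem_zpowers _)
  have h4 := isMulCommutative_closure (k := {π ⟨x, hx⟩, π ⟨y, hy⟩}) (by
    rintro a (rfl | rfl) b (rfl | rfl)
    exacts [rfl, h3, h3.symm, rfl])
  rw [h2] at h4
  refine commutator_le.2 fun a ha b hb => (mk_eq_one_iff (⁅(⟨a, ha⟩ : P), ⟨b, hb⟩⁆)).1 ?_
  change π _ = 1
  rw [map_commutatorElement, commutatorElement_eq_one_iff_mul_comm]
  exact congrArg Subtype.val (h4.1.1 ⟨_, mem_top _⟩ ⟨_, mem_top _⟩)

theorem card_eq {D : Subgroup G} (h : D ≤ P) : Nat.card D * D.relIndex P = Nat.card P := by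
  rw [← H4.card_subgroupOf_of_le h]; exact card_mul_index _

variable [Finite G]

omit [Finite G] in
theorem cop (ho : ¬ 2 ∣ orderOf t) : (Nat.card (zpowers t)).Coprime 2 := by
  rw [Nat.card_zpowers]; exact ((Nat.Prime.coprime_iff_not_dvd Nat.prime_two).2 ho).symm

/-- the action on a quotient by a subgroup of the Frattini subgroup -/
theorem sa_ne (hP : IsPGroup 2 P) (hN : t ∈ Nz P) (ho : ¬ 2 ∣ orderOf t) (hC : t ∉ Cz P)
    {M : Subgroup G} [(M.subgroupOf P).Normal] (hM : t ∈ Nz M)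
    (h1 : M ≤ (frattini P).map P.subtype) : SA P M ⟨t, hN, hM⟩ ≠ 1 := fun e => by
  have := Fact.mk Nat.prime_two
  have h2 : zpowers t ≤ (SA P M).ker.map (Nz P ⊓ Nz M).subtype := zpowers_le.2 ⟨_, e, rfl⟩
  refine hC (le_Cz_comm.1 (H4.le_centralizer_of_commutator_le_frattini (A := zpowers t)
    (zpowers_le.2 hN) ?_ (commutator_le.2 fun d hd a ha => ?_)) (mem_zpowers t))
  · obtain ⟨n, hn⟩ := IsPGroup.iff_card.1 (hP.to_subgroup (frattini P))
    rw [hn]
    exact (cop ho).pow_right n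
  · obtain ⟨b, hb, rfl⟩ := h2 ha
    exact h1 ((H4.mem_ker_sectionAct _ _ b).1 hb d hd)

theorem eq_comm_t (hP : IsPGroup 2 P) (h2 : Two P) (hN : t ∈ Nz P) (ho : ¬ 2 ∣ orderOf t)
    (hC : t ∉ Cz P) : ⁅P, zpowers t⁆ = P := by
  have := Fact.mk Nat.prime_two
  set F := (frattini P).map P.subtype with hF
  have hFP : F ≤ P := map_subtype_le _
  have hNF : Nz P ≤ Nz F := H3.normalizer_le_normalizer_map_frattini P
  have := normal_subgroupOf_of_le_Nz (le_normalizer.trans hNF)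
  have h3 := h2.card_le hFP (H3.commutator_le_map_frattini hP)
    fun a ha => by rw [← sq]; exact H3.pow_mem_map_frattini hP ha
  have h4 : Nat.card (P ⧸ F.subgroupOf P) ≤ 4 := by
    rw [card_sec]
    exact Nat.le_of_mul_le_mul_left (card_eq hFP ▸ h3) Nat.card_pos
  have h5 := sa_ne hP hN ho hC (hNF hN) le_rfl
  have hA := zpowers_le.2 hN
  have h6 : P ⊓ Cz (zpowers t) ≤ F := fun c hc => by
    by_contra h7
    have h8 : ((⟨c, hc.1⟩ : P) : P ⧸ F.subgroupOf P) ≠ 1 := fun e => h7 ((mk_eq_one_iff _).1 e)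
    have h9 : SA P F ⟨t, hN, hNF hN⟩ (⟨c, hc.1⟩ : P) = (⟨c, hc.1⟩ : P) := by
      rw [SA_fix_iff]
      simp [mem_Cz.1 hc.2 t (mem_zpowers t), F.one_mem]
    refine h5 (MulEquiv.ext fun v => fix_of_card_le (hP.to_quotient _) (SA_odd _ ho)
      (K := zpowers ((⟨c, hc.1⟩ : P) : P ⧸ F.subgroupOf P)) le_top (fun _ _ => mem_top _)
      ?_ ?_ v (mem_top v))
    · rintro _ ⟨n, rfl⟩
      simp only [map_zpow, h9]
    · have := (one_lt_card_iff_ne_bot _).2 (zpowers_ne_bot.2 h8)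
      rw [card_top]
      omega
  refine H3.eq_of_sup_map_frattini_eq (le_antisymm
    (sup_le (H4.commutator_le_left_of_le_normalizer hA) hFP) ?_)
  exact (H4.commutator_sup_centralizer hA (H4.coprime_card_of_isPGroup (cop ho) hP)
    (.inr (H4.isSolvable_of_isPGroup hP))).ge.trans (sup_le_sup_left h6 _)

theorem case0 : Case0.{u} := by
  intro G _ _ P t hP h64 h2 hN ho hC
  have := Fact.mk Nat.prime_two
  have hDP : ⁅P, P⁆ ≤ P := H4.commutator_le_left_of_le_normalizer le_normalizer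
  have hND : Nz P ≤ Nz ⁅P, P⁆ := H4.le_normalizer_commutator le_rfl le_rfl
  have hPD : P ≤ Nz ⁅P, P⁆ := le_normalizer.trans hND
  have := normal_subgroupOf_of_le_Nz hPD
  by_cases h8 : Nat.card (P ⧸ ⁅P, P⁆.subgroupOf P) ≤ 8
  · refine ⟨1, ⟨P.one_mem, by simp⟩, gq_of_sq ⟨P.one_mem, by simp⟩ h2 fun a ha => mem_sup_left ?_⟩
    refine (mk_eq_one_iff (H := P) (M := ⁅P, P⁆) (⟨a, ha⟩ * ⟨a, ha⟩)).1 ?_
    rw [QuotientGroup.mk_mul]
    refine sq_eq_one_of_card_le (hP.to_quotient _) (fun x y => ?_) h8 (SA_odd _ ho)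
      (sa_ne hP hN ho hC (hND hN) (H3.commutator_le_map_frattini hP)) _
    obtain ⟨x, rfl⟩ := QuotientGroup.mk_surjective x
    obtain ⟨y, rfl⟩ := QuotientGroup.mk_surjective y
    rw [← QuotientGroup.mk_mul, ← QuotientGroup.mk_mul, QuotientGroup.eq]
    simpa [mem_subgroupOf, commutatorElement_def, mul_assoc] using
      commutator_mem_commutator (inv_mem y.2) (inv_mem x.2)
  have hz : ⁅P, P⁆ ≤ Cz P := by
    by_contra h0
    have hD := hP.to_le hDP
    have h1 : ⁅⁅P, P⁆, P⁆ ≠ ⊥ := fun e => h0 (commutator_eq_bot_iff_le_centralizer.1 e)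
    have h3 := H4.commutator_lt_of_isPGroup hP hD hPD fun e => h0 (e ▸ bot_le)
    have h4 := card_le_half h3
    have h5 := (one_lt_card_iff_ne_bot _).2 h1
    have h6 := card_eq hDP
    rw [card_sec] at h8
    have h7 : Nat.card (⁅P, P⁆ : Subgroup G) < 8 := by nlinarith
    obtain ⟨n, hn⟩ := hD.exists_card_eq
    have h9 : Nat.card (⁅P, P⁆ : Subgroup G) ≤ 4 := by
      rw [hn] at h7 ⊢
      exact Nat.pow_le_pow_right (by decide)
        (Nat.lt_succ_iff.1 ((Nat.pow_lt_pow_iff_right (by decide) (m := 3)).1 h7))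
    have a1 : t ∈ Cz ⁅⁅P, P⁆, P⁆ := mem_Cz_of_card_le (hD.to_le h3.le) ho
      (H4.le_normalizer_commutator hND le_rfl hN) bot_le (by simp [mem_Cz])
      (by rw [card_bot]; omega)
    have a2 := mem_Cz_of_card_le hD ho (hND hN) h3.le a1 (by omega)
    have a3 := commutator_le_Cz hPD a2
    rw [eq_comm_t hP h2 hN ho hC] at a3
    exact h0 (le_Cz_comm.1 a3)
  obtain ⟨x, hx, y, hy, h⟩ := id h2
  have hm := commutator_mem_commutator hx hy
  have hw : Cen P ⁅x, y⁆ := ⟨hDP hm, mem_Cz.1 (hz hm)⟩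
  exact ⟨_, hw, gq_of_comm hw h2 (comm_le hx hy h hw)⟩

end Cfsg.Agent.H16.K64Case0
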