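import Cfsg.Agent.H89.L27Defs

/-! Base change from the prime field to its algebraic closure (piece BC). -/

set_option autoImplicit false

namespace Cfsg.Agent.H16.L27Bc

open Cfsg.Lie H37 H40 H34 H29 Module Cfsg.Agent.H50.E83 Cfsg.Agent.H89.L27
open scoped Matrix

theorem finrank_le {F k I : Type*} [Field F] [Field k] [Algebra F k] [Fintype I]
    (W₀ : Submodule F (I → F)) (W : Submodule k (I → k))
    (h : ∀ (l : k →ₗ[F] F), ∀ v ∈ W, (fun i => l (v i)) ∈ W₀) : finrank k W ≤ finrank F W₀ := by
  classical
  let b := Basis.ofVectorSpace F k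
  let c := finBasis F W₀
  let f : Fin (finrank F W₀) → I → k := fun j i => algebraMap F k ((c j : I → F) i)
  have h0 : ∀ w ∈ W₀, (fun i => algebraMap F k (w i)) ∈ Submodule.span k (Set.range f) := by
    intro w hw
    have e : (fun i => algebraMap F k (w i)) =
        ∑ j, algebraMap F k (c.repr ⟨w, hw⟩ j) • f j := by
      funext i
      have := congrArg (fun x : W₀ => (x : I → F) i) (c.sum_repr ⟨w, hw⟩)
      simp only [Submodule.coe_sum, Finset.sum_apply, Submodule.coe_smul, Pi.smul_apply,
        smul_eq_mul] at this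
      rw [← this, map_sum, Finset.sum_apply]
      exact Finset.sum_congr rfl fun j _ => by simp [f]
    rw [e]
    exact Submodule.sum_mem _ fun j _ =>
      Submodule.smul_mem _ _ (Submodule.subset_span ⟨j, rfl⟩)
  have h1 : W ≤ Submodule.span k (Set.range f) := by
    intro v hv
    let T := Finset.univ.biUnion fun i => (b.repr (v i)).support
    have e : v = ∑ j ∈ T, b j • fun i => algebraMap F k (b.coord j (v i)) := by
      funext i
      rw [Finset.sum_apply]
      conv_lhs => rw [← b.linearCombination_repr (v i), Finsupp.linearCombination_apply]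
      rw [Finsupp.sum_of_support_subset _
        (Finset.subset_biUnion_of_mem (fun i => (b.repr (v i)).support) (Finset.mem_univ i))
        (fun j a => a • b j) (fun j _ => zero_smul _ _)]
      exact Finset.sum_congr rfl fun j _ => by
        simp [Algebra.smul_def, mul_comm]
    rw [e]
    exact Submodule.sum_mem _ fun j _ => Submodule.smul_mem _ _ (h0 _ (h (b.coord j) v hv))
  refine (Submodule.finrank_mono h1).trans ?_
  exact (finrank_range_le_card (R := k) f).trans (Fintype.card_fin _).le

theorem coe_ι (g : G0) : ((ι g).1.1 : Matrix chevE8.Idx chevE8.Idx K) =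
    (g.1.1 : Matrix chevE8.Idx chevE8.Idx (ZMod 3)).map (algebraMap (ZMod 3) K) :=
  C8.V.coe_coe_fieldHom _ g

theorem coe_σG (g : GK) : ((σG g).1.1 : Matrix chevE8.Idx chevE8.Idx K) =
    (g.1.1 : Matrix chevE8.Idx chevE8.Idx K).map fr :=
  C8.V.coe_coe_fieldHom _ g

theorem cube (a : ZMod 3) : algebraMap (ZMod 3) K a ^ 3 = algebraMap (ZMod 3) K a := by
  rw [← map_pow, ZMod.pow_card]

theorem bc : BcStmt := by
  refine ⟨fun S => finrank_le _ _ fun l v hv => mem_Fix0.2 fun g hg => ?_, fun g v => ?_,
    fun g v => ?_, fun v => ?_, fun v w h => ?_, fun g => ⟨fun h => ?_, ?_⟩⟩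
  · have := mem_Fix.1 hv (ι g) ⟨g, hg, rfl⟩
    rw [act_apply, coe_ι] at this
    rw [act0_apply]
    funext i
    rw [← congrFun this i]
    simp only [Matrix.mulVec, dotProduct, Matrix.map_apply, map_sum]
    refine Finset.sum_congr rfl fun j _ => ?_
    rw [← Algebra.smul_def, map_smul, smul_eq_mul]
  · rw [act_apply, act0_apply, coe_ι]
    funext i
    exact ((algebraMap (ZMod 3) K).map_mulVec _ v i).symm
  · rw [act_apply, act_apply, coe_σG]
    funext i
    exact fr.map_mulVec _ v i
  · funext i
    exact cube _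
  · funext i
    exact (algebraMap (ZMod 3) K).injective (congrFun h i)
  · have hι : ∀ x, fr x = x ↔ ∃ y, algebraMap (ZMod 3) K y = x := fun x => by
      rw [fr_apply, ← mem_range_of_pow_card, ZMod.card]
    have := C8.pow_mem_range hι (q := 3) (by decide) fr_apply (C8.pow_eq_one_of_inv invE8) h
    rwa [Nat.gcd_one_left, pow_one] at this
  · rintro ⟨g, rfl⟩
    refine Subtype.ext (Units.ext ?_)
    rw [coe_σG, coe_ι]
    ext i j
    exact cube _

end Cfsg.Agent.H16.L27Bc
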