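import Cfsg.Agent.H50.L81Defs
import Cfsg.Agent.Eqn.Cfsg_Agent_H50_L81_wd

/-! Project L81: a rational line of `sl₂` is fixed by an element of order greater than two
(piece F3). -/

set_option autoImplicit false

namespace Cfsg.Agent.H16.L81F3

open Cfsg.Agent.H50.E83 Cfsg.Agent.H50.L81

/-- the Frobenius map -/
noncomputable def φ : K →+* K := iterateFrobenius K 3 4

theorem φ_def (x : K) : φ x = x ^ 81 := iterateFrobenius_def 3 4 x

theorem three : (3 : K) = 0 := by exact_mod_cast CharP.cast_eq_zero K 3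

theorem two : (2 : K) ≠ 0 := fun h => one_ne_zero (by linear_combination three - h : (1 : K) = 0)

/-- the conclusion -/
def Q (x : K × K × K) : Prop :=
  ∃ L : List (Bool × K), (∀ q ∈ L, φ q.2 = q.2) ∧ wd L x = x ∧ ∃ y, wd L (wd L y) ≠ y

theorem wd_smul (L : List (Bool × K)) (c : K) (x : K × K × K) : wd L (c • x) = c • wd L x := by
  induction L with
  | nil => rfl
  | cons q L ih =>
    obtain ⟨b, t⟩ := q
    cases b <;> simp only [wd, ih, Um, Lm, Bool.false_eq_true, if_false, if_true] <;> ext <;>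
      simp only [Prod.smul_fst, Prod.smul_snd, smul_eq_mul] <;> ring

theorem wd_append (L L' : List (Bool × K)) (x : K × K × K) : wd (L ++ L') x = wd L (wd L' x) := by
  induction L with
  | nil => rfl
  | cons q L ih =>
    obtain ⟨b, t⟩ := q
    simp only [List.cons_append, wd, ih]

theorem wd_neg (b : Bool) (t : K) (x : K × K × K) : wd [(b, -t)] (wd [(b, t)] x) = x := by
  cases b <;> simp only [wd, Um, Lm, Bool.false_eq_true, if_false, if_true] <;> ext <;> ring

theorem wd_neg' (b : Bool) (t : K) (x : K × K × K) : wd [(b, t)] (wd [(b, -t)] x) = x := by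
  simpa only [neg_neg] using wd_neg b (-t) x

theorem Q.smul {x : K × K × K} (h : Q x) (c : K) : Q (c • x) := by
  obtain ⟨L, h1, h2, h3⟩ := h
  exact ⟨L, h1, by rw [wd_smul, h2], h3⟩

theorem Q.conj {x : K × K × K} (b : Bool) {t : K} (ht : φ t = t) (h : Q (wd [(b, t)] x)) : Q x := by
  obtain ⟨L, h1, h2, y, h3⟩ := h
  refine ⟨[(b, -t)] ++ (L ++ [(b, t)]), fun q hq => ?_, ?_, wd [(b, -t)] y, fun e => h3 ?_⟩
  · simp only [List.mem_append, List.mem_singleton] at hq
    rcases hq with rfl | hq | rfl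
    · rw [map_neg, ht]
    · exact h1 q hq
    · exact ht
  · rw [wd_append, wd_append, h2, wd_neg]
  · have := congrArg (wd [(b, t)]) e
    simpa only [wd_append, wd_neg'] using this

theorem Q_zero : Q 0 := by
  refine ⟨[(false, 1)], by simp, by simp [wd, Lm], (1, 0, 0), fun e => two ?_⟩
  have := congrArg (fun x => x.2.2) e
  simp only [wd, Lm, Bool.false_eq_true, if_false] at this
  linear_combination -this

theorem Q_std {d : K} (hd : φ d = d) : Q (d, 1, 0) := by
  obtain ⟨σ, h0, h1, h2⟩ : ∃ σ : K, σ ≠ 0 ∧ φ σ = σ ∧ d ^ 2 * σ ^ 4 ≠ 1 := by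
    by_cases h : d ^ 2 = 1
    · obtain ⟨σ, hσ⟩ := IsAlgClosed.exists_pow_nat_eq (-1 : K) (n := 4) (by norm_num)
      refine ⟨σ, ?_, ?_, fun e => two ?_⟩
      · rintro rfl
        simp at hσ
      · rw [φ_def, show 81 = 4 * 20 + 1 from rfl, pow_succ, pow_mul, hσ]
        norm_num
      · rw [h, hσ] at e
        linear_combination -e
    · exact ⟨1, one_ne_zero, map_one _, by simpa using h⟩
  have h3 : 1 - d * σ ^ 2 ≠ 0 := fun e => h2 (by linear_combination -(1 + d * σ ^ 2) * e)
  have h4 : 1 + d * σ ^ 2 ≠ 0 := fun e => h2 (by linear_combination -(1 - d * σ ^ 2) * e)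
  obtain ⟨β, h5, h6⟩ : ∃ β : K, φ β = β ∧ β * (1 - d * σ ^ 2) = 2 * σ :=
    ⟨2 * σ / (1 - d * σ ^ 2), by simp [map_ofNat, h1, hd], div_mul_cancel₀ _ h3⟩
  refine ⟨[(true, d * σ), (false, β), (true, d * σ)], ?_, ?_, (1, 0, 0), fun e => ?_⟩
  · simp [h1, hd, h5]
  · simp only [wd, Um, Lm, Bool.false_eq_true, if_false, if_true]
    ext
    · linear_combination (2 * d ^ 2 * σ + d ^ 3 * σ ^ 2 * β) * h6
    · linear_combination (-β * d) * h6
    · linear_combination (-d - d ^ 2 * σ * β) * h6
  · have := congrArg (fun x => x.2.1) e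
    simp only [wd, Um, Lm, Bool.false_eq_true, if_false, if_true] at this
    have h7 : (2 * β * (1 + d * σ * β)) ^ 2 = 0 := by linear_combination -this
    rcases mul_eq_zero.1 (pow_eq_zero_iff two_ne_zero |>.1 h7) with h | h
    · refine mul_ne_zero two h0 ?_
      rw [← h6, (mul_eq_zero.1 h).resolve_left two, zero_mul]
    · exact h4 (by linear_combination (1 - d * σ ^ 2) * h - d * σ * h6)

theorem Q_of {a b c e : K} (hb : b ≠ 0) (h1 : φ a = e * a) (h2 : φ b = e * b) (h3 : φ c = e * c) :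
    Q (a, b, c) := by
  have he : e ≠ 0 := fun h => hb (φ.injective (by rw [h2, h, zero_mul, map_zero]))
  have ha : φ (a / b) = a / b := by rw [map_div₀, h1, h2, mul_div_mul_left _ _ he]
  have hc : φ (c / b) = c / b := by rw [map_div₀, h3, h2, mul_div_mul_left _ _ he]
  have e1 : (a, b, c) = b • (a / b, (1 : K), c / b) := by
    ext <;> simp [mul_div_cancel₀ _ hb]
  rw [e1]
  refine Q.smul (Q.conj true (t := -(c / b)) (by rw [map_neg, hc]) ?_) b
  have e2 : wd [(true, -(c / b))] (a / b, 1, c / b) = (a / b + (c / b) ^ 2, 1, 0) := by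
    simp only [wd, Um, if_true]
    ext <;> ring
  rw [e2]
  exact Q_std (by rw [map_add, map_pow, ha, hc])

theorem f3 : F3Stmt := by
  rintro ⟨a, b, c⟩ ⟨e, h⟩
  simp only [Prod.smul_mk, smul_eq_mul, Prod.mk.injEq, ← φ_def] at h ⊢
  obtain ⟨h1, h2, h3⟩ := h
  change Q _
  by_cases hb : b = 0
  · subst hb
    have k : ∀ t : K, φ t = t → 0 + 2 * t * c - t ^ 2 * a ≠ 0 → Q (a, 0, c) := fun t ht h =>
      Q.conj false ht (Q_of (e := e) h h1
        (by simp only [wd, map_sub, map_add, map_mul, map_pow, map_zero, map_ofNat, ht, h1, h3]; ring)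
        (by simp only [wd, map_sub, map_mul, ht, h1, h3]; ring))
    by_contra hq
    have k1 := not_not.1 (mt (k 1 (map_one _)) hq)
    have k2 := not_not.1 (mt (k (-1) (by rw [map_neg, map_one])) hq)
    have hc : c = 0 := by linear_combination k1 - k2 - c * three
    have ha : a = 0 := by linear_combination -k1 + 2 * hc
    subst ha hc
    exact hq Q_zero
  · exact Q_of hb h1 h2 h3

theorem eqns : True := by
  have := @Q.eq_1
  have := @φ.eq_1
  trivial

end Cfsg.Agent.H16.L81F3
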