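import Cfsg.Agent.H93.L8Defs
import Cfsg.Agent.H26.SLBasic
import Cfsg.Agent.S0243

/-! Project CY, chapter L8: facts on `L₂(8)` (piece F8). -/

set_option autoImplicit false

namespace Cfsg.Agent.H16.L8F8

open Subgroup Matrix Cfsg.Agent.H11.Cy Cfsg.Agent.H93.L8
open scoped MatrixGroups

/-- a matrix of determinant one -/
def mk {F : Type} [Field F] (a b c d : F) (h : a * d - b * c = 1) : SL(2, F) :=
  ⟨!![a, b; c, d], by rwa [det_fin_two_of]⟩

section
variable {F : Type} [Field F] (h2 : (2 : F) = 0)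
include h2

theorem sq_inj {a b : F} (h : a ^ 2 = b ^ 2) : a = b :=
  sub_eq_zero.1 (pow_eq_zero_iff two_ne_zero |>.1 (by linear_combination h + (b ^ 2 - a * b) * h2))

theorem center_bot : center SL(2, F) = ⊥ := by
  rw [eq_bot_iff]
  intro A hA
  obtain ⟨r, h1, h3⟩ := Matrix.SpecialLinearGroup.mem_center_iff.1 hA
  rw [sq_inj h2 (h1.trans (one_pow 2).symm), map_one] at h3
  exact Subtype.ext h3.symm

theorem diag {g : SL(2, F)} (h : g * g = 1) : g.1 0 0 = g.1 1 1 := by
  have e : g.1 * g.1 = 1 := congrArg Subtype.val h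
  have e0 := congrFun (congrFun e 0) 0
  have e1 := congrFun (congrFun e 1) 1
  simp only [mul_apply, Fin.sum_univ_two, one_apply_eq] at e0 e1
  exact sq_inj h2 (by linear_combination e0 - e1)

theorem four (g : SL(2, F)) (h : g ^ 4 = 1) : g ^ 2 = 1 := by
  have e := diag h2 (g := g * g) (by rw [← h, ← pow_two, ← pow_two, ← pow_mul])
  have hd := g.2
  rw [det_fin_two] at hd
  change (g.1 * g.1) 0 0 = (g.1 * g.1) 1 1 at e
  simp only [mul_apply, Fin.sum_univ_two] at e
  have e' : g.1 0 0 = g.1 1 1 := sq_inj h2 (by linear_combination e)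
  rw [pow_two]
  refine Subtype.ext (?_ : g.1 * g.1 = 1)
  rw [e'] at hd
  ext i j
  fin_cases i <;> fin_cases j <;> simp [mul_apply, Fin.sum_univ_two, e']
  · linear_combination hd + g.1 0 1 * g.1 1 0 * h2
  · linear_combination g.1 0 1 * g.1 1 1 * h2
  · linear_combination g.1 1 0 * g.1 1 1 * h2
  · linear_combination hd + g.1 0 1 * g.1 1 0 * h2

theorem conj_u [Finite F] {g : SL(2, F)} (h : orderOf g = 2) :
    IsConj (mk 1 1 0 1 (by simp)) g := by
  have hg : g * g = 1 := (pow_two g).symm.trans (orderOf_dvd_iff_pow_eq_one.1 h.dvd)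
  have e := diag h2 hg
  have hd := g.2
  rw [det_fin_two, e] at hd
  have hs : Function.Surjective fun a : F => a ^ 2 :=
    Finite.surjective_of_injective fun a b => sq_inj h2
  obtain ⟨β, hβ⟩ := hs (g.1 0 1)
  obtain ⟨γ, hγ⟩ := hs (g.1 1 0)
  simp only at hβ hγ
  have ha : g.1 1 1 = 1 + β * γ := sq_inj h2 (by
    rw [← hβ, ← hγ] at hd
    linear_combination hd - β * γ * h2)
  obtain ⟨x, y, hxy⟩ : ∃ x y, β * y - x * γ = 1 := by
    by_cases hb : β = 0
    · have hc : γ ≠ 0 := by
        rintro rfl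
        have : g = 1 := by
          ext i j
          fin_cases i <;> fin_cases j <;> simp [e, ha, ← hβ, ← hγ, hb]
        simp [this] at h
      exact ⟨-γ⁻¹, 0, by simp [hc]⟩
    · exact ⟨0, β⁻¹, by simp [hb]⟩
  refine isConj_iff.2 ⟨mk β x γ y hxy, mul_inv_eq_iff_eq_mul.2
    (Subtype.ext (?_ : !![β, x; γ, y] * !![1, 1; 0, 1] = g.1 * !![β, x; γ, y]))⟩
  ext i j
  fin_cases i <;> fin_cases j <;> simp [mul_apply, Fin.sum_univ_two, e, ha, ← hβ, ← hγ]
  · linear_combination -(β ^ 2 * γ) * h2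
  · linear_combination -β * hxy - β * γ * x * h2
  · linear_combination -(β * γ ^ 2) * h2
  · linear_combination -γ * hxy - γ ^ 2 * x * h2

end

theorem f8 : F8Stmt := by
  rintro M _ ⟨F, _, _, hF, ⟨e⟩⟩
  have h2 : (2 : F) = 0 := by
    have := FiniteField.cast_card_eq_zero F
    rw [hF] at this
    exact pow_eq_zero_iff (n := 3) (by norm_num) |>.1 (by rw [← this]; norm_num)
  let e' : M ≃* SL(2, F) :=
    e.trans ((QuotientGroup.quotientMulEquivOfEq (center_bot h2)).trans QuotientGroup.quotientBot)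
  refine ⟨?_, ?_, fun x hx => ?_, fun a b ha hb => ?_⟩
  · have h := S0243.result hF 2 le_rfl
    rw [← Nat.card_congr e.toEquiv, Fin.prod_univ_two] at h
    change 1 * (7 * Nat.card M) = 63 * 56 at h
    omega
  · classical
    obtain ⟨x, hx⟩ : ∃ x : F, x ∉ ({0, 1} : Finset F) := by
      by_contra h
      push Not at h
      have := Finset.card_le_card (fun x _ => h x : Finset.univ ⊆ _)
      have h3 : ({0, 1} : Finset F).card ≤ 2 := Finset.card_le_two
      rw [Finset.card_univ, hF] at this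
      omega
    simp only [Finset.mem_insert, Finset.mem_singleton, not_or] at hx
    have := H26.psl_isSimpleGroup (ι := Fin 2) (F := F)
      (Or.inr ⟨x, hx.1, fun h => hx.2 (sq_inj h2 (h.trans (one_pow 2).symm))⟩)
    exact e.isSimpleGroup
  · exact e'.injective (by rw [map_pow, map_one, four h2 _ (by rw [← map_pow, hx, map_one])])
  · have := (conj_u h2 (g := e' a) (by rwa [MulEquiv.orderOf_eq])).symm.trans
      (conj_u h2 (g := e' b) (by rwa [MulEquiv.orderOf_eq]))
    simpa using e'.symm.toMonoidHom.map_isConj this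

end Cfsg.Agent.H16.L8F8
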