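import Cfsg.Agent.H42.N7Defs

/-! A standard subgroup of type `A₇`: type H on both sides does not occur. -/

set_option autoImplicit false

namespace Cfsg.Agent.H16.N7Ch

open Subgroup Cfsg.Agent.H85 Cfsg.Agent.H42.N7 Cfsg.Agent.H36.LTS

universe u

variable {G : Type*} [Group G] {t z a b r x m l u : G}

theorem cc_congr {S S' : Set G} (h1 : S ⊆ closure S') (h2 : S' ⊆ closure S) : cc S = cc S' := by
  rw [cc, cc, ← centralizer_closure S, ← centralizer_closure S',
    le_antisymm ((closure_le _).2 h1) ((closure_le _).2 h2)]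

theorem cc_cv (u v w g : G) : cc {cv u g, cv v g, cv w g} = cc {u, v, w} := by
  rw [cc, cc, ← card_cj g⁻¹ (centralizer {u, v, w})]
  congr 2
  ext c
  have k : ∀ u : G, u * (g⁻¹⁻¹ * c * g⁻¹) = g⁻¹⁻¹ * c * g⁻¹ * u ↔ cv u g * c = c * cv u g := fun u =>
    ⟨fun e => by simpa [cv, mul_assoc] using congrArg (fun w => g⁻¹ * w * g) e,
    fun e => by simpa [cv, mul_assoc] using congrArg (fun w => g * w * g⁻¹) e⟩
  simp only [mem_cj, mem_centralizer_iff, Set.mem_insert_iff, Set.mem_singleton_iff,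
    forall_eq_or_imp, forall_eq, k]

theorem cc_mul {v : G} (hv : v ∈ closure ({z, a} : Set G)) : cc {u * v, z, a} = cc {u, z, a} := by
  have k : ∀ w : G, v ∈ closure ({w, z, a} : Set G) := fun w =>
    closure_mono (Set.subset_insert _ _) hv
  refine cc_congr ?_ ?_
  · rintro _ (rfl | rfl | rfl)
    exacts [mul_mem m1 (k _), m2, by change _ ∈ Subgroup.closure _; memc]
  · rintro _ (rfl | rfl | rfl)
    exacts [by simpa using mul_mem (m1 (a := _ * v)) (inv_mem (k _)), m2,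
      by change _ ∈ Subgroup.closure _; memc]

theorem cc_za (B : B1 t z 1 a b) (u : G) : cc {u, z, z * a} = cc {u, z, a} := by
  refine cc_congr ?_ ?_
  · rintro _ (rfl | rfl | rfl) <;> change _ ∈ Subgroup.closure _ <;> memc
  · rintro _ (rfl | rfl | e)
    · exact m1
    · exact m2
    · rw [e, show a = z * (z * a) by en B []]
      exact mul_mem m2 (by en B []; memc)

theorem cc_r (B : B1 t z 1 a b) (h : Rr t z 1 a r) (u : G) : cc {cv u r, z, a} = cc {u, z, a} := by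
  rw [← cc_cv u z a r, h.zr, h.ar]
  refine cc_congr ?_ ?_
  · rintro _ (rfl | e | rfl)
    · exact m1
    · rw [e, show z = z * a * a by en B []]
      exact mul_mem (by en B []; memc) m2
    · exact m2
  · rintro _ (rfl | rfl | rfl) <;> change _ ∈ Subgroup.closure _ <;> memc

theorem side_nf (B : B1 t z 1 a b) (N : SN t z 1 a b r x m l) (H : m * l = x * (t * a))
    (hu : u ∈ closure ({m, x, t, z, a} : Set G)) :
    (∃ v ∈ closure ({z, a} : Set G), u = v ∨ u = t * v ∨ u = x * v ∨ u = m * v ∨ u = l * v) ∨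
      u * u = z ∨ u * u = a ∨ u * u = z * a := by
  obtain ⟨e1, e2, -⟩ := N.cH B H
  have A := N.A
  have Am := N.Am B
  have k1 : ∀ u ∈ closure ({t, z, a} : Set G), u ∈ closure ({z, a} : Set G) ∨
      ∃ w ∈ closure ({z, a} : Set G), u = t * w := fun u =>
    mem_ins (B.tt ▸ one_mem _) (by rintro _ (rfl | rfl) <;> en B [] <;> memc)
  have k2 : ∀ u ∈ closure ({x, t, z, a} : Set G), u ∈ closure ({t, z, a} : Set G) ∨
      ∃ w ∈ closure ({t, z, a} : Set G), u = x * w := fun u =>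
    mem_ins (N.xx ▸ one_mem _) (by rintro _ (rfl | rfl | rfl) <;> en B [A.rw] <;> memc)
  have k3 := mem_ins (N.mm ▸ one_mem _)
    (by rintro _ (rfl | rfl | rfl | rfl) <;> en B [Am.rw, e2] <;> memc) hu
  rcases k3 with h0 | ⟨w0, h0, rfl⟩ <;> rcases k2 _ h0 with h1 | ⟨w1, h1, rfl⟩ <;>
    rcases k1 _ h1 with h | ⟨w, h, rfl⟩
  · exact .inl ⟨_, h, .inl rfl⟩
  · exact .inl ⟨_, h, .inr (.inl rfl)⟩
  · exact .inl ⟨_, h, .inr (.inr (.inl rfl))⟩
  · refine .inr (.inl ?_)
    rcases B.memV h with rfl | rfl | rfl | rfl <;> en B [A.rw, ri N.xx]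
  · exact .inl ⟨_, h, .inr (.inr (.inr (.inl rfl)))⟩
  · refine .inr (.inr (.inl ?_))
    rcases B.memV h with rfl | rfl | rfl | rfl <;> en B [Am.rw, ri N.mm]
  · refine .inr (.inr (.inr ?_))
    rcases B.memV h with rfl | rfl | rfl | rfl <;> en B [A.rw, Am.rw, rk e2, ri N.mm, ri N.xx]
  · exact .inl ⟨a * w, mul_mem (by memc) h, .inr (.inr (.inr (.inr (by rw [e1]; en B []))))⟩

theorem side_cent (B : B1 t z 1 a b) (N : SN t z 1 a b r x m l) :
    closure ({m, x, t, z, a} : Set G) ≤ centralizer {z, a} := by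
  have A := N.A
  have Am := N.Am B
  refine (closure_le _).2 ?_
  rintro _ (rfl | rfl | rfl | rfl | rfl) _ (rfl | rfl) <;> en B [A.rw, Am.rw]

theorem side_pg (B : B1 t z 1 a b) (N : SN t z 1 a b r x m l) (H : m * l = x * (t * a)) :
    IsPGroup 2 (closure ({m, x, t, z, a} : Set G)) := fun ⟨u, hu⟩ => by
  refine ⟨2, Subtype.ext (show u ^ 2 ^ 2 = 1 from ?_)⟩
  rw [show u ^ 2 ^ 2 = u * u * (u * u) by norm_num [pow_succ, mul_assoc]]
  have A := N.A
  have Am := N.Am B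
  have Al := N.Al B
  rcases side_nf B N H hu with ⟨v, hv, e⟩ | e | e | e
  · rcases B.memV hv with rfl | rfl | rfl | rfl <;> rcases e with rfl | rfl | rfl | rfl | rfl <;>
      en B [A.rw, Am.rw, Al.rw, ri N.xx, ri N.mm, ri N.ll]
  all_goals rw [e]; en B []

theorem side_cls (B : B1 t z 1 a b) (N : SN t z 1 a b r x m l) (H : m * l = x * (t * a))
    (z1 : z ≠ 1) (a1 : a ≠ 1) (az : z * a ≠ 1) (hu : u ∈ closure ({m, x, t, z, a} : Set G))
    (uu : u * u = 1) : u ∈ closure ({z, a} : Set G) ∨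
      (∃ v ∈ closure ({z, a} : Set G), u = t * v) ∨ cc {u, z, a} = cc {x, z, a} := by
  have c1 : cc {m, z, a} = cc {x, z, a} := N.xr ▸ cc_r B N.toRr x
  have c2 : cc {l, z, a} = cc {x, z, a} := (N.mr ▸ cc_r B N.toRr m).trans c1
  rcases side_nf B N H hu with ⟨v, hv, rfl | rfl | rfl | rfl | rfl⟩ | e | e | e
  exacts [.inl hv, .inr (.inl ⟨v, hv, rfl⟩), .inr (.inr (cc_mul hv)),
    .inr (.inr ((cc_mul hv).trans c1)), .inr (.inr ((cc_mul hv).trans c2)),
    (z1 (e.symm.trans uu)).elim, (a1 (e.symm.trans uu)).elim, (az (e.symm.trans uu)).elim]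

theorem cc_cent {g : G} (hg : g ∈ centralizer ({z, a} : Set G)) (u : G) :
    cc {cv u g, z, a} = cc {u, z, a} := by
  rw [← cc_cv u z a g, cv_of (hg z (.inl rfl)), cv_of (hg a (.inr rfl))]

theorem b1_of {G : Type u} [Group G] (h : C1 G) (k : Kit1 h) : B1 h.t h.z 1 h.a h.b :=
  ⟨h.tt, h.zz, mul_one 1, h.aa, h.bb, k.tz.symm, Commute.one_left _, h.ta.symm, h.tb,
    Commute.one_left _, h.za.symm, h.zb, Commute.one_right _, Commute.one_left _,
    h.ab.trans h.za.symm⟩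

theorem za_ne {G : Type u} [Group G] (h : C1 G) (k : Kit1 h) : h.z * h.a ≠ 1 := fun e =>
  k.ne.2.1 ((eq_inv_of_mul_eq_one_right e).trans (inv_eq_of_mul_eq_one_right h.zz))

theorem side_syl {G : Type u} [Group G] [Finite G] (h : C1 G) (k : Kit1 h) {r x m l : G}
    (N : SN h.t h.z 1 h.a h.b r x m l) (H : m * l = x * (h.t * h.a))
    (hne : cc {h.t, h.z, h.a} ≠ cc {x, h.z, h.a}) :
    IsSyl 2 (closure ({m, x, h.t, h.z, h.a} : Set G)) (centralizer {h.z, h.a}) := by
  have B := b1_of h k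
  have A := N.A
  have Am := N.Am B
  refine ⟨side_cent B N, side_pg B N H, fun S hS h1 h2 => ?_⟩
  by_contra hne'
  have hE : h.E1 ≤ closure ({m, x, h.t, h.z, h.a} : Set G) :=
    closure_mono ((Set.subset_insert _ _).trans (Set.subset_insert _ _))
  obtain ⟨g, hg, -, hn, -, hq⟩ := k.climb _ S hS m3 (lt_of_le_of_ne h1 (Ne.symm hne')) (by
    refine (k.sylE1.eq_of_le (hS.to_le inf_le_left) (le_inf (hE.trans h1) ?_) ?_).le.trans hE
    · refine (closure_le _).2 ?_
      rintro _ (rfl | rfl | rfl) _ rfl <;> en B []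
    · rw [C1.E1, centralizer_closure]
      rintro c ⟨hc, hc'⟩ _ (rfl | e)
      exacts [hc' _ rfl, h2 hc _ e])
  have uu : cv h.t g * cv h.t g = 1 := by rw [← cv_mul, h.tt, cv_one]
  rcases side_cls B N H h.z1 k.ne.1 (za_ne h k) (cv_nrm m3 hn) uu with e | ⟨v, hv, e⟩ | e
  · have c0 := isConj_cv h.t g
    have c1 := c0.trans (isConj_cv _ r)
    have c2 := c1.trans (isConj_cv _ r)
    rcases B.memV e with e | e | e | e <;> rw [e] at c0 c1 c2 <;> en B [N.toRr.rw] at c1 c2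
    exacts [h.t1 (isConj_one_left.1 c0), k.zD c2, k.zD c0, k.zD c1]
  · rcases B.memV hv with rfl | rfl | rfl | rfl
    · exact hq 1 (one_mem _) (e.trans (by simp))
    · exact hq m m1 (e.trans Am.ht.symm)
    · exact hq x m2 (e.trans A.ht.symm)
    · refine hq (x * m) (mul_mem m2 m1) (e.trans ?_)
      change _ = cv h.t (x * m)
      en B [A.rw, Am.rw]
  · exact hne ((cc_cent (h2 hg) h.t).symm.trans e)

theorem ch (kit : Kit1Stmt.{u}) (n1 : N1Stmt.{u}) : CHStmt.{u} := by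
  intro G _ _ h H1 H2
  have k1 := kit G h.toC1
  have k2 := kit G h.toC1.mir
  have B := b1_of _ k1
  have B' : B1 h.t h.z 1 h.b h.a := b1_of _ k2
  have N1 := h.N1
  have N2 := h.N2
  have A := N1.A
  have Am := N1.Am B
  have An := N2.Am B'
  obtain ⟨-, xm, bm⟩ := N1.cH B H1
  obtain ⟨-, xn, an⟩ := N2.cH B' H2
  have xb : cv h.x h.b = h.x := cv_of' (cm_of N1.bx)
  have et : cv h.t (h.m * h.n * h.m) = h.x := by
    en B [A.rw, Am.ht, Am.hz, Am.ha, An.ht, An.hz, An.ha, xm, bm, xn, an, rk xb, ri N1.xx]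
  have ez : cv h.z (h.m * h.n * h.m) = h.z := by en B [Am.hz, An.hz]
  have ea : cv h.a (h.m * h.n * h.m) = h.z * h.b := by
    en B [A.rw, Am.ht, Am.hz, Am.ha, An.ht, An.hz, An.ha, xm, bm, xn, an, rk xb, ri N1.xx]
  have ex : cv h.x (h.m * h.n * h.m) = h.t := by
    en B [A.rw, Am.ht, Am.hz, Am.ha, An.ht, An.hz, An.ha, xm, bm, xn, an, rk xb, ri N1.xx]
  generalize h.m * h.n * h.m = μ at et ez ea ex
  have hμ : ∀ u, cc {cv u μ, h.z, h.b} = cc {u, h.z, h.a} := fun u => by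
    rw [← cc_cv u h.z h.a μ, ez, ea, cc_za B']
  have c1 : cc {h.x, h.z, h.b} = cc {h.t, h.z, h.a} := et ▸ hμ _
  have c2 : cc {h.t, h.z, h.b} = cc {h.x, h.z, h.a} := ex ▸ hμ _
  have hne := n1 G h.toC1
  have syl := side_syl h.toC1.mir k2 N2 H2 (fun e => hne (e.trans c1).symm)
  obtain ⟨c, hc, hle⟩ := syl.exists_le_cj (isPGroup_cj μ⁻¹ (side_pg B N1 H1)) (by
    intro y hy
    have h1 := side_cent B N1 (mem_cj.1 hy)
    have h2 : ∀ w ∈ ({h.z, h.a} : Set G), Commute (cv w μ) y := fun w hw => by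
      simpa [cv, mul_assoc] using cm_cv (h1 w hw) μ
    have h3 := h2 _ (.inl rfl)
    have h4 := h2 _ (.inr rfl)
    rw [ez] at h3
    rw [ea] at h4
    rintro _ (rfl | rfl)
    · exact h3
    · have := h3.mul_left h4
      rwa [← mul_assoc, h.zz, one_mul] at this)
  have hc' : c ∈ centralizer ({h.z, h.b} : Set G) := hc
  have back : ∀ u, cv (cv u μ) c ∈ closure ({h.z, h.b} : Set G) → Commute h.t u := fun u hu => by
    have e1 : cv (cv h.z μ) c = h.z := by rw [ez, cv_of (hc' _ (.inl rfl))]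
    have e2 : cv (cv h.a μ) c = h.z * h.b := by
      rw [ea, cv_mul, cv_of (hc' _ (.inl rfl)), cv_of (hc' _ (.inr rfl))]
    rcases B'.memV hu with e | e | e | e
    · rw [cv_inj (cv_inj (e.trans (by rw [cv_one, cv_one] : 1 = cv (cv 1 μ) c)))]
      exact Commute.one_right _
    · rw [cv_inj (cv_inj (e.trans (by rw [cv_mul, cv_mul, e1, e2]; en B' [] :
        h.b = cv (cv (h.z * h.a) μ) c)))]
      exact k1.tz.mul_right h.ta
    · rw [cv_inj (cv_inj (e.trans e1.symm))]; exact k1.tz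
    · rw [cv_inj (cv_inj (e.trans e2.symm))]; exact h.ta
  have key : ∀ u ∈ closure ({h.m, h.x, h.t, h.z, h.a} : Set G), u * u = 1 → ¬ Commute h.t u →
      cc {u, h.z, h.a} = cc {h.x, h.z, h.a} →
      ∃ v ∈ closure ({h.z, h.b} : Set G), cv (cv u μ) c = h.t * v := fun u hu uu hn e => by
    have h1 : cv (cv u μ) c ∈ _ := mem_cj.1 (hle (mem_cj.2 (by simpa [cv, mul_assoc] using hu)))
    rcases side_cls B' N2 H2 h.z1 k2.ne.1 (za_ne _ k2) h1
      (by rw [← cv_mul, ← cv_mul, uu, cv_one, cv_one]) with h2 | h2 | h2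
    · exact (hn (back u h2)).elim
    · exact h2
    · rw [cc_cent hc', hμ, e, ← c2, c1] at h2
      exact (hne h2.symm).elim
  obtain ⟨v, hv, e1⟩ := key h.x m2 N1.xx (fun e => h.z1 (by
    simpa using A.ht.symm.trans (cv_of e))) rfl
  obtain ⟨w, hw, e2⟩ := key h.m m1 N1.mm (fun e => k1.ne.1 (by
    simpa using Am.ht.symm.trans (cv_of e))) (N1.xr ▸ cc_r B N1.toRr h.x)
  have h3 := cv_of (back (h.x * h.m) (by
    rw [cv_mul, cv_mul, e1, e2]
    rcases B'.memV hv with rfl | rfl | rfl | rfl <;> en B' [] <;> memc))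
  en B [A.rw, Am.rw] at h3
  exact za_ne _ k1 (by simpa using h3)

end Cfsg.Agent.H16.N7Ch
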