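import Cfsg.Agent.H54.O84Defs

/-! The normaliser and the centraliser of the subsystem subgroups (pieces YI, CEN1). -/

set_option autoImplicit false

namespace Cfsg.Agent.H16.O84Yi

open Cfsg.Agent.H54.O84 Equiv Multiplicative
open scoped Matrix

section
variable {Γ : Type} [Group Γ] (G : Geo Γ)

theorem a_mem (x : MV) : G.a x ∈ Nz G.a := Subgroup.le_normalizer (H := G.a.range) ⟨x, rfl⟩

theorem ν_one : G.ν 1 = 1 := (G.ν_ker 1 (one_mem _)).2 (one_mem _)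

theorem ν_inv {g : Γ} (hg : g ∈ Nz G.a) : G.ν g⁻¹ = (G.ν g)⁻¹ := by
  refine eq_inv_of_mul_eq_one_left ?_
  rw [← G.ν_mul _ (inv_mem hg) _ hg, inv_mul_cancel, ν_one]

theorem a_mem_Y (i : Fin 2) (x : MV) : G.a x ∈ G.Y (Ψ i) := by
  rw [G.mem_Y i _ (a_mem G x), (G.ν_ker _ (a_mem G x)).2 ⟨x, rfl⟩]
  exact one_mem _

end

theorem yi (rho : RhoStmt) (rw' : RwStmt) : YiStmt := by
  intro Γ _ G i g hg
  rw [mem_St]
  refine ⟨fun h => ?_, fun h => ?_⟩
  · refine Set.eq_of_subset_of_ncard_le ?_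
      (Set.ncard_image_of_injective _ (G.ν g).injective).ge (Set.toFinite _)
    rintro _ ⟨r, hr, rfl⟩
    obtain ⟨n, hn, e⟩ := G.ν_surj _ (rho.1 r)
    have h1 : n ∈ G.Y (Ψ i) := (G.mem_Y i n hn).2 (e ▸ (rw' i r).2 hr)
    have h2 := (G.mem_Y i _ (mul_mem (mul_mem hg hn) (inv_mem hg))).1
      ((Subgroup.mem_normalizer_iff.1 h n).1 h1)
    rw [G.ν_mul _ (mul_mem hg hn) _ (inv_mem hg), G.ν_mul _ hg _ hn, ν_inv G hg, e,
      rho.2.2.2.1 _ (G.ν_mem g hg)] at h2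
    exact (rw' i _).1 h2
  · rw [Subgroup.mem_normalizer_iff_map_conj_eq]
    exact (G.Y_conj g hg _).trans (by rw [h])

theorem cen1 (_rho : RhoStmt) : Cen1Stmt := by
  intro Γ _ G i hc
  rw [eq_bot_iff]
  intro z hz
  have h1 : ∀ x, G.a x * z = z * G.a x := fun x => hz _ (a_mem_Y G i x)
  have h2 : z ∈ Nz G.a := Subgroup.centralizer_le_normalizer _ (by
    rintro _ ⟨x, rfl⟩
    exact h1 x)
  have h3 : G.ν z = 1 := by
    ext1 r
    refine m_inj (funext fun k => ?_)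
    have := G.act z h2 (Pi.single k 1) (Pi.single k 1) (by rw [← h1, mul_inv_cancel_right]) r
    simpa using this
  obtain ⟨x, rfl⟩ := (G.ν_ker z h2).1 h3
  have h4 : (⟨G.a x, a_mem_Y G i x⟩ : G.Y (Ψ i)) ∈ Subgroup.center (G.Y (Ψ i)) :=
    Subgroup.mem_center_iff.2 fun y => Subtype.ext (hz _ y.2)
  rw [hc] at h4
  exact congrArg Subtype.val (Subgroup.mem_bot.1 h4)

end Cfsg.Agent.H16.O84Yi
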