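import Cfsg.Agent.H54.RfKitP
import Cfsg.Agent.H72.VBChS

/-! Automorphisms of the unipotent group of the large Ree group commuting with a torus: the action on `V`. -/

set_option autoImplicit false
set_option linter.unusedSimpArgs false
set_option linter.unnecessarySeqFocus false

namespace Cfsg.Agent.H16.RfS

open Cfsg Cfsg.Agent.H15.O8 Cfsg.Agent.H39 Cfsg.Agent.H54.RF Cfsg.Agent.H92.UL Subgroup
open scoped commutatorElement

universe v

variable {K : Type v} [Field K] {T : Tits K}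

/-! ### Additive functions on the field -/

theorem f0 {f : K → K} (hadd : ∀ a b, f (a + b) = f a + f b) : f 0 = 0 := by
  have := hadd 0 0
  rw [add_zero] at this
  linear_combination -this

theorem cube (T : Tits K) {a : K} (h0 : a ≠ 0) (h1 : a ≠ 1) : a ^ 2 + a + 1 ≠ 0 := fun e => by
  have := T.charP
  have e' := congrArg T.θ e
  rw [map_add, map_add, map_pow, map_one, map_zero] at e'
  have s5 := (scal (T := T) h0 h1).2.2.2.2.2
  have e2 : T.θ a = a + 1 := by grind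
  have e3 := T.θθ a
  rw [e2, map_add, map_one, e2] at e3
  grind

theorem lin1 (T : Tits K) [Finite K] (hq : 2 < Nat.card K) {f : K → K} {m : K} (hl : ∀ c, f c = m * c)
    (he : ∀ b, b ≠ 0 → f b = (b * T.θ b)⁻¹ * f 1) (t : K) : f t = 0 := by
  obtain ⟨a, h0, h1⟩ := exists_ne hq
  obtain ⟨s0, -, -, s3, -, -⟩ := scal (T := T) h0 h1
  have e := he a h0
  rw [hl, hl] at e
  have : m = 0 := fz s3 (by field_simp at e; linear_combination e)
  rw [hl, this, zero_mul]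

theorem lin2 (T : Tits K) [Finite K] (hq : 2 < Nat.card K) {f : K → K} {m : K} (hl : ∀ c, f c = m * c)
    (he : ∀ b, b ≠ 0 → f (b * T.θ b) = b⁻¹ * f 1) (t : K) : f t = 0 := by
  obtain ⟨a, h0, h1⟩ := exists_ne hq
  obtain ⟨s0, -, -, s3, -, -⟩ := scal (T := T) h0 h1
  have e := he a h0
  rw [hl, hl] at e
  have : m = 0 := fz s3 (by field_simp at e; linear_combination e)
  rw [hl, this, zero_mul]

theorem nz {b c : K} (hc : c ≠ 0) (e : b * T.θ b = c) : b ≠ 0 := fun h => hc (by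
  rw [← e, h, zero_mul])

section zero

variable (T) [Finite K] (hq : 2 < Nat.card K) {f : K → K} (hadd : ∀ a b, f (a + b) = f a + f b)
include T hq hadd

theorem z1 (he : ∀ c, c ≠ 0 → f c = f 1) (t : K) : f t = 0 := by
  obtain ⟨a, h0, h1⟩ := exists_ne hq
  have := T.charP
  have e := hadd a 1
  rw [he (a + 1) (by grind), he a h0] at e
  have e1 : f 1 = 0 := by grind
  by_cases ht : t = 0
  · rw [ht, f0 hadd]
  · rw [he t ht, e1]

theorem z1N (he : ∀ b, b ≠ 0 → f (b * T.θ b) = f 1) (t : K) : f t = 0 :=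
  z1 T hq hadd (fun c hc => by
    obtain ⟨b, e⟩ := nrm_surj (T := T) c
    rw [← e, he b (nz hc e)]) t

theorem zi (he : ∀ c, c ≠ 0 → f c = c⁻¹ * f 1) (t : K) : f t = 0 := by
  obtain ⟨a, h0, h1⟩ := exists_ne hq
  have := T.charP
  have h2 : a + 1 ≠ 0 := by grind
  have e := hadd a 1
  rw [he (a + 1) h2, he a h0] at e
  have e1 : f 1 = 0 := by
    refine (mul_eq_zero.1 (show (a ^ 2 + a + 1) * f 1 = 0 from ?_)).resolve_left (cube T h0 h1)
    field_simp at e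
    grind
  by_cases ht : t = 0
  · rw [ht, f0 hadd]
  · rw [he t ht, e1, mul_zero]

theorem ziN (he : ∀ b, b ≠ 0 → f (b * T.θ b) = (b * T.θ b)⁻¹ * f 1) (t : K) : f t = 0 :=
  zi T hq hadd (fun c hc => by
    obtain ⟨b, e⟩ := nrm_surj (T := T) c
    rw [← e, he b (nz hc e)]) t

theorem zN (he : ∀ c, c ≠ 0 → f c = c * T.θ c * f 1) (t : K) : f t = 0 := by
  obtain ⟨a, h0, h1⟩ := exists_ne hq
  exact delta (T := T) h0 h1 f he hadd t

theorem zNi (he : ∀ b, b ≠ 0 → f (b * T.θ b) = b * f 1) (t : K) : f t = 0 := by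
  obtain ⟨a, b, c, ha, hb, hc, e, ne⟩ := Ninv_not_add (T := T) hq
  have e1 : f 1 = 0 := by
    have := he c hc
    rw [e, hadd, he a ha, he b hb] at this
    exact (mul_eq_zero.1 (show (c - (a + b)) * f 1 = 0 by
      linear_combination -this)).resolve_left (sub_ne_zero.2 ne)
  by_cases ht : t = 0
  · rw [ht, f0 hadd]
  · obtain ⟨b, e⟩ := nrm_surj (T := T) t
    rw [← e, he b (nz ht e), e1, mul_zero]

omit hq in
theorem sN (he : ∀ b, b ≠ 0 → f (b * T.θ b) = b * T.θ b * f 1) (t : K) : f t = f 1 * t := by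
  by_cases ht : t = 0
  · rw [ht, f0 hadd, mul_zero]
  · obtain ⟨b, e⟩ := nrm_surj (T := T) t
    rw [← e, he b (nz ht e), mul_comm]

omit T hq [Finite K] in
theorem s1 (he : ∀ b, b ≠ 0 → f b = b * f 1) (t : K) : f t = f 1 * t := by
  by_cases ht : t = 0
  · rw [ht, f0 hadd, mul_zero]
  · rw [he t ht, mul_comm]

end zero

theorem scalar {β : MulAut (U T)} (hk : ∃ k : ℕ, β ^ 2 ^ k = 1) (P : U T → Prop)
    (hP : ∀ g, P g → P (β g)) (c : U T → K) {l : K} (h : ∀ g, P g → c (β g) = l * c g) (g : U T)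
    (hg : P g) (hc : c g = 1) : l = 1 := by
  obtain ⟨k, hk⟩ := hk
  have key : ∀ n : ℕ, P ((β ^ n) g) ∧ c ((β ^ n) g) = l ^ n := fun n => by
    induction n with
    | zero => exact ⟨hg, by rw [pow_zero, pow_zero]; exact hc⟩
    | succ n ih =>
      rw [pow_succ', MulAut.mul_apply]
      exact ⟨hP _ ih.1, by rw [h _ ih.1, ih.2, pow_succ']⟩
  have e := (key (2 ^ k)).2
  rw [hk, MulAut.one_apply, hc] at e
  have := T.charP
  have : Fact (Nat.Prime 2) := ⟨Nat.prime_two⟩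
  have e2 : (l - 1) ^ 2 ^ k = 0 := by rw [sub_pow_char_pow, ← e, one_pow, sub_self]
  exact sub_eq_zero.1 (pow_eq_zero_iff (by positivity) |>.1 e2)

/-! ### The torus -/

/-- The action of the torus element `(1, b)`. -/
def sp (b : K) (g : U T) : U T :=
  ⟨(b * T.θ b)⁻¹ * g.a1, b⁻¹ * g.b2, (b * T.θ b)⁻¹ * g.a2, b⁻¹ * g.a3, g.b4, g.a4, b * g.a5,
    b * g.b6, b * T.θ b * g.a6, b * T.θ b * g.a7, T.θ b * g.b8, T.θ (b * T.θ b) * g.a8⟩

/-- The action of the torus element `(1, b⁻¹)`. -/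
def sn (b : K) (g : U T) : U T :=
  ⟨b * T.θ b * g.a1, b * g.b2, b * T.θ b * g.a2, b * g.a3, g.b4, g.a4, b⁻¹ * g.a5,
    b⁻¹ * g.b6, (b * T.θ b)⁻¹ * g.a6, (b * T.θ b)⁻¹ * g.a7, (T.θ b)⁻¹ * g.b8,
    (T.θ (b * T.θ b))⁻¹ * g.a8⟩

/-- Commutes with the torus. -/
def Eqv (β : MulAut (U T)) : Prop := ∀ b u, β (tor T (1, b) u) = tor T (1, b) (β u)

theorem eqns_sp : True := by
  have := @sp.eq_1.{0}
  have := @sn.eq_1.{0}
  have := @Eqv.eq_1.{0}
  trivial

theorem tor_sp {b : K} (hb : b ≠ 0) (g : U T) : tor T (1, Units.mk0 b hb) g = sp b g := by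
  rw [tor_apply]
  ext <;> simp [sc, sp, T.θθ] <;> ring_nf <;> simp

theorem sp_inv (b : K) (g : U T) : sp b⁻¹ g = sn b g := by
  ext <;> simp [sn, sp] <;> ring_nf <;> simp

variable {β : MulAut (U T)}

theorem Eqv.p (h : Eqv β) {b : K} (hb : b ≠ 0) (u : U T) : β (sp b u) = sp b (β u) := by
  rw [← tor_sp hb, ← tor_sp hb, h]

theorem Eqv.n (h : Eqv β) {b : K} (hb : b ≠ 0) (u : U T) : β (sn b u) = sn b (β u) := by
  rw [← sp_inv, ← sp_inv, h.p (inv_ne_zero hb)]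

theorem Eqv.e1 (h : Eqv β) {b : K} (hb : b ≠ 0) : β (x1 T (b * T.θ b)) = sn b (β (x1 T 1)) := by
  rw [← h.n hb]; congr 1; ext <;> simp [sn, x1]

theorem Eqv.d2 (h : Eqv β) {b : K} (hb : b ≠ 0) : β (y2 T b) = sn b (β (y2 T 1)) := by
  rw [← h.n hb]; congr 1; ext <;> simp [sn, y2]

theorem Eqv.e2 (h : Eqv β) {b : K} (hb : b ≠ 0) : β (x2 T (b * T.θ b)) = sn b (β (x2 T 1)) := by
  rw [← h.n hb]; congr 1; ext <;> simp [sn, x2]

theorem Eqv.e3 (h : Eqv β) {b : K} (hb : b ≠ 0) : β (x3 T b) = sn b (β (x3 T 1)) := by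
  rw [← h.n hb]; congr 1; ext <;> simp [sn, x3]

theorem Eqv.e5 (h : Eqv β) {b : K} (hb : b ≠ 0) : β (x5 T b) = sp b (β (x5 T 1)) := by
  rw [← h.p hb]; congr 1; ext <;> simp [sp, x5]

theorem Eqv.d6 (h : Eqv β) {b : K} (hb : b ≠ 0) : β (y6 T b) = sp b (β (y6 T 1)) := by
  rw [← h.p hb]; congr 1; ext <;> simp [sp, y6]

theorem Eqv.e6 (h : Eqv β) {b : K} (hb : b ≠ 0) : β (x6 T (b * T.θ b)) = sp b (β (x6 T 1)) := by
  rw [← h.p hb]; congr 1; ext <;> simp [sp, x6]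

theorem Eqv.e7 (h : Eqv β) {b : K} (hb : b ≠ 0) : β (x7 T (b * T.θ b)) = sp b (β (x7 T 1)) := by
  rw [← h.p hb]; congr 1; ext <;> simp [sp, x7]

theorem Eqv.e8 (h : Eqv β) {b : K} (hb : b ≠ 0) :
    β (x8 T (T.θ (b * T.θ b))) = sp b (β (x8 T (T.θ 1))) := by
  rw [← h.p hb]; congr 1; ext <;> simp [sp, x8]

theorem addV {g k : U T} (hg : g ∈ V T) (hk : k ∈ V T) : (g * k).a2 = g.a2 + k.a2 ∧
    (g * k).a3 = g.a3 + k.a3 ∧ (g * k).a4 = g.a4 + k.a4 ∧ (g * k).a5 = g.a5 + k.a5 ∧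
    (g * k).a6 = g.a6 + k.a6 := by
  obtain ⟨h1, h2, h3, h4, h5, h6, h7⟩ := hg
  obtain ⟨k1, k2, k3, k4, k5, k6, k7⟩ := hk
  o8s
  simp only [h1, h2, h3, h4, h5, h6, h7, k1, k2, k3, k4, k5, k6, k7]
  refine ⟨?_, ?_, ?_, ?_, ?_⟩ <;> o8ring T

theorem pairQ {u w : U T} (hu : u ∈ Q T) (hw : w ∈ V T) (h : u * w = w * u) :
    u.a1 * w.a6 + u.b2 * w.a5 + u.b6 * w.a3 + u.a7 * w.a2 = 0 := by
  obtain ⟨h1, h2⟩ := hu
  obtain ⟨k1, k2, k3, k4, k5, k6, k7⟩ := hw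
  have e := congrArg U.a4 h
  o8s at e
  simp only [h1, h2, k1, k2, k3, k4, k5, k6, k7] at e
  revert e
  o8ring T

theorem rel5 {u : U T} (hu : u ∈ Q T) : x5 T 1 * u = x4 T u.b2 * (u * x5 T 1) := by
  obtain ⟨h1, h2⟩ := hu
  ext <;> o8s <;> (try simp only [h1, h2]) <;> o8ring T

section fixV

variable [Finite K] (hq : 2 < Nat.card K) (hk : ∃ k : ℕ, β ^ 2 ^ k = 1) (ht : Eqv β)
  (h4 : ∀ a, β (x4 T a) = x4 T a)
include hq hk ht h4

theorem fx6 (c : K) : β (x6 T c) = x6 T c := by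
  have hW : ∀ c, β (x6 T c) ∈ W T := fun c => H72.VB.chrW β _ (by o8s)
  have hV : ∀ c, β (x6 T c) ∈ V T := fun c => H72.VB.chrV β _ (by o8s)
  have ad := fun a b => (map_mul β _ _ ▸ congrArg β (x6_add a b)).symm ▸ addV (hV a) (hV b)
  have c4 := z1N T hq (f := fun c => (β (x6 T c)).a4) (fun a b => (ad a b).2.2.1)
    fun b hb => (congrArg U.a4 (ht.e6 hb) :)
  have c6 := sN T (f := fun c => (β (x6 T c)).a6) (fun a b => (ad a b).2.2.2.2)
    fun b hb => congrArg U.a6 (ht.e6 hb)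
  have l : (β (x6 T 1)).a6 = 1 := by
    refine scalar hk (· ∈ W T) (H72.VB.chrW β) U.a6 (fun g hg => ?_) (x6 T 1) (by o8s) rfl
    have e : g = x4 T g.a4 * x6 T g.a6 := by
      obtain ⟨h1, h2, h3, h4, h5, h6, h7, h8, h9, h10⟩ := hg
      ext <;> o8s <;> assumption
    conv_lhs => rw [e, map_mul, h4, (addV (by o8s) (hV _)).2.2.2.2, c6]
    exact zero_add _
  obtain ⟨h1, h2, h3, h4, h5, h6, h7, h8, h9, h10⟩ := hW c
  have e6 := c6 c
  simp only [l, one_mul] at e6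
  ext <;> first | assumption | exact c4 c

theorem fx5 (c : K) : β (x5 T c) = x5 T c := by
  have h6 := fx6 hq hk ht h4
  have hR : ∀ c, β (x5 T c) ∈ R T := fun c => H72.VB.chrR β _ (by o8s)
  have hV : ∀ c, β (x5 T c) ∈ V T := fun c => H72.VB.chrV β _ (by o8s)
  have ad := fun a b => (map_mul β _ _ ▸ congrArg β (x5_add a b)).symm ▸ addV (hV a) (hV b)
  have c4 := z1 T hq (f := fun c => (β (x5 T c)).a4) (fun a b => (ad a b).2.2.1)
    fun b hb => (congrArg U.a4 (ht.e5 hb) :)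
  have c6 := zN T hq (f := fun c => (β (x5 T c)).a6) (fun a b => (ad a b).2.2.2.2)
    fun b hb => congrArg U.a6 (ht.e5 hb)
  have c5 := s1 (f := fun c => (β (x5 T c)).a5) (fun a b => (ad a b).2.2.2.1)
    fun b hb => congrArg U.a5 (ht.e5 hb)
  have l : (β (x5 T 1)).a5 = 1 := by
    refine scalar hk (· ∈ R T) (H72.VB.chrR β) U.a5 (fun g hg => ?_) (x5 T 1) (by o8s) rfl
    conv_lhs => rw [eq_R hg, map_mul, map_mul, h4, h6,
      (addV (mul_mem (by o8s) (hV _)) (by o8s)).2.2.2.1, (addV (by o8s) (hV _)).2.2.2.1, c5]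
    exact (add_zero _).trans (zero_add _)
  obtain ⟨h1, h2, h3, h4, h5, h6, h7, h8, h9⟩ := hR c
  have e5 := c5 c
  simp only [l, one_mul] at e5
  ext <;> first | assumption | exact c4 c | exact c6 c

theorem pa1 (g : U T) : (β g).a1 = g.a1 := by
  have e := congrArg β (rel6 g)
  rw [map_mul, map_mul, map_mul, h4, fx6 hq hk ht h4, rel6] at e
  exact congrArg U.a4 (mul_right_cancel e)

theorem pb2 {g : U T} (hg : g ∈ Q T) : (β g).b2 = g.b2 := by
  have e := congrArg β (rel5 hg)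
  rw [map_mul, map_mul, map_mul, h4, fx5 hq hk ht h4, rel5 (H72.VB.chrQ β g hg)] at e
  exact congrArg U.a4 (mul_right_cancel e)

theorem fxR {g : U T} (hg : g ∈ R T) : β g = g := by
  conv_lhs => rw [eq_R hg, map_mul, map_mul, h4, fx5 hq hk ht h4, fx6 hq hk ht h4, ← eq_R hg]

theorem fx3 (c : K) : β (x3 T c) = x3 T c := by
  have hc := T.charP
  have hZ : ∀ c, β (x3 T c) ∈ H96.VB.Z4 T := fun c =>
    H72.VB.chrZ4 β _ (H96.VB.mem_Z4.2 (by o8s))
  have hV : ∀ c, β (x3 T c) ∈ V T := fun c => H72.VB.chrV β _ (by o8s)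
  have ad := fun a b => (map_mul β _ _ ▸ congrArg β (x3_add a b)).symm ▸ addV (hV a) (hV b)
  have c4 := z1 T hq (f := fun c => (β (x3 T c)).a4) (fun a b => (ad a b).2.2.1)
    fun b hb => (congrArg U.a4 (ht.e3 hb) :)
  have c5 := zi T hq (f := fun c => (β (x3 T c)).a5) (fun a b => (ad a b).2.2.2.1)
    fun b hb => congrArg U.a5 (ht.e3 hb)
  have c3 := s1 (f := fun c => (β (x3 T c)).a3) (fun a b => (ad a b).2.1)
    fun b hb => congrArg U.a3 (ht.e3 hb)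
  have l : (β (x3 T 1)).a3 = 1 := by
    refine scalar hk (· ∈ H96.VB.Z4 T) (H72.VB.chrZ4 β) U.a3 (fun g hg => ?_) (x3 T 1)
      (H96.VB.mem_Z4.2 (by o8s)) rfl
    have e : g = x3 T g.a3 * (x4 T g.a4 * x5 T g.a5 * x6 T g.a6) := by
      obtain ⟨h1, h2, h3, h4, h5, h6, h7, h8⟩ := H96.VB.mem_Z4.1 hg
      ext <;> o8s <;> assumption
    have r : x4 T g.a4 * x5 T g.a5 * x6 T g.a6 ∈ R T := by o8s
    conv_lhs => rw [e, map_mul, fxR hq hk ht h4 r, (addV (hV _) (by o8s)).2.1, c3]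
    o8s
  simp only [l, one_mul] at c3
  have c2 : ∀ c, (β (x3 T c)).a2 = 0 := fun c => (H96.VB.mem_Z4.1 (hZ c)).2.2.1
  have c6 := lin1 T hq (f := fun c => (β (x3 T c)).a6) (m := (β (x1 T 1)).b6) (fun c => by
    have e := pairQ (H72.VB.chrQ β (x1 T 1) ⟨rfl, rfl⟩) (hV c) (by
      rw [← map_mul, ← map_mul]; congr 1; ext <;> o8s)
    rw [pa1 hq hk ht h4, c5, c3, c2] at e
    change 1 * _ + _ + _ + _ = _ at e
    grind) fun b hb => congrArg U.a6 (ht.e3 hb)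
  obtain ⟨h1, h2, h3, h4, h5, h6, h7, h8⟩ := H96.VB.mem_Z4.1 (hZ c)
  ext <;> first | assumption | exact c3 c | exact c4 c | exact c5 c | exact c6 c

theorem fx2 (c : K) : β (x2 T c) = x2 T c := by
  have hc := T.charP
  have hV : ∀ c, β (x2 T c) ∈ V T := fun c => H72.VB.chrV β _ (by o8s)
  have ad := fun a b => (map_mul β _ _ ▸ congrArg β (x2_add a b)).symm ▸ addV (hV a) (hV b)
  have c3 := zNi T hq (f := fun c => (β (x2 T c)).a3) (fun a b => (ad a b).2.1)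
    fun b hb => congrArg U.a3 (ht.e2 hb)
  have c4 := z1N T hq (f := fun c => (β (x2 T c)).a4) (fun a b => (ad a b).2.2.1)
    fun b hb => (congrArg U.a4 (ht.e2 hb) :)
  have c6 := ziN T hq (f := fun c => (β (x2 T c)).a6) (fun a b => (ad a b).2.2.2.2)
    fun b hb => congrArg U.a6 (ht.e2 hb)
  have c2 := sN T (f := fun c => (β (x2 T c)).a2) (fun a b => (ad a b).1)
    fun b hb => congrArg U.a2 (ht.e2 hb)
  have l : (β (x2 T 1)).a2 = 1 := by
    refine scalar hk (· ∈ V T) (H72.VB.chrV β) U.a2 (fun g hg => ?_) (x2 T 1) (by o8s) rfl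
    have e : g = x2 T g.a2 * (x3 T g.a3 * (x4 T g.a4 * x5 T g.a5 * x6 T g.a6)) := by
      obtain ⟨h1, h2, h3, h4, h5, h6, h7⟩ := hg
      ext <;> o8s <;> assumption
    have r : x4 T g.a4 * x5 T g.a5 * x6 T g.a6 ∈ R T := by o8s
    conv_lhs => rw [e, map_mul, map_mul, fxR hq hk ht h4 r, fx3 hq hk ht h4,
      (addV (hV _) (by o8s)).1, c2]
    o8s
  simp only [l, one_mul] at c2
  have c5 := lin2 T hq (f := fun c => (β (x2 T c)).a5) (m := (β (y2 T 1)).a7) (fun c => by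
    have e := pairQ (H72.VB.chrQ β (y2 T 1) ⟨rfl, rfl⟩) (hV c) (by
      rw [← map_mul, ← map_mul]; congr 1; ext <;> o8s)
    rw [pb2 hq hk ht h4 ⟨rfl, rfl⟩, c6, c3, c2] at e
    change _ + 1 * _ + _ + _ = _ at e
    grind) fun b hb => congrArg U.a5 (ht.e2 hb)
  obtain ⟨h1, h2, h3, h4, h5, h6, h7⟩ := hV c
  ext <;> first | assumption | exact c2 c | exact c3 c | exact c4 c | exact c5 c | exact c6 c

theorem fxV {g : U T} (hg : g ∈ V T) : β g = g := by
  conv_lhs => rw [eq_V hg, map_mul, map_mul, map_mul, map_mul, h4, fx5 hq hk ht h4,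
    fx6 hq hk ht h4, fx3 hq hk ht h4, fx2 hq hk ht h4, ← eq_V hg]

end fixV

end Cfsg.Agent.H16.RfS
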