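import Cfsg.Agent.H16.RfSt2a

/-! Automorphisms of the unipotent group of the large Ree group commuting with a torus. -/

set_option autoImplicit false
set_option linter.unusedSimpArgs false
set_option linter.unnecessarySeqFocus false

namespace Cfsg.Agent.H16.RfS

open Cfsg Cfsg.Agent.H15.O8 Cfsg.Agent.H39 Cfsg.Agent.H54.RF Cfsg.Agent.H92.UL Subgroup
open scoped commutatorElement

universe v

variable {K : Type v} [Field K] {T : Tits K} {β : MulAut (U T)}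

theorem modD (hV : ∀ g ∈ V T, β g = g) (g : U T) : (β g).a1 = g.a1 ∧ (β g).b2 = g.b2 ∧
    (β g).b6 = g.b6 ∧ (β g).a7 = g.a7 ∧ (β g).b8 = g.b8 ∧ (β g).a8 = g.a8 := by
  have hd : g⁻¹ * β g ∈ D T := (cV _).2 fun w hw => by
    have e := hV _ (nV.conj_mem w hw g)
    rw [map_mul, map_mul, hV w hw, map_inv] at e
    calc g⁻¹ * β g * w = g⁻¹ * (β g * w * (β g)⁻¹) * β g := by group
      _ = w * (g⁻¹ * β g) := by rw [e]; group
  rw [show β g = g * (g⁻¹ * β g) by group]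
  generalize g⁻¹ * β g = d at hd
  obtain ⟨h1, h2, h3, h4, h5, h6⟩ := hd
  simp [U.mul_a1, U.mul_b2, U.mul_b6, U.mul_a7, U.mul_b8, U.mul_a8, h1, h2, h3, h4, h5, h6]

/-- The element with the given coordinates modulo `D`. -/
theorem shape (hV : ∀ g ∈ V T, β g = g) (g : U T) : ∃ c2 c3 d4 c4 c5 c6,
    β g = ⟨g.a1, g.b2, c2, c3, d4, c4, c5, g.b6, c6, g.a7, g.b8, g.a8⟩ := by
  obtain ⟨h1, h2, h3, h4, h5, h6⟩ := modD hV g
  exact ⟨(β g).a2, (β g).a3, (β g).b4, (β g).a4, (β g).a5, (β g).a6,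
    U.ext h1 h2 rfl rfl rfl rfl rfl h3 rfl h4 h5 h6⟩

theorem cz {a x : K} (ha : a ≠ 0) (h : a * x = 0) : x = 0 := (mul_eq_zero.1 h).resolve_left ha

theorem r81 (u : K) : x8 T u * x1 T 1 = x1 T 1 * (x2 T u * x3 T (T.θ u)) * y4 T u *
    (x4 T (u * T.θ u) * x5 T (u ^ 2)) * y6 T u * x7 T (T.θ u) * x8 T u := by
  rw [show x1 T 1 * (x2 T u * x3 T (T.θ u)) * y4 T u * (x4 T (u * T.θ u) * x5 T (u ^ 2)) =
    ⟨1, 0, u, T.θ u, u, u * T.θ u, u ^ 2, 0, 0, 0, 0, 0⟩ by ext <;> o8s]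
  ext <;> o8s

theorem k81 {u f d s : K} (h : x8 T u * x6 T f * x1 T 1 = x1 T 1 * (x2 T u * x3 T (T.θ u)) *
    (y4 T u * x4 T d) * (x4 T (u * T.θ u) * x5 T (u ^ 2)) * (y6 T u * x5 T s) * x7 T (T.θ u) *
    (x8 T u * x6 T f)) : d = f ∧ s = 0 := by
  rw [show x1 T 1 * (x2 T u * x3 T (T.θ u)) * (y4 T u * x4 T d) * (x4 T (u * T.θ u) * x5 T (u ^ 2)) =
    ⟨1, 0, u, T.θ u, u, u * T.θ u + d, u ^ 2, 0, 0, 0, 0, 0⟩ by ext <;> o8s,
    show y6 T u * x5 T s = ⟨0, 0, 0, 0, 0, 0, s, u, 0, 0, 0, 0⟩ by ext <;> o8s,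
    show x8 T u * x6 T f = ⟨0, 0, 0, 0, 0, 0, 0, 0, f, 0, 0, u⟩ by ext <;> o8s] at h
  have e4 := congrArg U.a4 h
  have e5 := congrArg U.a5 h
  o8s at e4 e5
  have := T.charP
  constructor <;> grind

theorem r62 : y6 T 1 * y2 T 1 = y2 T 1 * y6 T 1 := by ext <;> o8s

theorem k62 {s r : K} (h : y6 T 1 * x5 T s * (y2 T 1 * x3 T r) = y2 T 1 * x3 T r * (y6 T 1 * x5 T s)) :
    r + s = 0 := by
  rw [show y6 T 1 * x5 T s = ⟨0, 0, 0, 0, 0, 0, s, 1, 0, 0, 0, 0⟩ by ext <;> o8s,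
    show y2 T 1 * x3 T r = ⟨0, 1, 0, r, 0, 0, 0, 0, 0, 0, 0, 0⟩ by ext <;> o8s] at h
  have e4 := congrArg U.a4 h
  o8s at e4
  exact e4

section

variable [Finite K] (hq : 2 < Nat.card K) (ht : Eqv β) (hV : ∀ g ∈ V T, β g = g)
include hq ht hV

theorem fy4 (s : K) : β (y4 T s) = y4 T s * x4 T (β (y4 T s)).a4 := by
  obtain ⟨a, h0, h1⟩ := exists_ne hq
  have e := fix4 h0 h1 (β (y4 T s)) (by rw [← ht]; congr 1; ext <;> simp [tor_apply, sc, y4])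
  have e2 := map_mul β (y4 T s) (y4 T s)
  rw [sq4, hV _ (by o8s), e, sq4'] at e2
  rwa [← nrm_inj (T := T) (congrArg U.a4 e2)] at e

theorem fx1 : ∃ ρ, ∀ a, β (x1 T a) = x1 T a * x2 T (ρ * a) := by
  have hc := T.charP
  have z : β (x1 T 0) = 1 := map_one β
  have s : ∀ a, ∃ c2 c3 c4 c5, β (x1 T a) = ⟨a, 0, c2, c3, 0, c4, c5, 0, 0, 0, 0, 0⟩ := fun a => by
    by_cases ha : a = 0
    · exact ⟨0, 0, 0, 0, by rw [ha, z]; rfl⟩
    obtain ⟨c2, c3, d4, c4, c5, c6, h⟩ := shape hV (x1 T a)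
    have e := map_mul β (x1 T a) (x1 T a)
    rw [← x1_add, add_self (T := T), z, h] at e
    have e2 := congrArg U.a2 e
    have e4 := congrArg U.a4 e
    o8s at e2 e4
    obtain rfl : d4 = 0 := cz ha (by grind)
    obtain rfl : c6 = 0 := cz ha (by grind)
    exact ⟨_, _, _, _, h⟩
  have ad : ∀ a b, (β (x1 T (a + b))).a2 = (β (x1 T a)).a2 + (β (x1 T b)).a2 ∧
      (β (x1 T (a + b))).a3 = (β (x1 T a)).a3 + (β (x1 T b)).a3 ∧
      (β (x1 T (a + b))).a4 = (β (x1 T a)).a4 + (β (x1 T b)).a4 := fun a b => by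
    obtain ⟨_, _, _, _, h⟩ := s a
    obtain ⟨_, _, _, _, k⟩ := s b
    rw [x1_add, map_mul, h, k]
    o8s
    refine ⟨?_, ?_, ?_⟩ <;> ring
  have c2 := sN T (f := fun c => (β (x1 T c)).a2) (fun a b => (ad a b).1)
    fun b hb => congrArg U.a2 (ht.e1 hb)
  have c3 := zNi T hq (f := fun c => (β (x1 T c)).a3) (fun a b => (ad a b).2.1)
    fun b hb => congrArg U.a3 (ht.e1 hb)
  have c4 := z1N T hq (f := fun c => (β (x1 T c)).a4) (fun a b => (ad a b).2.2)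
    fun b hb => (congrArg U.a4 (ht.e1 hb) :)
  have c5 := lin2 T hq (f := fun c => (β (x1 T c)).a5) (m := (β (y2 T 1)).a6) (fun a => by
    obtain ⟨_, _, _, _, h⟩ := s a
    obtain ⟨_, _, _, _, _, _, k⟩ := shape hV (y2 T 1)
    have e : β (x1 T a) * β (y2 T 1) = β (y2 T 1) * β (x1 T a) := by
      rw [← map_mul, ← map_mul]; congr 1; ext <;> o8s
    rw [h, k] at e ⊢
    have e4 := congrArg U.a4 e
    o8s at e4 ⊢
    grind) fun b hb => congrArg U.a5 (ht.e1 hb)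
  refine ⟨(β (x1 T 1)).a2, fun a => ?_⟩
  obtain ⟨_, _, _, _, h⟩ := s a
  rw [show x1 T a * x2 T ((β (x1 T 1)).a2 * a) =
    ⟨a, 0, (β (x1 T 1)).a2 * a, 0, 0, 0, 0, 0, 0, 0, 0, 0⟩ by ext <;> o8s]
  refine U.ext ?_ ?_ (c2 a) (c3 a) ?_ (c4 a) (c5 a) ?_ ?_ ?_ ?_ ?_ <;> rw [h]

variable (h1 : ∀ a, β (x1 T a) = x1 T a)
include h1

theorem fy2 : ∃ ρ, ∀ a, β (y2 T a) = y2 T a * x3 T (ρ * a) := by
  have hc := T.charP
  have z : β (y2 T 0) = 1 := map_one β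
  have s : ∀ a, ∃ c2 c3 c4, β (y2 T a) = ⟨0, a, c2, c3, 0, c4, 0, 0, 0, 0, 0, 0⟩ := fun a => by
    by_cases ha : a = 0
    · exact ⟨0, 0, 0, by rw [ha, z]; rfl⟩
    obtain ⟨c2, c3, d4, c4, c5, c6, h⟩ := shape hV (y2 T a)
    have e : x1 T 1 * β (y2 T a) = β (y2 T a) * x1 T 1 := by
      rw [← h1, ← map_mul, ← map_mul]; congr 1; ext <;> o8s
    have e' := map_mul β (y2 T a) (y2 T a)
    rw [sq2, hV _ (by o8s)] at e'
    rw [h] at e e'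
    have e2 := congrArg U.a2 e
    have e4 := congrArg U.a4 e
    have e5 := congrArg U.a4 e'
    o8s at e2 e4 e5
    obtain rfl : d4 = 0 := by grind
    obtain rfl : c6 = 0 := by grind
    obtain rfl : c5 = 0 := cz ha (by grind)
    exact ⟨_, _, _, h⟩
  have ad : ∀ a b, (β (y2 T (a + b))).a2 = (β (y2 T a)).a2 + (β (y2 T b)).a2 ∧
      (β (y2 T (a + b))).a3 = (β (y2 T a)).a3 + (β (y2 T b)).a3 ∧
      (β (y2 T (a + b))).a4 = (β (y2 T a)).a4 + (β (y2 T b)).a4 := fun a b => by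
    obtain ⟨_, _, _, h⟩ := s a
    obtain ⟨_, _, _, k⟩ := s b
    obtain ⟨_, _, _, l⟩ := s (a + b)
    have e := map_mul β (y2 T a) (y2 T b)
    rw [yy2, map_mul, hV (x2 T _) (by o8s)] at e
    rw [h, k, l] at e ⊢
    have e2 := congrArg U.a2 e
    have e3 := congrArg U.a3 e
    have e4 := congrArg U.a4 e
    o8s at e2 e3 e4 ⊢
    refine ⟨?_, ?_, ?_⟩ <;> grind
  have c2 := zN T hq (f := fun c => (β (y2 T c)).a2) (fun a b => (ad a b).1)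
    fun b hb => congrArg U.a2 (ht.d2 hb)
  have c3 := s1 (f := fun c => (β (y2 T c)).a3) (fun a b => (ad a b).2.1)
    fun b hb => congrArg U.a3 (ht.d2 hb)
  have c4 := z1 T hq (f := fun c => (β (y2 T c)).a4) (fun a b => (ad a b).2.2)
    fun b hb => (congrArg U.a4 (ht.d2 hb) :)
  refine ⟨(β (y2 T 1)).a3, fun a => ?_⟩
  obtain ⟨_, _, _, h⟩ := s a
  rw [show y2 T a * x3 T ((β (y2 T 1)).a3 * a) =
    ⟨0, a, 0, (β (y2 T 1)).a3 * a, 0, 0, 0, 0, 0, 0, 0, 0⟩ by ext <;> o8s]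
  refine U.ext ?_ ?_ (c2 a) (c3 a) ?_ (c4 a) ?_ ?_ ?_ ?_ ?_ ?_ <;> rw [h]

theorem fx7 (a : K) : β (x7 T a) = x7 T a := by
  have hc := T.charP
  have s : ∀ a, ∃ c3 c4 c5 c6, β (x7 T a) = ⟨0, 0, 0, c3, 0, c4, c5, 0, c6, a, 0, 0⟩ := fun a => by
    obtain ⟨k1, k2, k3, k4, k5, k6, k7⟩ : β (x7 T a) ∈ Y T := H72.VB.chrY β _ (by o8s)
    exact ⟨_, _, _, _, U.ext k1 k2 k3 rfl k4 rfl rfl k5 rfl (modD hV _).2.2.2.1 k6 k7⟩
  have ad : ∀ a b, (β (x7 T (a + b))).a4 = (β (x7 T a)).a4 + (β (x7 T b)).a4 ∧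
      (β (x7 T (a + b))).a5 = (β (x7 T a)).a5 + (β (x7 T b)).a5 := fun a b => by
    obtain ⟨_, _, _, _, h⟩ := s a
    obtain ⟨_, _, _, _, k⟩ := s b
    rw [x7_add, map_mul, h, k]
    o8s
    refine ⟨?_, ?_⟩ <;> ring
  have c4 := z1N T hq (f := fun c => (β (x7 T c)).a4) (fun a b => (ad a b).1)
    fun b hb => (congrArg U.a4 (ht.e7 hb) :)
  have c5 := zNi T hq (f := fun c => (β (x7 T c)).a5) (fun a b => (ad a b).2)
    fun b hb => congrArg U.a5 (ht.e7 hb)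
  have c3 := lin2 T hq (f := fun c => (β (x7 T c)).a3) (m := (β (y6 T 1)).a2) (fun a => by
    obtain ⟨_, _, _, _, h⟩ := s a
    obtain ⟨_, _, _, _, _, _, k⟩ := shape hV (y6 T 1)
    have e : β (x7 T a) * β (y6 T 1) = β (y6 T 1) * β (x7 T a) := by
      rw [← map_mul, ← map_mul]; congr 1; ext <;> o8s
    rw [h, k] at e ⊢
    have e4 := congrArg U.a4 e
    o8s at e4 ⊢
    grind) fun b hb => congrArg U.a3 (ht.e7 hb)
  obtain ⟨d3, d4, d5, d6, h⟩ := s a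
  have e : x7 T a * x1 T 1 = x1 T 1 * (x3 T a * x5 T (T.θ a)) * x7 T a := by ext <;> o8s
  have e' := congrArg β e
  rw [map_mul, map_mul, map_mul, h1, hV (x3 T a * x5 T (T.θ a)) (by o8s), h] at e'
  have e4 := congrArg U.a4 e'
  o8s at e4
  obtain rfl : d3 = 0 := (congrArg U.a3 h).symm.trans (c3 a)
  obtain rfl : d4 = 0 := (congrArg U.a4 h).symm.trans (c4 a)
  obtain rfl : d5 = 0 := (congrArg U.a5 h).symm.trans (c5 a)
  obtain rfl : d6 = 0 := by grind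
  exact h

theorem fy6 : ∃ ρ, ∀ a, β (y6 T a) = y6 T a * x5 T (ρ * a) := by
  have hc := T.charP
  have z : β (y6 T 0) = 1 := map_one β
  have s : ∀ a, ∃ c4 c5 c6, β (y6 T a) = ⟨0, 0, 0, 0, 0, c4, c5, a, c6, 0, 0, 0⟩ := fun a => by
    by_cases ha : a = 0
    · exact ⟨0, 0, 0, by rw [ha, z]; rfl⟩
    obtain ⟨c2, c3, d4, c4, c5, c6, h⟩ := shape hV (y6 T a)
    have e : x7 T 1 * β (y6 T a) = β (y6 T a) * x7 T 1 := by
      rw [← fx7 hq ht hV h1, ← map_mul, ← map_mul]; congr 1; ext <;> o8s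
    have e' := map_mul β (y6 T a) (y6 T a)
    rw [sq6, hV _ (by o8s)] at e'
    rw [h] at e e'
    have e6 := congrArg U.a6 e
    have e4 := congrArg U.a4 e
    have e5 := congrArg U.a4 e'
    o8s at e6 e4 e5
    obtain rfl : d4 = 0 := by grind
    obtain rfl : c2 = 0 := by grind
    obtain rfl : c3 = 0 := cz ha (by grind)
    exact ⟨_, _, _, h⟩
  have ad : ∀ a b, (β (y6 T (a + b))).a4 = (β (y6 T a)).a4 + (β (y6 T b)).a4 ∧
      (β (y6 T (a + b))).a5 = (β (y6 T a)).a5 + (β (y6 T b)).a5 ∧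
      (β (y6 T (a + b))).a6 = (β (y6 T a)).a6 + (β (y6 T b)).a6 := fun a b => by
    obtain ⟨_, _, _, h⟩ := s a
    obtain ⟨_, _, _, k⟩ := s b
    obtain ⟨_, _, _, l⟩ := s (a + b)
    have e := map_mul β (y6 T a) (y6 T b)
    rw [yy6, map_mul, hV (x6 T _) (by o8s)] at e
    rw [h, k, l] at e ⊢
    have e2 := congrArg U.a5 e
    have e3 := congrArg U.a6 e
    have e4 := congrArg U.a4 e
    o8s at e2 e3 e4 ⊢
    refine ⟨?_, ?_, ?_⟩ <;> grind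
  have c6 := zN T hq (f := fun c => (β (y6 T c)).a6) (fun a b => (ad a b).2.2)
    fun b hb => congrArg U.a6 (ht.d6 hb)
  have c5 := s1 (f := fun c => (β (y6 T c)).a5) (fun a b => (ad a b).2.1)
    fun b hb => congrArg U.a5 (ht.d6 hb)
  have c4 := z1 T hq (f := fun c => (β (y6 T c)).a4) (fun a b => (ad a b).1)
    fun b hb => (congrArg U.a4 (ht.d6 hb) :)
  refine ⟨(β (y6 T 1)).a5, fun a => ?_⟩
  obtain ⟨_, _, _, h⟩ := s a
  rw [show y6 T a * x5 T ((β (y6 T 1)).a5 * a) =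
    ⟨0, 0, 0, 0, 0, 0, (β (y6 T 1)).a5 * a, a, 0, 0, 0, 0⟩ by ext <;> o8s]
  refine U.ext ?_ ?_ ?_ ?_ ?_ (c4 a) (c5 a) ?_ (c6 a) ?_ ?_ ?_ <;> rw [h]

omit h1 in
theorem fx8 : ∃ e, ∀ u, β (x8 T (T.θ u)) = x8 T (T.θ u) * x6 T (e * u) := by
  have hc := T.charP
  have z : β (x8 T 0) = 1 := map_one β
  have s : ∀ a, ∃ c4 c5 c6, β (x8 T a) = ⟨0, 0, 0, 0, 0, c4, c5, 0, c6, 0, 0, a⟩ := fun a => by
    by_cases ha : a = 0
    · exact ⟨0, 0, 0, by rw [ha, z]; rfl⟩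
    obtain ⟨c2, c3, d4, c4, c5, c6, h⟩ := shape hV (x8 T a)
    have e := map_mul β (x8 T a) (x8 T a)
    rw [← x8_add, add_self (T := T), z, h] at e
    have e5 := congrArg U.a5 e
    have e4 := congrArg U.a4 e
    have e6 := congrArg U.a6 e
    o8s at e5 e4 e6
    obtain rfl : c2 = 0 := cz ha (by grind)
    rw [map_zero] at e4
    obtain rfl : d4 = 0 := nrm_eq_zero (T := T) (by grind)
    obtain rfl : c3 = 0 := cz ha (by grind)
    exact ⟨_, _, _, h⟩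
  have ad : ∀ a b, (β (x8 T (T.θ (a + b)))).a4 = (β (x8 T (T.θ a))).a4 + (β (x8 T (T.θ b))).a4 ∧
      (β (x8 T (T.θ (a + b)))).a5 = (β (x8 T (T.θ a))).a5 + (β (x8 T (T.θ b))).a5 ∧
      (β (x8 T (T.θ (a + b)))).a6 = (β (x8 T (T.θ a))).a6 + (β (x8 T (T.θ b))).a6 := fun a b => by
    obtain ⟨_, _, _, h⟩ := s (T.θ a)
    obtain ⟨_, _, _, k⟩ := s (T.θ b)
    rw [map_add, x8_add, map_mul, h, k]
    o8s
    refine ⟨?_, ?_, ?_⟩ <;> ring
  have c4 := z1N T hq (f := fun c => (β (x8 T (T.θ c))).a4) (fun a b => (ad a b).1)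
    fun b hb => (congrArg U.a4 (ht.e8 hb) :)
  have c5 := zNi T hq (f := fun c => (β (x8 T (T.θ c))).a5) (fun a b => (ad a b).2.1)
    fun b hb => congrArg U.a5 (ht.e8 hb)
  have c6 := sN T (f := fun c => (β (x8 T (T.θ c))).a6) (fun a b => (ad a b).2.2)
    fun b hb => congrArg U.a6 (ht.e8 hb)
  refine ⟨(β (x8 T (T.θ 1))).a6, fun a => ?_⟩
  obtain ⟨_, _, _, h⟩ := s (T.θ a)
  rw [show x8 T (T.θ a) * x6 T ((β (x8 T (T.θ 1))).a6 * a) =
    ⟨0, 0, 0, 0, 0, 0, 0, 0, (β (x8 T (T.θ 1))).a6 * a, 0, 0, T.θ a⟩ by ext <;> o8s]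
  refine U.ext ?_ ?_ ?_ ?_ ?_ (c4 a) (c5 a) ?_ (c6 a) ?_ ?_ ?_ <;> rw [h]

set_option maxRecDepth 4000 in
theorem fin : ∃ e, (∀ u ∈ Q T, u.b4 = 0 → β u = u) ∧
    (∀ u, β (y4 T (T.θ u)) = y4 T (T.θ u) * x4 T (e * u)) ∧
    ∀ u, β (x8 T (T.θ u)) = x8 T (T.θ u) * x6 T (e * u) := by
  obtain ⟨ρ, h2⟩ := fy2 hq ht hV h1
  obtain ⟨σ, h6⟩ := fy6 hq ht hV h1
  obtain ⟨e, h8⟩ := fx8 hq ht hV
  have h7 := fx7 hq ht hV h1
  have h4 := fy4 hq ht hV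
  have key : ∀ u, (β (y4 T (T.θ u))).a4 = e * u ∧ σ * T.θ u = 0 := fun u => by
    have r' := congrArg β (r81 (T := T) (T.θ u))
    rw [map_mul, map_mul, map_mul, map_mul, map_mul, map_mul, map_mul, h1, h8, h7, h6, h4,
      hV (x2 T _ * x3 T _) (by o8s), hV (x4 T _ * x5 T _) (by o8s)] at r'
    exact k81 r'
  have s0 : σ = 0 := by simpa using (key 1).2
  have r0 : ρ = 0 := by
    have r : β (y6 T 1) * β (y2 T 1) = β (y2 T 1) * β (y6 T 1) := by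
      rw [← map_mul, ← map_mul, r62]
    rw [h2, h6, s0] at r
    simpa using k62 r
  simp only [s0, r0, zero_mul, x3_zero, x5_zero, mul_one] at h2 h6
  refine ⟨e, fun u ⟨k1, k2⟩ k3 => ?_, fun u => by rw [h4, (key u).1], h8⟩
  have n := nf u
  rw [k1, k2, k3, y4_zero, y8_zero, x8_zero] at n
  rw [n]
  simp only [map_mul, map_one, h1, h2, h6, h7, hV (x2 T _) (by o8s), hV (x3 T _) (by o8s),
    hV (x4 T _) (by o8s), hV (x5 T _) (by o8s), hV (x6 T _) (by o8s)]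

end

theorem st2b : St2bStmt.{v} := by
  intro K _ _ T hq β hk ht h4
  have hq' : 2 < Nat.card K := by omega
  have hV : ∀ g ∈ V T, β g = g := fun g hg => fxV hq' hk ht h4 hg
  obtain ⟨ρ, h1⟩ := fx1 hq' ht hV
  have ht' : Eqv (β * MulAut.conj (y4 T ρ)) := fun b u => by
    rw [MulAut.mul_apply, MulAut.mul_apply, ← ht, MulAut.conj_apply, MulAut.conj_apply, map_mul (tor T _),
      map_mul (tor T _), map_inv (tor T _), tor_y4, Units.val_one, one_mul]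
  have hV' : ∀ g ∈ V T, (β * MulAut.conj (y4 T ρ)) g = g := fun g hg => by
    rw [MulAut.mul_apply, MulAut.conj_apply, (cV (y4 T ρ)).1 (by o8s) g hg, mul_inv_cancel_right,
      hV g hg]
  have h1' : ∀ a, (β * MulAut.conj (y4 T ρ)) (x1 T a) = x1 T a := fun a => by
    rw [MulAut.mul_apply, MulAut.conj_apply, show y4 T ρ * x1 T a * (y4 T ρ)⁻¹ =
      x1 T a * x2 T (ρ * a) by ext <;> o8s <;> o8ring T, map_mul, h1, hV _ (by o8s), mul_assoc,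
      ← x2_add, add_self (T := T), x2_zero, mul_one]
  obtain ⟨e, h⟩ := fin hq' ht' hV' h1'
  exact ⟨ρ, e, fun γ hγ => hγ ▸ h⟩

end Cfsg.Agent.H16.RfS
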