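import Cfsg.Agent.H56.SpDefs

/-! Project CY, chapter SP: `L₂(q)` has no quaternion subgroup (piece X2). -/

set_option autoImplicit false

namespace Cfsg.Agent.H16.SpX2

open Subgroup Matrix Cfsg.Agent.H56.Sp
open scoped MatrixGroups

theorem ch {F : Type} [Field F] (A : SL(2, F)) : A.1 * A.1 = (A.1 0 0 + A.1 1 1) • A.1 - 1 := by
  have hd := A.2
  rw [det_fin_two] at hd
  ext i j
  fin_cases i <;> fin_cases j <;> simp [mul_apply, Fin.sum_univ_two]
  · linear_combination -hd
  · ring
  · ring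
  · linear_combination -hd

theorem comm {F : Type} [Field F] {A B : SL(2, F)} (h : A * A ∉ center SL(2, F))
    (hc : B * (A * A) = A * A * B) : B * A = A * B := by
  have hs : A.1 0 0 + A.1 1 1 ≠ 0 := fun e => h (mem_center_iff.2 fun g => Subtype.ext (by
    change g.1 * (A.1 * A.1) = A.1 * A.1 * g.1
    rw [ch, e]
    simp))
  have e : B.1 * (A.1 * A.1) = A.1 * A.1 * B.1 := congrArg Subtype.val hc
  rw [ch, mul_sub, sub_mul, mul_one, one_mul, sub_left_inj, Matrix.mul_smul, Matrix.smul_mul] at e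
  exact Subtype.ext (smul_right_injective _ hs e)

theorem x2 : X2Stmt := by
  rintro G _ F _ _ - ⟨e⟩ ⟨a, b, h1, h2, -, h4⟩
  obtain ⟨A, hA⟩ := QuotientGroup.mk'_surjective _ (e a)
  obtain ⟨B, hB⟩ := QuotientGroup.mk'_surjective _ (e b)
  have k1 : (A * A)⁻¹ * (B * B) ∈ center SL(2, F) := (QuotientGroup.eq_one_iff _).1 (by
    change QuotientGroup.mk' _ _ = 1
    simp only [map_mul, map_inv, hA, hB]
    rw [← map_mul, ← map_mul, h1, inv_mul_cancel])
  have k2 : A * A ∉ center SL(2, F) := fun h => h2 (e.injective (by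
    rw [map_mul, ← hA, ← map_mul, map_one]
    exact (QuotientGroup.eq_one_iff _).2 h))
  have k3 := comm k2 (B := B) (by
    have := mem_center_iff.1 (inv_mem k1) B
    generalize A * A = C at this ⊢
    calc B * C = B * B * (B * (C⁻¹ * (B * B))⁻¹) := by group
      _ = _ := by rw [this]; group)
  have k4 : b * a = a * b := e.injective (by
    rw [map_mul, map_mul, ← hA, ← hB, ← map_mul, ← map_mul, k3])
  rw [k4, mul_inv_cancel_right] at h4
  exact h2 (mul_eq_one_iff_eq_inv.2 h4)

end Cfsg.Agent.H16.SpX2
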