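import Cfsg.Agent.H16.SqGeo2

/-! The geometry of the Sylow `p`-subgroups when there are fewer than `p ^ 2` of order `p`:
the case of centralizers with nontrivial intersection. -/

set_option autoImplicit false

namespace Cfsg.Agent.H16.SqGeo

open MulAction Subgroup Cfsg Cfsg.Agent.H58 Cfsg.Agent.H79.Sq
open scoped Pointwise

universe u

variable {G : Type*} [Group G] {p : ℕ} [Finite G] [hp : Fact p.Prime]

theorem line_case [IsSimpleGroup G] (hG : ¬ IsMulCommutative G) {P : Sylow p G}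
    (hP : Nat.card P = p) {n : ℕ} (hn : Nat.card (Sylow p G) = 1 + n * p) (hnp : n < p)
    {Λ : Type*} [Finite Λ] [MulAction G Λ] [IsPretransitive G Λ] (U : Λ → Subgroup G)
    (hinj : Function.Injective U) (hUs : ∀ (g : G) l z, z ∈ U (g • l) ↔ g⁻¹ * z * g ∈ U l)
    (hmax : ∀ l (c d : Sylow p G), c ≠ d → Nat.card ↥(Cz c ⊓ Cz d) ≤ Nat.card (U l))
    (hne : ∀ l, U l ≠ ⊥) {l0 : Λ} {a0 b0 : Sylow p G} (hab : a0 ≠ b0) (ha0 : U l0 ≤ Cz a0)
    (hb0 : U l0 ≤ Cz b0) :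
    ∃ y ∈ Cz P, (orderOf y).Prime ∧ orderOf y ≠ p ∧ (∀ Q : Sylow p G, y • Q = Q → Q = P) ∧
      2 * Nat.card ↥(centralizer ({y} : Set G) ⊓ Cz P) < p * p := by
  have hI : ∀ (g : G) (a : Sylow p G) l, U (g • l) ≤ Cz (g • a) ↔ U l ≤ Cz a := fun g a l =>
    ⟨fun h z hz => by
      have := (mem_Cz_smul g a _).1 (h ((hUs g l (g * z * g⁻¹)).2 (by simpa [mul_assoc] using hz)))
      simpa [mul_assoc] using this, fun h z hz => (mem_Cz_smul g a z).2 (h ((hUs g l z).1 hz))⟩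
  have F2 : ∀ l (c d : Sylow p G), c ≠ d → U l ≤ Cz c → U l ≤ Cz d → U l = Cz c ⊓ Cz d :=
    fun l c d h hc hd => eq_of_le_of_card_ge (le_inf hc hd) (hmax l c d h)
  have h2 : ∀ (a b : Sylow p G) l m, a ≠ b → U l ≤ Cz a → U l ≤ Cz b → U m ≤ Cz a → U m ≤ Cz b →
      l = m := fun a b l m h h1 h2 h3 h4 => hinj ((F2 l a b h h1 h2).trans (F2 m a b h h3 h4).symm)
  have hfixP : ∀ l (c : Sylow p G), U l ≤ Cz c → ∀ x ∈ (c : Subgroup G), x • l = l :=
    fun l c h x hx => hinj (Subgroup.ext fun z => (hUs x l z).trans ⟨fun hz => by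
      have e := mem_centralizer_iff.1 (h hz) x hx
      have : z = x⁻¹ * z * x := by
        calc z = x * (x⁻¹ * z * x) * x⁻¹ := by group
          _ = x⁻¹ * z * x := by rw [e]; group
      rwa [this], fun hz => by
      rw [mul_assoc, ← mem_centralizer_iff.1 (h hz) x hx]; simpa using hz⟩)
  have hfixU : ∀ l, ∀ x ∈ U l, x • l = l := fun l x hx =>
    hinj (Subgroup.ext fun z => (hUs x l z).trans
      ((mul_mem_cancel_right hx).trans (mul_mem_cancel_left (inv_mem hx))))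
  have hinvP : ∀ l (c : Sylow p G), U l ≤ Cz c → ∀ x ∈ (c : Subgroup G), ∀ d : Sylow p G,
      U l ≤ Cz d → U l ≤ Cz (x • d) := fun l c h x hx d hd => by
    have := (hI x d l).2 hd
    rwa [hfixP l c h x hx] at this
  obtain ⟨k, hk0⟩ := ncard_inv (card_eq hP a0) (S := {c | U l0 ≤ Cz c}) ha0 (hinvP l0 a0 ha0)
  have hk : ∀ l, {c : Sylow p G | U l ≤ Cz c}.ncard = 1 + k * p := fun l => by
    obtain ⟨g, rfl⟩ := exists_smul_eq G l0 l
    rw [← hk0, ← Set.ncard_image_of_injective {c : Sylow p G | U l0 ≤ Cz c} (MulAction.injective g)]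
    congr 1
    ext c
    refine ⟨fun h => ⟨g⁻¹ • c, (hI g _ _).1 (by rwa [smul_inv_smul]), smul_inv_smul g c⟩, ?_⟩
    rintro ⟨d, hd, rfl⟩
    exact (hI g d l0).2 hd
  have hr : ∀ a : Sylow p G, {l | U l ≤ Cz a}.ncard = {l | U l ≤ Cz P}.ncard := fun a => by
    obtain ⟨g, rfl⟩ := exists_smul_eq G P a
    rw [← Set.ncard_image_of_injective {l | U l ≤ Cz P} (MulAction.injective g)]
    congr 1
    ext l
    refine ⟨fun h => ⟨g⁻¹ • l, (hI g _ _).1 (by rwa [smul_inv_smul]), smul_inv_smul g l⟩, ?_⟩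
    rintro ⟨m, hm, rfl⟩
    exact (hI g P m).2 hm
  have hk1 : 1 ≤ k := by
    have : 1 < {c : Sylow p G | U l0 ≤ Cz c}.ncard :=
      (Set.one_lt_ncard (Set.toFinite _)).2 ⟨a0, ha0, b0, hb0, hab⟩
    rcases Nat.eq_zero_or_pos k with h | h
    · rw [hk0, h] at this; omega
    · exact h
  have hkn : k < n := by
    have h3 : {c : Sylow p G | U l0 ≤ Cz c}.ncard < Nat.card (Sylow p G) := by
      rw [← Set.ncard_univ]
      refine Set.ncard_lt_ncard (Set.ssubset_univ_iff.2 fun h => hne l0 ?_) (Set.toFinite _)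
      exact eq_bot_iff.2 fun z hz => eq_bot_of_forall hG hP fun c =>
        (show U l0 ≤ Cz c from (h ▸ Set.mem_univ c : c ∈ {c : Sylow p G | U l0 ≤ Cz c})) hz
    rw [hk0, hn] at h3
    exact Nat.lt_of_mul_lt_mul_right (a := p) (by omega)
  have : Nonempty Λ := ⟨l0⟩
  obtain ⟨rfl, hr2, hr3, hmeet, hcol⟩ := design (fun (a : Sylow p G) l => U l ≤ Cz a)
    hp.out.two_le hn hnp hk1 hkn hk hr h2
  generalize hr0 : {l | U l ≤ Cz P}.ncard = r at hr hr2 hr3
  have hoth : ∀ l (a : Sylow p G), ∃ Q, U l ≤ Cz Q ∧ Q ≠ a := fun l a =>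
    Set.exists_ne_of_one_lt_ncard (s := {c : Sylow p G | U l ≤ Cz c})
      (by rw [hk]; have := hp.out.pos; omega) a
  have G1 : ∀ l m, l ≠ m → ∀ z ∈ U l, z ∈ U m → z = 1 := fun l m hlm z hl hm => by
    obtain ⟨e, hel, hem⟩ := hmeet l m
    refine eq_bot_of_forall hG hP fun c => ?_
    by_cases hce : c = e
    · exact hce ▸ hel hl
    obtain ⟨t, htc, hte⟩ : ∃ t, U t ≤ Cz c ∧ ¬ U t ≤ Cz e := by
      obtain ⟨t1, h1, t2, h2', h12⟩ := (Set.one_lt_ncard (s := {l | U l ≤ Cz c})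
        (Set.toFinite _)).1 (by rw [hr]; omega)
      by_contra hc
      push Not at hc
      exact h12 (h2 c e t1 t2 hce h1 (hc t1 h1) h2' (hc t2 h2'))
    obtain ⟨d1, h1t, h1l⟩ := hmeet t l
    obtain ⟨d2, h2t, h2m⟩ := hmeet t m
    have hd : d1 ≠ d2 := by
      rintro rfl
      exact hlm (h2 d1 e l m (fun h => hte (h ▸ h1t)) h1l hel h2m hem)
    exact htc (F2 t d1 d2 hd h1t h2t ▸ ⟨h1l hl, h2m hm⟩)
  have G2 : ∀ (a : Sylow p G) l, U l ≤ Cz a → ∀ c ∈ Cz a, c • l = l →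
      ∃ x ∈ (a : Subgroup G), c * x ∈ U l := fun a l ha c hc hcl => by
    obtain ⟨Q, hQ, hQa⟩ := hoth l a
    have hQ' : U l ≤ Cz (c⁻¹ • Q) := (hI c _ _).1 (by rwa [hcl, smul_inv_smul])
    obtain ⟨x, hx, hxQ⟩ : ∃ x ∈ (a : Subgroup G), x • Q = c⁻¹ • Q := by
      by_contra hcon
      push Not at hcon
      have h3 := lt_ncard (card_eq hP a) (S := {c : Sylow p G | U l ≤ Cz c} \ {c⁻¹ • Q})
        ⟨ha, (smul_ne (smul_eq_of_mem_centralizer a (inv_mem hc)) hQa).symm⟩ hQa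
        fun x hx => ⟨hinvP l a ha x hx Q hQ, hcon x hx⟩
      rw [Set.ncard_sdiff_singleton_of_mem hQ', hk] at h3
      omega
    have h4 : c * x ∈ Cz a := mul_mem hc (le_Cz (card_eq hP a) hx)
    refine ⟨x, hx, F2 l a Q hQa.symm ha hQ ▸ ⟨h4, ?_⟩⟩
    exact mem_centralizer_of_smul_eq (card_eq hP a) hn hnp h4 (by rw [mul_smul, hxQ, smul_inv_smul])
  have G2' : ∀ (a : Sylow p G) l, U l ≤ Cz a → ∀ c ∈ Cz a, c • l = l → c ^ p ∈ U l :=
    fun a l ha c hc hcl => by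
      obtain ⟨x, hx, hcx⟩ := G2 a l ha c hc hcl
      have h3 : Commute c x := (mem_centralizer_iff.1 hc x hx).symm
      have h4 := pow_mem hcx p
      rwa [h3.mul_pow, pow_eq_one_of_mem (card_eq hP a) hx, mul_one] at h4
  have G3 : ∀ l m, U l ≤ Cz P → U m ≤ Cz P → l ≠ m → ∀ u ∈ U l, u • m = m → u = 1 :=
    fun l m hl hm hlm u hu hum => by
      have h3 := G1 l m hlm _ (pow_mem hu p) (G2' P m hm u (hl hu) hum)
      by_contra hu1
      have h4 : orderOf u = p := orderOf_eq_prime h3 hu1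
      obtain ⟨Q, hQ, hQP⟩ := hoth l P
      exact hQP (eq_of_smul_eq hP (mem_sylow_of_mem_normalizer P (isPGroup_zpowers_of_orderOf_eq h4)
        (centralizer_le_normalizer _ (hl hu))) hu1 (smul_eq_of_mem_centralizer Q (hQ hu)))
  obtain ⟨l1, hl1, l2, hl2, h12⟩ := (Set.one_lt_ncard (s := {l | U l ≤ Cz P})
    (Set.toFinite _)).1 (by omega)
  have horb : ∀ c ∈ Cz P, U (c • l1) ≤ Cz P := fun c hc => by
    have := (hI c P l1).2 hl1
    rwa [smul_eq_of_mem_centralizer P hc] at this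
  have hρ1 : (orbit (Cz P) l1).ncard ≤ r := by
    rw [← hr0]
    exact Set.ncard_le_ncard (by rintro _ ⟨c, rfl⟩; exact horb c c.2) (Set.toFinite _)
  have hρ2 : 1 < (orbit (Cz P) l1).ncard := by
    obtain ⟨⟨u, hu⟩, hu1⟩ := ne_bot_iff_exists_ne_one.1 (hne l2)
    exact (Set.one_lt_ncard (Set.toFinite _)).2 ⟨u • l1, ⟨⟨u, hl2 hu⟩, rfl⟩, l1, mem_orbit_self _,
      fun h => hu1 (Subtype.ext (G3 l2 l1 hl2 hl1 h12.symm u hu h))⟩
  obtain ⟨s, hs, hsd⟩ := Nat.exists_prime_and_dvd hρ2.ne'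
  have := Fact.mk hs
  have hsp : s < p := by
    have := Nat.le_of_dvd (by omega) hsd
    omega
  have hsU : ∀ l, ¬ s ∣ Nat.card (U l) := fun l hl => by
    have e : Nat.card (U l) = Nat.card (U l1) := by
      obtain ⟨c, hc, -⟩ := hoth l P
      obtain ⟨d, hd, hdc⟩ := hoth l c
      obtain ⟨Q, hQ, hQP⟩ := hoth l1 P
      exact le_antisymm (F2 l d c hdc hd hc ▸ hmax l1 d c hdc)
        (F2 l1 Q P hQP hQ hl1 ▸ hmax l Q P hQP)
    rw [e] at hl
    obtain ⟨u, hu⟩ := exists_prime_orderOf_dvd_card' (G := U l1) s hl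
    let v : Cz P := ⟨u, hl1 u.2⟩
    have hv : orderOf v = s := by rw [← hu, ← orderOf_coe v, ← orderOf_coe u]
    obtain ⟨⟨m, c, rfl⟩, hm, hm1⟩ := (isPGroup_zpowers_of_orderOf_eq hv
      ).exists_fixed_point_of_prime_dvd_card_of_fixed_point (orbit (Cz P) l1) hsd
      (a := ⟨l1, mem_orbit_self _⟩) (by
        rintro ⟨_, j, rfl⟩
        exact Subtype.ext (hfixU l1 _ (zpow_mem u.2 j)))
    have h3 := G3 l1 _ hl1 (horb c c.2) (fun h => hm1 (Subtype.ext h)) u u.2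
      (congrArg Subtype.val (hm ⟨v, mem_zpowers v⟩))
    rw [show u = 1 from Subtype.ext h3, orderOf_one] at hu
    exact hs.one_lt.ne hu
  obtain ⟨⟨y, hyC⟩, hy⟩ := exists_prime_orderOf_dvd_card' (G := Cz P) s
    (hsd.trans (index_stabilizer (Cz P) l1 ▸ index_dvd_card _))
  have hy' : orderOf y = s := by rw [← hy]; exact orderOf_coe (⟨y, hyC⟩ : Cz P)
  have hyl : ∀ (a : Sylow p G) l, y ∈ Cz a → U l ≤ Cz a → y • l ≠ l := fun a l hya ha h => by
    have h3 := (U l).orderOf_dvd_natCard (G2' a l ha y hya h)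
    rw [Nat.Coprime.orderOf_pow (by rw [hy']; exact (Nat.coprime_primes hs hp.out).2 hsp.ne), hy']
      at h3
    exact hsU l h3
  refine ⟨y, hyC, hy' ▸ hs, hy' ▸ hsp.ne, fun Q hQ => ?_, ?_⟩
  · by_contra hQP
    obtain ⟨a, ha, b, hb, hab', l, hal, hbl⟩ := hcol (fixedBy (Sylow p G) y)
      (lt_ncard hP (smul_eq_of_mem_centralizer P hyC) hQP fun x hx => by
        rw [mem_fixedBy, ← mul_smul, ← mem_centralizer_iff.1 hyC x hx, mul_smul, hQ])
    rw [mem_fixedBy] at ha hb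
    exact hyl a l (mem_centralizer_of_smul_eq hP hn hnp hyC ha) hal
      (h2 a b _ l hab' (ha ▸ (hI y a l).2 hal) (hb ▸ (hI y b l).2 hbl) hal hbl)
  · set H := centralizer ({y} : Set G) ⊓ Cz P
    have h3 : (stabilizer H l1).index ≤ r := by
      rw [index_stabilizer, ← hr0]
      exact Set.ncard_le_ncard (by rintro _ ⟨c, rfl⟩; exact horb c c.2.2) (Set.toFinite _)
    have h4 : ∀ h : stabilizer H l1, ((h : H) : G) ∈ (P : Subgroup G) := fun h => by
      obtain ⟨x, hx, hcx⟩ := G2 P l1 hl1 h h.1.2.2 h.2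
      have e1 : y * (h * x) = h * x * y := by
        rw [← mul_assoc, mem_centralizer_iff.1 h.1.2.1 y rfl, mul_assoc,
          ← mem_centralizer_iff.1 hyC x hx, mul_assoc]
      have e2 := G1 l1 (y • l1) (hyl P l1 hyC hl1).symm _ hcx
        ((hUs y l1 _).2 (by rw [mul_assoc, ← e1]; simpa using hcx))
      rw [eq_inv_of_mul_eq_one_left e2]
      exact inv_mem hx
    have h5 : Nat.card (stabilizer H l1) ≤ p := by
      rw [← hP]
      exact Nat.card_le_card_of_injective (fun h => (⟨_, h4 h⟩ : (P : Subgroup G)))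
        fun a b h => Subtype.ext (Subtype.ext (congrArg (fun z : (P : Subgroup G) => (z : G)) h))
    rw [← (stabilizer H l1).card_mul_index]
    calc 2 * (Nat.card (stabilizer H l1) * (stabilizer H l1).index) ≤ 2 * (p * r) :=
          Nat.mul_le_mul_left _ (Nat.mul_le_mul h5 h3)
      _ = p * (2 * r) := by ring
      _ < p * p := Nat.mul_lt_mul_of_pos_left (by omega) hp.out.pos

theorem geo : GeoStmt.{u} := by
  intro G _ _ _ p n _ P hG hP hn hnp hC hT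
  by_cases hti : ∀ Q, Q ≠ P → Cz P ⊓ Cz Q = ⊥
  · exact ti_case hP hn hnp hC hT hti
  push Not at hti
  obtain ⟨Q, hQ, hQ'⟩ := hti
  have : Nonempty {x : Sylow p G × Sylow p G // x.1 ≠ x.2} := ⟨⟨(P, Q), hQ.symm⟩⟩
  obtain ⟨⟨⟨a, b⟩, hab⟩, hm⟩ := Finite.exists_max
    fun x : {x : Sylow p G × Sylow p G // x.1 ≠ x.2} => Nat.card ↥(Cz x.1.1 ⊓ Cz x.1.2)
  letI : MulAction G (Subgroup G) := MulAction.compHom _ (MulAut.conj : G →* MulAut G)
  have hc : ∀ l : orbit G (Cz a ⊓ Cz b), Nat.card l.1 = Nat.card ↥(Cz a ⊓ Cz b) := by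
    rintro ⟨_, g, rfl⟩
    exact Nat.card_congr (equivSMul (MulAut.conj g) (Cz a ⊓ Cz b)).toEquiv.symm
  refine line_case hG hP hn hnp (Λ := orbit G (Cz a ⊓ Cz b)) Subtype.val Subtype.val_injective
    (fun g l z => ?_) (fun l c d h => hc l ▸ hm ⟨(c, d), h⟩) (fun l h => ?_)
    (l0 := ⟨_, mem_orbit_self _⟩) hab inf_le_left inf_le_right
  · change z ∈ MulAut.conj g • l.1 ↔ _
    rw [mem_pointwise_smul_iff_inv_smul_mem]
    simp
  · have h1 := hm ⟨(P, Q), hQ.symm⟩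
    rw [← hc l, h, card_bot] at h1
    exact hQ' (eq_bot_of_card_le _ h1)

end Cfsg.Agent.H16.SqGeo
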