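import Mathlib

/-! A partial linear space on `1 + n p < p ^ 2` points whose lines have `1 + k p` points. -/

set_option autoImplicit false

namespace Cfsg.Agent.H16.SqGeo

open Finset

theorem arith {p n k r b : ℕ} (hp : 2 ≤ p) (hnp : n < p) (hk1 : 1 ≤ k) (hkn : k < n) (hr : 1 ≤ r)
    (h1 : b * (1 + k * p) = (1 + n * p) * r) (h2 : (1 + k * p) * (r - 1) + 1 ≤ b) :
    k = 1 ∧ 2 ≤ r ∧ 3 * r ≤ p + 1 ∧ b = (1 + p) * (r - 1) + 1 := by
  obtain ⟨s, rfl⟩ : ∃ s, r = s + 1 := ⟨r - 1, by omega⟩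
  obtain ⟨d, rfl⟩ : ∃ d, n = k + d + 1 := ⟨n - k - 1, by omega⟩
  simp only [Nat.add_sub_cancel] at h2 ⊢
  obtain ⟨c, rfl⟩ : ∃ c, b = s + 1 + c := ⟨b - (s + 1), by
    have : s ≤ (1 + k * p) * s := Nat.le_mul_of_pos_left _ (by omega)
    omega⟩
  have hc : c * (1 + k * p) = p * ((s + 1) * (d + 1)) := by nlinarith
  have hpc : p ∣ c := by
    have h3 : p ∣ c + p * (c * k) := ⟨(s + 1) * (d + 1), by nlinarith⟩
    exact (Nat.dvd_add_left (Dvd.intro _ rfl)).1 h3
  obtain ⟨j, rfl⟩ := hpc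
  have hj : j * (1 + k * p) = (s + 1) * (d + 1) :=
    Nat.eq_of_mul_eq_mul_left (by omega : 0 < p) (by nlinarith)
  have hjs : k * s ≤ j := Nat.le_of_mul_le_mul_left (by nlinarith : p * (k * s) ≤ p * j) (by omega)
  have hj0 : 1 ≤ j := by
    rcases Nat.eq_zero_or_pos j with h | h
    · subst h; simp at hj
    · exact h
  have hkp : p ≤ k * p := Nat.le_mul_of_pos_left _ hk1
  have hs : 1 ≤ s := by
    rcases Nat.eq_zero_or_pos s with h | h
    · subst h
      have : 1 + k * p ≤ j * (1 + k * p) := Nat.le_mul_of_pos_left _ hj0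
      omega
    · exact h
  have hk : k = 1 := by
    by_contra hk
    have hk2 : 2 ≤ k := by omega
    have a1 : 2 * s ≤ j := le_trans (Nat.mul_le_mul_right s hk2) hjs
    have a2 : 2 * p ≤ 1 + k * p := by nlinarith
    have a3 : 2 * s * (2 * p) ≤ j * (1 + k * p) := Nat.mul_le_mul a1 a2
    have a4 : (s + 1) * (d + 1) ≤ (2 * s) * p := Nat.mul_le_mul (by omega) (by omega)
    nlinarith
  subst hk
  simp only [one_mul] at hj hjs h2 h1 ⊢
  have hjs' : j = s := by
    by_contra hne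
    have a1 : (s + 1) * (1 + p) ≤ j * (1 + p) := Nat.mul_le_mul_right _ (by omega)
    have a2 : (s + 1) * (d + 1) < (s + 1) * (1 + p) := Nat.mul_lt_mul_of_pos_left (by omega) (by omega)
    omega
  subst hjs'
  obtain ⟨q, hq⟩ : ∃ q, 1 + p = d + 1 + q := ⟨p - d, by omega⟩
  have a1 : (j + 1) * q = 1 + p := by nlinarith
  have a2 : (j + 1) * 3 ≤ (j + 1) * q := Nat.mul_le_mul_left _ (by omega)
  refine ⟨trivial, by omega, by omega, by ring⟩

theorem design {Ω Λ : Type*} [Finite Ω] [Finite Λ] [Nonempty Λ] (I : Ω → Λ → Prop) {p n k r : ℕ}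
    (hp : 2 ≤ p) (hn : Nat.card Ω = 1 + n * p) (hnp : n < p) (hk1 : 1 ≤ k) (hkn : k < n)
    (hk : ∀ l, {a | I a l}.ncard = 1 + k * p) (hr : ∀ a, {l | I a l}.ncard = r)
    (h2 : ∀ a b l m, a ≠ b → I a l → I b l → I a m → I b m → l = m) :
    k = 1 ∧ 2 ≤ r ∧ 3 * r ≤ p + 1 ∧ (∀ l m, ∃ a, I a l ∧ I a m) ∧
      ∀ S : Set Ω, p + 1 ≤ S.ncard → ∃ a ∈ S, ∃ b ∈ S, a ≠ b ∧ ∃ l, I a l ∧ I b l := by
  classical
  have := Fintype.ofFinite Ω
  have := Fintype.ofFinite Λ
  have hk' : ∀ l, #{a | I a l} = 1 + k * p := fun l => by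
    rw [← hk l, ← Set.ncard_coe_finset]; congr 1; ext; simp
  have hr' : ∀ a, #{l | I a l} = r := fun a => by
    rw [← hr a, ← Set.ncard_coe_finset]; congr 1; ext; simp
  have h1 : Fintype.card Λ * (1 + k * p) = (1 + n * p) * r := by
    rw [← hn, Nat.card_eq_fintype_card]
    exact (card_mul_eq_card_mul (s := univ) (t := univ) I (fun a _ => hr' a) fun l _ => hk' l).symm
  have hpt : ∀ l, ∃ a, I a l := fun l => by
    obtain ⟨a, ha⟩ := card_pos.1 (show 0 < #{a | I a l} by rw [hk']; omega)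
    exact ⟨a, by simpa using ha⟩
  have hr1 : 1 ≤ r := by
    obtain ⟨l⟩ := ‹Nonempty Λ›
    obtain ⟨a, ha⟩ := hpt l
    rw [← hr' a]
    exact card_pos.2 ⟨l, by simpa using ha⟩
  have hT : ∀ l, (1 + k * p) * (r - 1) ≤ #{m | m ≠ l ∧ ∃ a, I a l ∧ I a m} := fun l => by
    have := card_mul_le_card_mul (s := {a | I a l}) (t := {m | m ≠ l ∧ ∃ a, I a l ∧ I a m}) I
      (m := r - 1) (n := 1) (fun a ha => ?_) fun m hm => ?_
    · rwa [hk', mul_one] at this
    · have ha' : I a l := by simpa using ha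
      rw [← hr' a, ← card_erase_of_mem (a := l) (by simpa using ha')]
      refine card_le_card fun m hm => ?_
      simp only [mem_erase, mem_filter, mem_univ, true_and] at hm
      simp only [mem_bipartiteAbove, mem_filter, mem_univ, true_and]
      exact ⟨⟨hm.1, a, ha', hm.2⟩, hm.2⟩
    · refine card_le_one.2 fun a ha b hb => ?_
      simp only [mem_bipartiteBelow, mem_filter, mem_univ, true_and] at ha hb hm
      by_contra hab
      exact hm.1 (h2 a b l m hab ha.1 hb.1 ha.2 hb.2).symm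
  have hsub : ∀ l, ({m | m ≠ l ∧ ∃ a, I a l ∧ I a m} : Finset Λ) ⊆ univ.erase l := fun l m hm => by
    simp only [mem_filter, mem_univ, true_and] at hm
    simp [hm.1]
  have hb : ∀ l : Λ, #(univ.erase l) + 1 = Fintype.card Λ := fun l => by
    rw [card_erase_add_one (mem_univ l), card_univ]
  obtain ⟨l0⟩ := ‹Nonempty Λ›
  obtain ⟨e1, e2, e3, e4⟩ := arith hp hnp hk1 hkn hr1 h1 (by
    have := (hT l0).trans (card_le_card (hsub l0))
    have := hb l0
    omega)
  subst e1
  refine ⟨rfl, e2, e3, fun l m => ?_, fun S hS => ?_⟩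
  · by_cases hml : m = l
    · obtain ⟨a, ha⟩ := hpt l
      exact ⟨a, ha, hml ▸ ha⟩
    have h3 := eq_of_subset_of_card_le (hsub l) (by
      have := hT l
      have := hb l
      rw [one_mul] at *
      omega)
    have h4 : m ∈ univ.erase l := by simp [hml]
    rw [← h3] at h4
    simp only [mem_filter, mem_univ, true_and] at h4
    exact h4.2
  · by_contra hc
    push Not at hc
    have h3 := card_mul_le_card_mul (s := S.toFinset) (t := univ) I (m := r) (n := 1)
      (fun a _ => (hr' a).ge) fun m _ => by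
        refine card_le_one.2 fun a ha b hb => ?_
        simp only [mem_bipartiteBelow, Set.mem_toFinset] at ha hb
        by_contra hab
        exact hc a ha.1 b hb.1 hab m ha.2 hb.2
    rw [← Set.ncard_eq_toFinset_card', mul_one, card_univ, e4] at h3
    obtain ⟨s, rfl⟩ : ∃ s, r = s + 1 := ⟨r - 1, by omega⟩
    have h4 : (p + 1) * (s + 1) ≤ S.ncard * (s + 1) := Nat.mul_le_mul_right _ hS
    simp only [Nat.add_sub_cancel] at h3
    nlinarith

end Cfsg.Agent.H16.SqGeo
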