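import Cfsg.Agent.H79.SqBase
import Cfsg.Agent.H16.SqGeo1

/-! The geometry of the Sylow `p`-subgroups when there are fewer than `p ^ 2` of order `p`. -/

set_option autoImplicit false

namespace Cfsg.Agent.H16.SqGeo

open MulAction Subgroup Cfsg Cfsg.Agent.H58 Cfsg.Agent.H79.Sq
open scoped Pointwise

universe u

variable {G : Type*} [Group G] {p : ℕ}

/-- The centralizer of a Sylow subgroup. -/
abbrev Cz (a : Sylow p G) : Subgroup G := centralizer ((a : Subgroup G) : Set G)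

theorem eqns_Cz : True := by
  have := @Cz.eq_1.{0}
  trivial

theorem mem_Cz_smul (g : G) (a : Sylow p G) (z : G) : z ∈ Cz (g • a) ↔ g⁻¹ * z * g ∈ Cz a := by
  simp only [mem_centralizer_iff, SetLike.mem_coe, Sylow.coe_subgroup_smul,
    mem_pointwise_smul_iff_inv_smul_mem]
  constructor
  · intro h x hx
    have := h (g * x * g⁻¹) (by simpa [mul_assoc] using hx)
    calc x * (g⁻¹ * z * g) = g⁻¹ * (g * x * g⁻¹ * z) * g := by group
      _ = g⁻¹ * z * g * x := by rw [this]; group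
  · intro h x hx
    have := h (g⁻¹ * x * g) (by simpa using hx)
    calc x * z = g * (g⁻¹ * x * g * (g⁻¹ * z * g)) * g⁻¹ := by group
      _ = z * x := by rw [this]; group

variable [Finite G] [hp : Fact p.Prime]

theorem le_Cz {P : Sylow p G} (hP : Nat.card P = p) : (P : Subgroup G) ≤ Cz P := by
  intro x hx
  have : IsCyclic (P : Subgroup G) := isCyclic_of_prime_card hP
  exact mem_centralizer_iff.2 fun y hy =>
    congrArg Subtype.val (mul_comm' (⟨y, hy⟩ : (P : Subgroup G)) ⟨x, hx⟩)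

theorem pow_eq_one_of_mem {P : Sylow p G} (hP : Nat.card P = p) {x : G}
    (hx : x ∈ (P : Subgroup G)) : x ^ p = 1 := by
  have : (⟨x, hx⟩ : (P : Subgroup G)) ^ Nat.card (P : Subgroup G) = 1 := pow_card_eq_one'
  rw [show Nat.card (P : Subgroup G) = p from hP] at this
  exact congrArg Subtype.val this

theorem ncard_inv {P : Sylow p G} (hP : Nat.card P = p) {S : Set (Sylow p G)} (hPS : P ∈ S)
    (hS : ∀ x ∈ (P : Subgroup G), ∀ Q ∈ S, x • Q ∈ S) : ∃ k, S.ncard = 1 + k * p := by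
  let T : SubMulAction (P : Subgroup G) (Sylow p G) := ⟨S, fun x Q hQ => hS x x.2 Q hQ⟩
  have h1 := P.isPGroup'.card_modEq_card_fixedPoints T
  have h2 : Nat.card (fixedPoints (P : Subgroup G) T) = 1 := by
    rw [Nat.card_eq_one_iff_exists]
    refine ⟨⟨⟨P, hPS⟩, fun x => Subtype.ext ((smul_eq_iff P _).2 (le_normalizer x.2))⟩, ?_⟩
    rintro ⟨⟨Q, hQ⟩, hQ'⟩
    have : Nontrivial (P : Subgroup G) :=
      Finite.one_lt_card_iff_nontrivial.1 (by rw [show Nat.card (P : Subgroup G) = p from hP]; exact hp.out.one_lt)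
    obtain ⟨x, hx⟩ := exists_ne (1 : (P : Subgroup G))
    have h3 : (x : G) • Q = Q := congrArg Subtype.val (hQ' x)
    have h4 := eq_of_smul_eq hP x.2 (fun h => hx (Subtype.ext h)) h3
    subst h4
    rfl
  rw [h2, show Nat.card T = S.ncard from rfl] at h1
  have h3 : 1 ≤ S.ncard := (Set.ncard_pos (Set.toFinite _)).2 ⟨P, hPS⟩
  obtain ⟨k, hk⟩ := (Nat.modEq_iff_dvd' h3).1 h1.symm
  exact ⟨k, by rw [mul_comm, ← hk]; omega⟩

theorem eq_bot_of_forall [IsSimpleGroup G] (hG : ¬ IsMulCommutative G) {P : Sylow p G}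
    (hP : Nat.card P = p) {z : G} (h : ∀ c : Sylow p G, z ∈ Cz c) : z = 1 := by
  have hN : (⨅ c : Sylow p G, Cz c).Normal := ⟨fun x hx g => by
    rw [mem_iInf] at hx ⊢
    intro c
    have := (mem_Cz_smul g⁻¹ c x).1 (hx _)
    rwa [inv_inv] at this⟩
  rcases hN.eq_bot_or_eq_top with h1 | h1
  · exact mem_bot.1 (h1 ▸ mem_iInf.2 h)
  · exfalso
    have h2 : ∀ g : G, g ∈ Cz P := fun g => mem_iInf.1 (h1 ▸ mem_top g) P
    have h3 : (P : Subgroup G).Normal := ⟨fun x hx g => by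
      rw [← mem_centralizer_iff.1 (h2 g) x hx]; simpa using hx⟩
    rcases h3.eq_bot_or_eq_top with h4 | h4
    · have : Nat.card (P : Subgroup G) = p := hP
      rw [h4, card_bot] at this
      exact hp.out.one_lt.ne this
    · exact hG ⟨⟨fun a b => mem_centralizer_iff.1 (h2 b) a (by rw [h4]; trivial)⟩⟩

theorem ti_case {P : Sylow p G} (hP : Nat.card P = p) {n : ℕ}
    (hn : Nat.card (Sylow p G) = 1 + n * p) (hnp : n < p) (hC : Cz P ≠ P)
    (hT : ∃ Q R : Sylow p G, Q ≠ P ∧ R ≠ P ∧ ∀ c ∈ Cz P, c • Q ≠ R)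
    (hti : ∀ Q, Q ≠ P → Cz P ⊓ Cz Q = ⊥) :
    ∃ y ∈ Cz P, (orderOf y).Prime ∧ orderOf y ≠ p ∧ (∀ Q : Sylow p G, y • Q = Q → Q = P) ∧
      2 * Nat.card ↥(centralizer ({y} : Set G) ⊓ Cz P) < p * p := by
  have hs : ∀ c ∈ Cz P, ∀ Q, Q ≠ P → c • Q = Q → c = 1 := fun c hc Q hQ h =>
    mem_bot.1 (hti Q hQ ▸ ⟨hc, mem_centralizer_of_smul_eq hP hn hnp hc h⟩)
  have hs' : ∀ (c d : Cz P) (Q : Sylow p G), Q ≠ P → (c : G) • Q = (d : G) • Q → c = d :=
    fun c d Q hQ h => by
      have := hs _ (mul_mem (inv_mem d.2) c.2) Q hQ (by rw [mul_smul, h, inv_smul_smul])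
      rw [inv_mul_eq_one] at this
      exact Subtype.ext this.symm
  obtain ⟨Q, R, hQ, hR, hQR⟩ := hT
  let f : Cz P ⊕ Cz P → {S : Sylow p G // S ≠ P} := fun a => match a with
    | .inl c => ⟨(c : G) • Q, smul_ne (smul_eq_of_mem_centralizer P c.2) hQ⟩
    | .inr c => ⟨(c : G) • R, smul_ne (smul_eq_of_mem_centralizer P c.2) hR⟩
  have hf : Function.Injective f := by
    rintro (c | c) (d | d) h <;> have h' := congrArg Subtype.val h
    · rw [hs' c d Q hQ h']
    · exact absurd (by rw [mul_smul, show (c : G) • Q = (d : G) • R from h', inv_smul_smul])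
        (hQR _ (mul_mem (inv_mem d.2) c.2))
    · exact absurd (by rw [mul_smul, ← show (c : G) • R = (d : G) • Q from h', inv_smul_smul])
        (hQR _ (mul_mem (inv_mem c.2) d.2))
    · rw [hs' c d R hR h']
  have h1 := Nat.card_le_card_of_injective f hf
  rw [card_ne P hn, Nat.card_sum] at h1
  have h2 : (P : Subgroup G).relIndex (Cz P) ≠ 1 := fun h =>
    hC (le_antisymm (relIndex_eq_one.1 h) (le_Cz hP))
  obtain ⟨r, hr, hrd⟩ := Nat.exists_prime_and_dvd h2
  have := Fact.mk hr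
  obtain ⟨y, hy⟩ := exists_prime_orderOf_dvd_card' (G := Cz P) r (hrd.trans (index_dvd_card _))
  have hy' : orderOf (y : G) = r := by rw [← hy]; exact orderOf_coe y
  refine ⟨y, y.2, hy' ▸ hr, ?_, fun S hS => ?_, ?_⟩
  · rw [hy']
    rintro rfl
    exact P.not_dvd_index (hrd.trans (relIndex_dvd_index_of_le (le_Cz hP)))
  · by_contra h
    rw [hs y y.2 S h hS, orderOf_one] at hy'
    exact hr.one_lt.ne hy'
  · have h3 := card_le_of_le (inf_le_right : centralizer ({(y : G)} : Set G) ⊓ Cz P ≤ Cz P)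
    have h4 : n * p < p * p := Nat.mul_lt_mul_of_pos_right hnp hp.out.pos
    omega

end Cfsg.Agent.H16.SqGeo
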