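import Cfsg.Agent.H58.SWDefs
import Cfsg.Agent.H73.Descent

/-! Project SW: orders and the outer element (piece ORD). -/

set_option autoImplicit false
set_option linter.unusedSectionVars false
open Matrix Cfsg
open scoped commutatorElement

namespace Cfsg.Agent.H16.SwOrd

open Cfsg.Agent.H58.SW

theorem irrS (hL : IrrLStmt) (hU : IrrUStmt) : IrrStmt := fun F _ _ _ n c => by
  cases h : c.u
  · exact hL F n c h
  · exact hU F n c h

theorem uniqS (hL : UniqLStmt) (hU : UniqUStmt) : UniqStmt := fun F _ _ _ n c => by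
  cases h : c.u
  · exact hL F n c h
  · exact hU F n c h

theorem two_pow_le (F : Type) [Field F] [Fintype F] : 2 ^ Nat.card (F ≃+* F) ≤ Fintype.card F := by
  obtain ⟨p, hp⟩ := CharP.exists F
  obtain ⟨m, hpp, hm⟩ := FiniteField.card F p
  have : Fact p.Prime := ⟨hpp⟩
  have h : Nat.card (F ≃+* F) = m := H73.card_ringAut hm
  rw [h, hm]
  exact Nat.pow_le_pow_left hpp.two_le _

theorem aut_le (F : Type) [Field F] [Fintype F] {k : ℕ} (h : Fintype.card F < 2 ^ (k + 1)) :
    Nat.card (F ≃+* F) ≤ k :=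
  Nat.lt_succ_iff.1 ((Nat.pow_lt_pow_iff_right one_lt_two).1 ((two_pow_le F).trans_lt h))

theorem aut_comm (F : Type) [Field F] [Fintype F] (σ τ : F ≃+* F) : σ * τ = τ * σ := by
  have : IsCyclic (F ≃+* F) := H73.isCyclic_ringAut
  obtain ⟨g, hg⟩ := IsCyclic.exists_generator (α := F ≃+* F)
  obtain ⟨i, rfl⟩ := hg σ
  obtain ⟨j, rfl⟩ := hg τ
  exact zpow_mul_comm g i j

theorem inv_unique (F : Type) [Field F] [Fintype F] {σ τ : F ≃+* F} (h1 : σ ^ 2 = 1) (h2 : σ ≠ 1)
    (h3 : τ ^ 2 = 1) (h4 : τ ≠ 1) : σ = τ := by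
  classical
  have : IsCyclic (F ≃+* F) := H73.isCyclic_ringAut
  have : Finite (F ≃+* F) := H73.finite_ringAut
  have := Fintype.ofFinite (F ≃+* F)
  by_contra hne
  have h := IsCyclic.card_pow_eq_one_le (α := F ≃+* F) (n := 2) two_pos
  have h5 : ({1, σ, τ} : Finset (F ≃+* F)) ⊆ Finset.univ.filter fun a => a ^ 2 = 1 := by
    intro x hx
    simp only [Finset.mem_insert, Finset.mem_singleton] at hx
    rcases hx with rfl | rfl | rfl <;> simp [h1, h3]
  have h6 := (Finset.card_le_card h5).trans h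
  rw [Finset.card_eq_three.2 ⟨1, σ, τ, h2.symm, h4.symm, hne, rfl⟩] at h6
  omega

section
variable {F : Type} [Field F] [Fintype F] [DecidableEq F] {n : ℕ} {c : Cl F n}

theorem card_T : Nat.card ({b : Bool // c.u = true → b = false} × (F ≃+* F)) = c.outB := by
  rw [Nat.card_prod, Cl.outB]
  cases c.u
  · rw [Nat.card_eq_fintype_card]
    rfl
  · rw [Nat.card_eq_fintype_card]
    rfl

theorem ord1 (ka : KA c) (kt : KT c) (X : Subgroup (Au n F)) (hX : ∀ ψ ∈ X, c.Std ψ) :
    Nat.card X * c.zc ≤ c.outB * Nat.card (c.hat X) := by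
  have : Finite (F ≃+* F) := H73.finite_ringAut
  have : Finite (Au n F) := Finite.of_injective (fun σ : Au n F => (σ : Gl n F → Gl n F))
    DFunLike.coe_injective
  set κ : Gl n F →* Au n F := MulAut.conj with hκ
  have hJ : (c.hat X).map κ ≤ X := by
    rintro _ ⟨a, ha, rfl⟩
    exact ((ka.mem_hat X a).1 ha).2
  have h1 : Nat.card (c.hat X) = c.zc * Nat.card ((c.hat X).map κ) := by
    rw [← Subgroup.relIndex_ker, Subgroup.relIndex, ← (κ.ker.subgroupOf (c.hat X)).card_mul_index,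
      ← ka.card_Z]
    congr 1
    have : κ.ker.subgroupOf (c.hat X) = c.Z.subgroupOf (c.hat X) := by
      ext a
      simp only [Subgroup.mem_subgroupOf, MonoidHom.mem_ker]
      exact ka.conj_one a ((ka.mem_hat X a).1 a.2).1
    rw [this]
    exact Nat.card_congr (Subgroup.subgroupOfEquivOfLe (ka.z_hat X)).toEquiv
  have h2 : Nat.card X = Nat.card ((c.hat X).map κ) * (((c.hat X).map κ).subgroupOf X).index := by
    rw [← (((c.hat X).map κ).subgroupOf X).card_mul_index,
      Nat.card_congr (Subgroup.subgroupOfEquivOfLe hJ).toEquiv]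
  choose t ht using hX
  have h3 : (((c.hat X).map κ).subgroupOf X).index ≤ c.outB := by
    rw [← card_T, Subgroup.index]
    refine Nat.card_le_card_of_injective (fun y => (⟨(t y.out.1 y.out.2).neg, fun hu => ?_⟩,
      (t y.out.1 y.out.2).σ)) fun y y' h => ?_
    · by_contra h
      have := ((ht y.out.1 y.out.2).2.1 (by simpa using h)).1
      rw [hu] at this
      exact Bool.noConfusion this
    · obtain ⟨e1, e2⟩ := Prod.mk.inj h
      have e1 := Subtype.mk.inj e1
      obtain ⟨t1, i1, s1, n1, -⟩ := kt.inv_ind _ _ (ht y.out.1 y.out.2)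
      obtain ⟨t2, i2, s2, n2, -⟩ := kt.mul_ind _ _ _ _ i1 (ht y'.out.1 y'.out.2)
      have e := kt.inner _ _ i2 (by rw [n2, n1, e1, Bool.xor_self]) (by rw [s2, s1, e2, inv_mul_cancel])
      rw [← y.out_eq', ← y'.out_eq', QuotientGroup.eq, Subgroup.mem_subgroupOf]
      refine ⟨t2.A, (ka.mem_hat X _).2 ⟨i2.1, ?_⟩, e.symm⟩
      rw [← e]
      exact X.mul_mem (X.inv_mem y.out.2) y'.out.2
  rw [h1, h2]
  calc _ ≤ Nat.card ((c.hat X).map κ) * c.outB * c.zc := by gcongr
    _ = _ := by ring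

theorem outB6 (hq : c.q ≤ 9) : c.outB ≤ 6 := by
  have h := c.hq
  rw [Cl.outB]
  cases hu : c.u
  · rw [hu] at h
    have := aut_le F (k := 3) (by rw [h]; simp only [Bool.false_eq_true, if_false]; omega)
    simp only [Bool.false_eq_true, if_false]
    omega
  · rw [hu] at h
    have := aut_le F (k := 6) (by
      rw [h, if_pos rfl]; exact (Nat.pow_le_pow_left hq 2).trans_lt (by norm_num))
    simp only [if_true]
    omega

theorem pow_ind (kt : KT c) {t : Tau F n} {δ : Au n F} (h : c.Ind t δ) (k : ℕ) :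
    ∃ t' : Tau F n, c.Ind t' (δ ^ k) ∧ t'.σ = t.σ ^ k ∧ (t.neg = true → (t'.neg = false ↔ Even k)) ∧
      ∀ x, t'.ap x = t.ap^[k] x := by
  induction k with
  | zero =>
    obtain ⟨h1, h2⟩ := kt.conj 1 (one_mem _)
    refine ⟨⟨RingEquiv.refl F, false, 1⟩, by rwa [map_one] at h1, rfl, by simp, fun x => ?_⟩
    rw [h2, cj]
    simp
  | succ k ih =>
    obtain ⟨t1, i1, s1, n1, a1⟩ := ih
    obtain ⟨t2, i2, s2, n2, a2⟩ := kt.mul_ind _ _ _ _ h i1
    refine ⟨t2, by rwa [pow_succ'], by rw [s2, s1, pow_succ'], fun hn => ?_, fun x => ?_⟩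
    · rw [n2, hn, Nat.even_add_one, ← n1 hn]
      cases t1.neg <;> simp
    · rw [a2, a1, Function.iterate_succ_apply']

end

theorem ordS (hKA : KAStmt) (hKT : KTStmt) : OrdStmt := by
  intro F _ _ _ n c
  have ka := hKA F n c
  have kt := hKT F n c
  refine ⟨ord1 ka kt, ?_, outB6, fun h => ?_, fun X hX hq h => ?_⟩
  · rintro ψ ψ' ⟨t, ht⟩ ⟨t', ht'⟩
    obtain ⟨t1, i1, s1, n1, -⟩ := kt.inv_ind _ _ ht
    obtain ⟨t2, i2, s2, n2, -⟩ := kt.inv_ind _ _ ht'
    obtain ⟨t3, i3, s3, n3, -⟩ := kt.mul_ind _ _ _ _ ht ht'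
    obtain ⟨t4, i4, s4, n4, -⟩ := kt.mul_ind _ _ _ _ i3 i1
    obtain ⟨t5, i5, s5, n5, -⟩ := kt.mul_ind _ _ _ _ i4 i2
    refine ⟨t5.A, i5.1, kt.inner _ _ i5 ?_ ?_⟩
    · rw [n5, n4, n3, n2, n1]
      cases t.neg <;> cases t'.neg <;> rfl
    · rw [s5, s4, s3, s2, s1, aut_comm F t.σ, mul_inv_cancel_right, mul_inv_cancel]
  · have := aut_le F (k := 6) (h.trans_lt (by norm_num))
    rw [Cl.outB]
    split_ifs <;> omega
  · have h0 : 0 < c.zc := Nat.pos_of_ne_zero fun e => ka.pz (e ▸ dvd_zero _)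
    refine Nat.le_of_mul_le_mul_right ((ord1 ka kt X hX).trans ?_) h0
    calc _ ≤ 6 * (5184 * c.zc) := Nat.mul_le_mul (outB6 hq) h
      _ = _ := by ring

theorem delKS (hKA : KAStmt) (hKT : KTStmt) (hKV : KVStmt) (hU : UniqStmt) : DelKStmt := by
  intro F _ _ _ n c r H δ t hr hd ht
  have ka := hKA F n c
  have kt := hKT F n c
  have kv := hKV F n c
  obtain ⟨t1, i1, s1, n1, a1⟩ := pow_ind kt ht r
  rw [hd.dr] at i1
  obtain ⟨-, u2, u3⟩ := hU F n c t1 1 i1 fun s _ => by
    rw [MulAut.one_apply, mul_inv_cancel]; exact one_mem _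
  have p1 : t.σ ^ r = 1 := s1 ▸ u3
  have p2 : t.neg = false → t.σ ≠ 1 := fun h e => hd.dI _ ht.1 (kt.inner _ _ ht h e)
  refine ⟨fun h => (hr.even_iff).1 ((n1 h).1 u2), p1, p2, fun h x => ?_, fun s hs hu => ?_,
    fun hu h a => ?_⟩
  · subst h
    have hz := (ka.conj_one _ i1.1).1 (kt.inner _ _ i1 u2 u3).symm
    obtain ⟨a, -, ha⟩ := (ka.mem_Z _).1 hz
    have e : t1 = ⟨RingEquiv.refl F, false, t1.A⟩ := by
      cases t1
      simp only at u2 u3
      subst u2 u3
      rfl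
    have := a1 x
    rw [e, (kt.conj _ i1.1).2, cj] at this
    change _ = t.ap (t.ap x) at this
    rw [← this]
    have hc : (t1.A : Mt n F) * x = x * t1.A := by rw [ha]; simp
    rw [hc, mul_assoc, Units.mul_inv, mul_one]
  · obtain ⟨k, hk⟩ := (kv.upow s).1 hu
    have hz := hd.cen s hs
    have h1 : (δ s * s⁻¹ * s) ^ c.p ^ k = 1 := by
      rw [inv_mul_cancel_right, ← map_pow, hk, map_one]
    rw [(ka.zcomm _ hz s).mul_pow, hk, mul_one] at h1
    exact mul_inv_eq_one.1 (kv.uz _ hz ((kv.upow _).2 ⟨k, h1⟩))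
  · subst h
    have hn : t.neg = false := by
      by_contra h
      have := (ht.2.1 (by simpa using h)).1
      rw [hu] at this
      exact Bool.noConfusion this
    let θ : F ≃+* F :=
      { toFun := fun a => a ^ c.q
        invFun := fun a => a ^ c.q
        left_inv := ka.fr_fr hu
        right_inv := ka.fr_fr hu
        map_mul' := fun a b => mul_pow a b _
        map_add' := ka.fr_add hu }
    have : t.σ = θ := inv_unique F p1 (p2 hn) (RingEquiv.ext fun a => ka.fr_fr hu a) fun e => by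
      obtain ⟨a, ha⟩ := ka.fr_ne hu
      exact ha (RingEquiv.congr_fun e a)
    rw [this]
    rfl

end Cfsg.Agent.H16.SwOrd
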